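import Mathlib
import Cfsg.Agent.Helper12.AMDefs
import Cfsg.Agent.Helper12.AMCARD
import Cfsg.Agent.Helper12.AMPOW
import Cfsg.Agent.Helper12.AMSURG
import Cfsg.Agent.Helper12.AMSURG2
import Cfsg.Agent.Helper12.AMSURG3

/-!
# CALL S2506 (helper12), piece C2: a maximal abelian subgroup of `A_n` has no orbit of size 2

`osz_ne_two_core` takes the pieces S1 (`osz_le_five`) and C2a (`no_swap`) as hypotheses.
-/

set_option autoImplicit false

namespace Cfsg.Agent.Helper34.AMC2Core

open Cfsg.Agent.Helper12 Cfsg.Agent.Helper12.AM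

variable {α : Type*} [Fintype α] [DecidableEq α]

theorem osz_ne_two_core (A : Subgroup (Equiv.Perm α)) (hA : MaxAb A) (W : Wits α)
    (hS1 : ∀ z, osz A z ≤ 5)
    (hswap : ∀ x, osz A x = 2 → ∀ b ∈ A, (∀ z, z ∉ orb A x → b z = z) → b x ≠ x → False)
    (x : α) : osz A x ≠ 2 := by
  intro hx
  -- (i) the other orbits have 2 or 3 points
  have hi : ∀ x', osz A x' = 2 → ∀ y, y ∉ orb A x' → osz A y = 2 ∨ osz A y = 3 := by
    intro x' hx' y hy
    have h1 := osz_pos A y
    have h5 := hS1 y
    have e1 : osz A y ≠ 1 := by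
      intro h
      have := AMSURG2.surg_two A hA x' y hy 3 (by rw [hx', h]; exact W.w3)
      rw [hx', h] at this; omega
    have e4 : osz A y ≠ 4 := by
      intro h
      have := AMSURG2.surg_two A hA x' y hy 9 (by rw [hx', h]; exact W.w6)
      rw [hx', h] at this; omega
    have e5 : osz A y ≠ 5 := by
      intro h
      have := AMSURG2.surg_two A hA x' y hy 12 (by rw [hx', h]; exact W.w7)
      rw [hx', h] at this; omega
    omega
  -- an element of `A` moving `x`
  obtain ⟨a, haA, hax⟩ : ∃ a ∈ A, a x ≠ x := by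
    have hex : ∃ y ∈ orb A x, y ≠ x := by
      by_contra hcon
      push Not at hcon
      have hsub : orb A x ⊆ {x} := fun y hy => Finset.mem_singleton.mpr (hcon y hy)
      have hle := Finset.card_le_card hsub
      rw [Finset.card_singleton] at hle
      have h2 : (orb A x).card = 2 := hx
      omega
    obtain ⟨y, hy, hyx⟩ := hex
    obtain ⟨a, ha, rfl⟩ := (mem_orb A x y).1 hy
    exact ⟨a, ha, hyx⟩
  have hpow2 : ∀ b ∈ A, ∀ u, osz A u = 2 → b (b u) = u := by
    intro b hb u hu
    have h := AMPOW.pow_fix A hA.comm b hb u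
    rw [hu, pow_two, Equiv.Perm.mul_apply] at h
    exact h
  have hpow3 : ∀ b ∈ A, ∀ u, osz A u = 3 → (b ^ 3) u = u := by
    intro b hb u hu
    have h := AMPOW.pow_fix A hA.comm b hb u
    rwa [hu] at h
  have hcube : ∀ b : Equiv.Perm α, ∀ u, (b ^ 3) u = b (b (b u)) := by
    intro b u
    rw [pow_succ, pow_two]
    simp only [Equiv.Perm.mul_apply]
  have hcube2 : ∀ b ∈ A, ∀ u, osz A u = 2 → (b ^ 3) u = b u := by
    intro b hb u hu
    rw [hcube, hpow2 b hb u hu]
  by_cases hall : ∀ y, y ∉ orb A x → osz A y = 3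
  · -- Case I
    exact hswap x hx (a ^ 3) (A.pow_mem haA 3) (fun z hz => hpow3 a haA z (hall z hz))
      (by rw [hcube2 a haA x hx]; exact hax)
  · -- Case II
    push Not at hall
    obtain ⟨y, hyx, hy3⟩ := hall
    have hy2 : osz A y = 2 := (hi x hx y hyx).resolve_right hy3
    have hz3 : ∀ z, z ∉ orb A x → z ∉ orb A y → osz A z = 3 := by
      intro z hzx hzy
      rcases hi x hx z hzx with h2 | h3
      · exfalso
        have := AMSURG3.surg_three A hA x y z hyx hzx hzy 9
          (by rw [hx, hy2, h2]; exact W.w6)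
        rw [hx, hy2, h2] at this; omega
      · exact h3
    have hclaim : ∀ b ∈ A, b x = x → b y = y := by
      intro b hb hbx
      by_contra hby
      refine hswap y hy2 (b ^ 3) (A.pow_mem hb 3) ?_ (by rw [hcube2 b hb y hy2]; exact hby)
      intro z hzy
      by_cases hzx : z ∈ orb A x
      · have h1 : b z = z := semireg A hA.comm b hb x z hzx hbx
        rw [hcube, h1, h1, h1]
      · exact hpow3 b hb z (hz3 z hzx hzy)
    have hK : ∀ b ∈ stab A x, ∀ u ∈ orb A x ∪ orb A y, b u = u := by
      intro b hb u hu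
      obtain ⟨hbA, hbx⟩ := (mem_stab A x b).1 hb
      rcases Finset.mem_union.1 hu with h | h
      · exact semireg A hA.comm b hbA x u h hbx
      · exact semireg A hA.comm b hbA y u h (hclaim b hbA hbx)
    have hcardU : (orb A x ∪ orb A y).card = 4 := by
      rw [Finset.card_union_of_disjoint (AMSURG2.orb_disjoint A x y hyx)]
      show osz A x + osz A y = 4
      rw [hx, hy2]
    have hs := AMSURG.surgery A hA (stab A x) (stab_le A x) (orb A x ∪ orb A y) hK 4
      (by rw [hcardU]; exact W.w4)
    have hc := AMCARD.card_eq A x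
    rw [hx] at hc
    have hpos : 0 < Nat.card (stab A x) := Nat.card_pos
    omega

end Cfsg.Agent.Helper34.AMC2Core
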