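import Mathlib
import Cfsg.Agent.Helper12.AMDefs
import Cfsg.Agent.Helper12.AMS1
import Cfsg.Agent.Helper12.AMC2a
import Cfsg.Agent.Helper34.AMC2Core

/-!
# CALL S2506 (helper12), piece C2: a maximal abelian subgroup of `A_n` has no orbit of size 2
-/

set_option autoImplicit false

namespace Cfsg.Agent.Helper34.AMC2

open Cfsg.Agent.Helper12 Cfsg.Agent.Helper12.AM

variable {α : Type*} [Fintype α] [DecidableEq α]

-- PIECE C2
theorem osz_ne_two (A : Subgroup (Equiv.Perm α)) (hA : MaxAb A) (W : Wits α) (x : α) :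
    osz A x ≠ 2 :=
  Cfsg.Agent.Helper34.AMC2Core.osz_ne_two_core A hA W (fun z => AMS1.osz_le_five A hA W z)
    (fun x hx b hb hfix hbx => AMC2a.no_swap A hA x hx b hb hfix hbx) x

end Cfsg.Agent.Helper34.AMC2
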