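/-
Helper library of seat helper34: a fixed-point lemma for "Frobenius-like" actions on `p`-groups,
`p` odd.  `K` is a `p'`-group and `u` an element normalizing `K` such that the powers `u^i`,
`0 < i < n`, act fixed-point-freely on `K`; both normalize the `p`-group `Q`, and `u^n`
centralizes `Q`.  If `K` centralizes the elements of order `p` of `C_Q(u)`, then `K` centralizes
`Q` (`frob_centralizes`).
-/
import Mathlib
import Cfsg.Agent.Helper34.FrobSum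
import Cfsg.Agent.Helper24.Coprime

set_option autoImplicit false

namespace Cfsg.Agent.Helper34

open Subgroup Finset
open scoped commutatorElement

section FrobAct

variable {X : Type*} [Group X]

/-- Conjugation by a normalizing element, as an endomorphism of `Q`. -/
def cjHom (Q : Subgroup X) (g : X) (hg : g ∈ normalizer (Q : Set X)) : ↥Q →* ↥Q :=
  MonoidHom.mk' (fun x => ⟨g * x * g⁻¹, (Subgroup.mem_normalizer_iff.mp hg x).mp x.2⟩)
    (fun x y => Subtype.ext (by simp [mul_assoc]))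

theorem cjHom_coe (Q : Subgroup X) (g : X) (hg : g ∈ normalizer (Q : Set X)) (x : ↥Q) :
    ((cjHom Q g hg x : ↥Q) : X) = g * x * g⁻¹ := rfl

/-- The endomorphism of the abelianization of `Q` induced by conjugation. -/
def abHom (Q : Subgroup X) (g : X) (hg : g ∈ normalizer (Q : Set X)) :
    Abelianization ↥Q →* Abelianization ↥Q := Abelianization.map (cjHom Q g hg)

theorem ab_surj {G : Type*} [Group G] (w : Abelianization G) :
    ∃ x : G, Abelianization.of x = w := by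
  obtain ⟨x, rfl⟩ := QuotientGroup.mk_surjective w
  exact ⟨x, rfl⟩

theorem abHom_of (Q : Subgroup X) (g : X) (hg : g ∈ normalizer (Q : Set X)) (x : ↥Q) :
    abHom Q g hg (Abelianization.of x) = Abelianization.of (cjHom Q g hg x) :=
  Abelianization.map_of _ _

theorem abHom_mul (Q : Subgroup X) (g h : X) (hg : g ∈ normalizer (Q : Set X))
    (hh : h ∈ normalizer (Q : Set X)) (hgh : g * h ∈ normalizer (Q : Set X))
    (w : Abelianization ↥Q) : abHom Q (g * h) hgh w = abHom Q g hg (abHom Q h hh w) := by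
  obtain ⟨x, rfl⟩ := ab_surj w
  rw [abHom_of, abHom_of, abHom_of]
  congr 1
  apply Subtype.ext
  simp only [cjHom_coe]
  group

theorem abHom_one (Q : Subgroup X) (h1 : (1 : X) ∈ normalizer (Q : Set X))
    (w : Abelianization ↥Q) : abHom Q 1 h1 w = w := by
  obtain ⟨x, rfl⟩ := ab_surj w
  rw [abHom_of]
  congr 1
  apply Subtype.ext
  simp only [cjHom_coe]
  group

open Classical in
/-- The class of an element of `Q` in the abelianization of `Q` (`1` outside `Q`). -/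
noncomputable def piQ (Q : Subgroup X) (x : X) : Abelianization ↥Q :=
  if h : x ∈ Q then Abelianization.of ⟨x, h⟩ else 1

theorem piQ_of_mem (Q : Subgroup X) {x : X} (h : x ∈ Q) :
    piQ Q x = Abelianization.of ⟨x, h⟩ := dif_pos h

theorem piQ_mul (Q : Subgroup X) {x y : X} (hx : x ∈ Q) (hy : y ∈ Q) :
    piQ Q (x * y) = piQ Q x * piQ Q y := by
  rw [piQ_of_mem Q hx, piQ_of_mem Q hy, piQ_of_mem Q (Q.mul_mem hx hy), ← map_mul]
  rfl

theorem piQ_one (Q : Subgroup X) : piQ Q 1 = 1 := by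
  rw [piQ_of_mem Q Q.one_mem]
  exact map_one _

theorem piQ_inv (Q : Subgroup X) {x : X} (hx : x ∈ Q) : piQ Q x⁻¹ = (piQ Q x)⁻¹ := by
  rw [piQ_of_mem Q hx, piQ_of_mem Q (Q.inv_mem hx), ← map_inv]
  rfl

theorem piQ_conj (Q : Subgroup X) {g x : X} (hg : g ∈ normalizer (Q : Set X)) (hx : x ∈ Q) :
    piQ Q (g * x * g⁻¹) = abHom Q g hg (piQ Q x) := by
  rw [piQ_of_mem Q hx, piQ_of_mem Q ((Subgroup.mem_normalizer_iff.mp hg x).mp hx), abHom_of]
  rfl

theorem map_subtype_commutator' (Q : Subgroup X) :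
    (commutator ↥Q).map Q.subtype = ⁅Q, Q⁆ := by
  rw [commutator_def, Subgroup.map_commutator, ← MonoidHom.range_eq_map, Subgroup.range_subtype]

theorem piQ_eq_one_iff (Q : Subgroup X) {x : X} (hx : x ∈ Q) :
    piQ Q x = 1 ↔ x ∈ (⁅Q, Q⁆ : Subgroup X) := by
  rw [piQ_of_mem Q hx, ← MonoidHom.mem_ker, Abelianization.ker_of, ← map_subtype_commutator']
  constructor
  · intro h
    exact ⟨⟨x, hx⟩, h, rfl⟩
  · rintro ⟨y, hy, hyx⟩
    have : y = ⟨x, hx⟩ := Subtype.ext hyx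
    rwa [this] at hy

/-! ### Norm identities -/

theorem nm_succ (y u : X) (m : ℕ) :
    (y * u) ^ (m + 1) * (u ^ (m + 1))⁻¹ = ((y * u) ^ m * (u ^ m)⁻¹) * (u ^ m * y * (u ^ m)⁻¹) := by
  rw [pow_succ, pow_succ]
  generalize (y * u) ^ m = a
  generalize u ^ m = b
  group

theorem nm_conj (y u : X) (n : ℕ) (h : u ^ n * y = y * u ^ n) :
    u * ((y * u) ^ n * (u ^ n)⁻¹) * u⁻¹ = y⁻¹ * ((y * u) ^ n * (u ^ n)⁻¹) * y := by
  have hab : (y * u) * (y * u) ^ n = (y * u) ^ n * (y * u) := (pow_succ' _ _).symm.trans (pow_succ _ _)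
  have hub : u * u ^ n = u ^ n * u := (pow_succ' _ _).symm.trans (pow_succ _ _)
  generalize (y * u) ^ n = a at hab ⊢
  generalize u ^ n = b at hub h ⊢
  have hua : u * a = y⁻¹ * a * y * u := by
    calc u * a = y⁻¹ * ((y * u) * a) := by group
      _ = y⁻¹ * (a * (y * u)) := by rw [hab]
      _ = y⁻¹ * a * y * u := by group
  have hubinv : u * b⁻¹ * u⁻¹ = b⁻¹ := by
    calc u * b⁻¹ * u⁻¹ = b⁻¹ * (b * u) * b⁻¹ * u⁻¹ := by group
      _ = b⁻¹ * (u * b) * b⁻¹ * u⁻¹ := by rw [hub]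
      _ = b⁻¹ := by group
  have hybinv : y * b⁻¹ = b⁻¹ * y := by
    calc y * b⁻¹ = b⁻¹ * (b * y) * b⁻¹ := by group
      _ = b⁻¹ * (y * b) * b⁻¹ := by rw [h]
      _ = b⁻¹ * y := by group
  calc u * (a * b⁻¹) * u⁻¹ = (u * a) * (b⁻¹ * u⁻¹) := by group
    _ = (y⁻¹ * a * y * u) * (b⁻¹ * u⁻¹) := by rw [hua]
    _ = y⁻¹ * a * y * (u * b⁻¹ * u⁻¹) := by group
    _ = y⁻¹ * a * y * b⁻¹ := by rw [hubinv]
    _ = y⁻¹ * a * (y * b⁻¹) := by group
    _ = y⁻¹ * a * (b⁻¹ * y) := by rw [hybinv]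
    _ = y⁻¹ * (a * b⁻¹) * y := by group

theorem fix_aux (a t y c : X) (hc : c = a⁻¹ * y⁻¹ * a * y) (hcy : c * y = y * c)
    (hca : c * a = a * c) (hty : t * y = y * t) :
    (y⁻¹ * a * y) * (y * (a * t) * y⁻¹) = a * (a * t) := by
  have e1 : y⁻¹ * a * y = a * c := by rw [hc]; group
  have e2 : y * a * y⁻¹ = a * c⁻¹ := by
    have h1 : a = y * (a * c) * y⁻¹ := by rw [← e1]; group
    have hcy' : c * y⁻¹ = y⁻¹ * c := by
      calc c * y⁻¹ = y⁻¹ * (y * c) * y⁻¹ := by group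
        _ = y⁻¹ * (c * y) * y⁻¹ := by rw [hcy]
        _ = y⁻¹ * c := by group
    have h2 : y * (a * c) * y⁻¹ = (y * a * y⁻¹) * c := by
      calc y * (a * c) * y⁻¹ = y * a * (c * y⁻¹) := by group
        _ = y * a * (y⁻¹ * c) := by rw [hcy']
        _ = (y * a * y⁻¹) * c := by group
    rw [h2] at h1
    calc y * a * y⁻¹ = (y * a * y⁻¹ * c) * c⁻¹ := by group
      _ = a * c⁻¹ := by rw [← h1]
  have e3 : y * t * y⁻¹ = t := by rw [← hty]; group
  calc (y⁻¹ * a * y) * (y * (a * t) * y⁻¹) = (y⁻¹ * a * y) * ((y * a * y⁻¹) * (y * t * y⁻¹)) := by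
        group
    _ = (a * c) * ((a * c⁻¹) * t) := by rw [e1, e2, e3]
    _ = a * (c * a) * c⁻¹ * t := by group
    _ = a * (a * c) * c⁻¹ * t := by rw [hca]
    _ = a * (a * t) := by group


/-! ### The exponent `p`, class two case -/

theorem frob_exp_p [Finite X] {p : ℕ} [Fact p.Prime] (hp2 : p ≠ 2) (K Q : Subgroup X) (u : X)
    (n : ℕ) (hn : 0 < n) (hKp : (Nat.card K).Coprime p) (huK : u ∈ normalizer (K : Set X))
    (hfpf : ∀ i, 0 < i → i < n → ∀ k ∈ K, u ^ i * k = k * u ^ i → k = 1)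
    (hQ : IsPGroup p Q) (hKQ : K ≤ normalizer (Q : Set X)) (huQ : u ∈ normalizer (Q : Set X))
    (hun : ∀ x ∈ Q, u ^ n * x = x * u ^ n)
    (hfix : ∀ x ∈ Q, u * x = x * u → ∀ k ∈ K, k * x = x * k)
    (hQK : ⁅Q, K⁆ = Q) (hQ'Z : ⁅Q, Q⁆ ≤ centralizer (Q : Set X)) :
    Q ≤ ⁅Q, Q⁆ := by
  classical
  have hp : p.Prime := Fact.out
  let instK : Fintype ↥K := Fintype.ofFinite _
  let ρ : ↥K → (Abelianization ↥Q →* Abelianization ↥Q) := fun k => abHom Q k (hKQ k.2)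
  let υ : Abelianization ↥Q →* Abelianization ↥Q := abHom Q u huQ
  let θ : ↥K →* ↥K := cjHom K u huK
  have hρ1 : ∀ w, ρ 1 w = w := fun w => abHom_one Q _ w
  have hρm : ∀ k l w, ρ (k * l) w = ρ k (ρ l w) := fun k l w => abHom_mul Q k l _ _ _ w
  have hρpi : ∀ (k : ↥K) (y : X), y ∈ Q → ρ k (piQ Q y) = piQ Q (k * y * (k : X)⁻¹) :=
    fun k y hy => (piQ_conj Q (hKQ k.2) hy).symm
  have hυpi : ∀ (y : X), y ∈ Q → υ (piQ Q y) = piQ Q (u * y * u⁻¹) :=
    fun y hy => (piQ_conj Q huQ hy).symm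
  have hpiSurj : ∀ w : Abelianization ↥Q, ∃ y ∈ Q, piQ Q y = w := by
    intro w
    obtain ⟨x, rfl⟩ := ab_surj w
    exact ⟨x, x.2, piQ_of_mem Q x.2⟩
  have hc : ∀ k w, υ (ρ k w) = ρ (θ k) (υ w) := by
    intro k w
    obtain ⟨y, hy, rfl⟩ := hpiSurj w
    have hky : (k : X) * y * (k : X)⁻¹ ∈ Q := (Subgroup.mem_normalizer_iff.mp (hKQ k.2) y).mp hy
    have huy : u * y * u⁻¹ ∈ Q := (Subgroup.mem_normalizer_iff.mp huQ y).mp hy
    rw [hρpi k y hy, hυpi _ hky, hυpi y hy, hρpi _ _ huy]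
    congr 1
    show u * (↑k * y * (↑k : X)⁻¹) * u⁻¹ = (u * ↑k * u⁻¹) * (u * y * u⁻¹) * (u * ↑k * u⁻¹)⁻¹
    group
  have hθ : ∀ (i : ℕ) (k : ↥K), (((θ^[i]) k : ↥K) : X) = u ^ i * k * (u ^ i)⁻¹ := by
    intro i
    induction i with
    | zero => intro k; simp
    | succ i ih =>
      intro k
      rw [Function.iterate_succ_apply']
      show u * (((θ^[i]) k : ↥K) : X) * u⁻¹ = _
      rw [ih, pow_succ']
      group
  have huiQ : ∀ (i : ℕ) (y : X), y ∈ Q → u ^ i * y * (u ^ i)⁻¹ ∈ Q := fun i y hy =>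
    (Subgroup.mem_normalizer_iff.mp (Subgroup.pow_mem _ huQ i) y).mp hy
  have hυi : ∀ (i : ℕ) (y : X), y ∈ Q → (υ^[i]) (piQ Q y) = piQ Q (u ^ i * y * (u ^ i)⁻¹) := by
    intro i
    induction i with
    | zero => intro y hy; simp
    | succ i ih =>
      intro y hy
      rw [Function.iterate_succ_apply', ih y hy, hυpi _ (huiQ i y hy)]
      congr 1
      rw [pow_succ']
      group
  have hWp : ∀ w : Abelianization ↥Q, w ^ Nat.card ↥Q = 1 := by
    intro w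
    obtain ⟨x, rfl⟩ := ab_surj w
    rw [← map_pow, pow_card_eq_one', map_one]
  obtain ⟨e, he⟩ := IsPGroup.iff_card.mp hQ
  have hW1 : ∀ w : Abelianization ↥Q, w ^ Nat.card ↥K = 1 → w = 1 := by
    intro w hw
    have h1 : orderOf w ∣ Nat.card ↥K := orderOf_dvd_of_pow_eq_one hw
    have h2 : orderOf w ∣ p ^ e := by rw [← he]; exact orderOf_dvd_of_pow_eq_one (hWp w)
    have h3 : (Nat.card ↥K).Coprime (p ^ e) := Nat.Coprime.pow_right e hKp
    exact orderOf_eq_one_iff.mp (Nat.eq_one_of_dvd_coprimes h3 h1 h2)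
  let T : Abelianization ↥Q →* Abelianization ↥Q := ∏ k : ↥K, ρ k
  have hTapp : ∀ w, T w = ∏ k : ↥K, ρ k w := fun w => MonoidHom.finsetProd_apply _ _ _
  have hTρ : ∀ (k : ↥K) w, T (ρ k w) = T w := by
    intro k w
    rw [hTapp, hTapp]
    have : ∀ l : ↥K, ρ l (ρ k w) = ρ (l * k) w := fun l => (hρm l k w).symm
    simp_rw [this]
    exact Fintype.prod_equiv (Equiv.mulRight k) _ _ (fun l => rfl)
  have hT0 : ∀ y ∈ Q, T (piQ Q y) = 1 := by
    have hle : ⁅Q, K⁆ ≤ ((T.comp Abelianization.of).ker).map Q.subtype := by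
      rw [Subgroup.commutator_le]
      intro x hx k hk
      have hxi : x⁻¹ ∈ Q := Q.inv_mem hx
      have hkx : k * x⁻¹ * k⁻¹ ∈ Q := (Subgroup.mem_normalizer_iff.mp (hKQ hk) x⁻¹).mp hxi
      have hcomm : ⁅x, k⁆ = x * (k * x⁻¹ * k⁻¹) := by rw [commutatorElement_def]; group
      have hmem : ⁅x, k⁆ ∈ Q := by rw [hcomm]; exact Q.mul_mem hx hkx
      refine ⟨⟨⁅x, k⁆, hmem⟩, ?_, rfl⟩
      show T (Abelianization.of ⟨⁅x, k⁆, hmem⟩) = 1
      rw [← piQ_of_mem Q hmem]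
      have e1 : piQ Q ⁅x, k⁆ = piQ Q x * ρ ⟨k, hk⟩ (piQ Q x⁻¹) := by
        rw [hρpi ⟨k, hk⟩ x⁻¹ hxi, ← piQ_mul Q hx hkx, hcomm]
      rw [e1, map_mul, hTρ, ← map_mul, ← piQ_mul Q hx hxi, mul_inv_cancel, piQ_one, map_one]
    intro y hy
    have hy' : y ∈ (⁅Q, K⁆ : Subgroup X) := by rw [hQK]; exact hy
    obtain ⟨y', hy'1, hy'2⟩ := hle hy'
    have hy'3 : T (Abelianization.of y') = 1 := hy'1
    have : y' = ⟨y, hy⟩ := Subtype.ext hy'2
    rw [piQ_of_mem Q hy, ← this]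
    exact hy'3
  have h2 : ∀ w, (∀ k, ρ k w = w) → w = 1 := by
    intro w hw
    apply hW1
    obtain ⟨y, hy, rfl⟩ := hpiSurj w
    have := hT0 y hy
    rw [hTapp] at this
    simp_rw [hw] at this
    rw [Finset.prod_const, Finset.card_univ, ← Nat.card_eq_fintype_card] at this
    exact this
  have h3 : ∀ i, 0 < i → i < n → ∀ k, (θ^[i]) k = k → k = 1 := by
    intro i hi hin k hk
    have h := congrArg Subtype.val hk
    rw [hθ] at h
    apply Subtype.ext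
    apply hfpf i hi hin k k.2
    calc u ^ i * k = (u ^ i * k * (u ^ i)⁻¹) * u ^ i := by group
      _ = k * u ^ i := by rw [h]
  have hNm : ∀ z ∈ Q, ∀ j : ℕ, (z * u) ^ j * (u ^ j)⁻¹ ∈ Q ∧
      piQ Q ((z * u) ^ j * (u ^ j)⁻¹) = ∏ i ∈ range j, (υ^[i]) (piQ Q z) := by
    intro z hz j
    induction j with
    | zero => simp [piQ_one]
    | succ j ih =>
      rw [nm_succ, Finset.prod_range_succ]
      refine ⟨Q.mul_mem ih.1 (huiQ j z hz), ?_⟩
      rw [piQ_mul Q ih.1 (huiQ j z hz), ih.2, hυi j z hz]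
  have h1 : ∀ w, ∏ i ∈ range n, (υ^[i]) w = 1 := by
    intro w
    obtain ⟨y, hy, rfl⟩ := hpiSurj w
    have hyi : y⁻¹ ∈ Q := Q.inv_mem hy
    obtain ⟨a, haQ, hapi, hua⟩ : ∃ a ∈ Q, piQ Q a = ∏ i ∈ range n, (υ^[i]) (piQ Q y) ∧
        u * a * u⁻¹ = y⁻¹ * a * y :=
      ⟨_, (hNm y hy n).1, (hNm y hy n).2, nm_conj y u n (hun y hy)⟩
    obtain ⟨a', ha'Q, ha'pi, hua'⟩ : ∃ a' ∈ Q, piQ Q a' = ∏ i ∈ range n, (υ^[i]) (piQ Q y⁻¹) ∧
        u * a' * u⁻¹ = y * a' * y⁻¹ := by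
      refine ⟨_, (hNm y⁻¹ hyi n).1, (hNm y⁻¹ hyi n).2, ?_⟩
      have := nm_conj y⁻¹ u n (hun y⁻¹ hyi)
      rwa [inv_inv] at this
    rw [← hapi]
    have hpi' : piQ Q a' = (piQ Q a)⁻¹ := by
      rw [ha'pi, hapi, piQ_inv Q hy, ← Finset.prod_inv_distrib]
      refine Finset.prod_congr rfl (fun i _ => ?_)
      exact iterate_map_inv υ i _
    have htQ : a⁻¹ * a'⁻¹ ∈ Q := Q.mul_mem (Q.inv_mem haQ) (Q.inv_mem ha'Q)
    have htQ' : a⁻¹ * a'⁻¹ ∈ (⁅Q, Q⁆ : Subgroup X) := by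
      rw [← piQ_eq_one_iff Q htQ, piQ_mul Q (Q.inv_mem haQ) (Q.inv_mem ha'Q), piQ_inv Q haQ,
        piQ_inv Q ha'Q, hpi', inv_inv, inv_mul_cancel]
    have hcQ' : a⁻¹ * y⁻¹ * a * y ∈ (⁅Q, Q⁆ : Subgroup X) := by
      have : a⁻¹ * y⁻¹ * a * y = ⁅a⁻¹, y⁻¹⁆ := by rw [commutatorElement_def, inv_inv, inv_inv]
      rw [this]; exact Subgroup.commutator_mem_commutator (Q.inv_mem haQ) hyi
    have hcy : (a⁻¹ * y⁻¹ * a * y) * y = y * (a⁻¹ * y⁻¹ * a * y) :=
      (Subgroup.mem_centralizer_iff.mp (hQ'Z hcQ') y hy).symm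
    have hca : (a⁻¹ * y⁻¹ * a * y) * a = a * (a⁻¹ * y⁻¹ * a * y) :=
      (Subgroup.mem_centralizer_iff.mp (hQ'Z hcQ') a haQ).symm
    have hty : (a⁻¹ * a'⁻¹) * y = y * (a⁻¹ * a'⁻¹) :=
      (Subgroup.mem_centralizer_iff.mp (hQ'Z htQ') y hy).symm
    have ha'eq : a'⁻¹ = a * (a⁻¹ * a'⁻¹) := by group
    have hxfix : u * (a * a'⁻¹) = (a * a'⁻¹) * u := by
      have h1 : u * (a * a'⁻¹) * u⁻¹ = (u * a * u⁻¹) * (u * a' * u⁻¹)⁻¹ := by group
      rw [hua, hua'] at h1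
      have h2 : (y⁻¹ * a * y) * (y * a' * y⁻¹)⁻¹ =
          (y⁻¹ * a * y) * (y * (a * (a⁻¹ * a'⁻¹)) * y⁻¹) := by group
      rw [h2, fix_aux a (a⁻¹ * a'⁻¹) y (a⁻¹ * y⁻¹ * a * y) rfl hcy hca hty, ← ha'eq] at h1
      calc u * (a * a'⁻¹) = (u * (a * a'⁻¹) * u⁻¹) * u := by group
        _ = (a * a'⁻¹) * u := by rw [h1]
    have hxQ : a * a'⁻¹ ∈ Q := Q.mul_mem haQ (Q.inv_mem ha'Q)
    have hKx := hfix _ hxQ hxfix
    have hfixed : ∀ k : ↥K, ρ k (piQ Q (a * a'⁻¹)) = piQ Q (a * a'⁻¹) := by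
      intro k
      rw [hρpi k _ hxQ]
      congr 1
      rw [hKx k k.2]; group
    have hsq := h2 _ hfixed
    rw [piQ_mul Q haQ (Q.inv_mem ha'Q), piQ_inv Q ha'Q, hpi', inv_inv] at hsq
    have ho2 : orderOf (piQ Q a) ∣ 2 := orderOf_dvd_of_pow_eq_one (by rw [pow_two]; exact hsq)
    have hop : orderOf (piQ Q a) ∣ p ^ e := by
      rw [← he]; exact orderOf_dvd_of_pow_eq_one (hWp _)
    have hcop2 : Nat.Coprime 2 (p ^ e) := by
      apply Nat.Coprime.pow_right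
      rw [Nat.coprime_primes Nat.prime_two hp]
      exact fun h => hp2 h.symm
    exact orderOf_eq_one_iff.mp (Nat.eq_one_of_dvd_coprimes hcop2 ho2 hop)
  have hall := frob_sum ρ hρ1 hρm υ θ hc n hn h1 h2 h3
  intro x hx
  rw [← piQ_eq_one_iff Q hx]
  apply hW1
  rw [Nat.card_eq_fintype_card]
  exact hall _

/-! ### The main theorem -/

/-- Elements of `Q` of order dividing `p`, as a subgroup, when `Q` has class at most two and
`p` is odd. -/
def omegaSub {p : ℕ} (hp : p.Prime) (hp2 : p ≠ 2) (Q : Subgroup X)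
    (hQ'Z : ⁅Q, Q⁆ ≤ centralizer (Q : Set X)) : Subgroup X where
  carrier := {x | x ∈ Q ∧ x ^ p = 1}
  one_mem' := ⟨Q.one_mem, one_pow _⟩
  inv_mem' := by
    rintro x ⟨hx, hxp⟩
    exact ⟨Q.inv_mem hx, by rw [inv_pow, hxp, inv_one]⟩
  mul_mem' := by
    rintro x y ⟨hx, hxp⟩ ⟨hy, hyp⟩
    refine ⟨Q.mul_mem hx hy, ?_⟩
    have hz : ⁅y, x⁆ ∈ (⁅Q, Q⁆ : Subgroup X) := Subgroup.commutator_mem_commutator hy hx
    have hzx : Commute ⁅y, x⁆ x := (Subgroup.mem_centralizer_iff.mp (hQ'Z hz) x hx).symm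
    have hzy : Commute ⁅y, x⁆ y := (Subgroup.mem_centralizer_iff.mp (hQ'Z hz) y hy).symm
    have hzp : ⁅y, x⁆ ^ p = 1 := by
      rw [← Helper24.commutator_pow_left_of_commute x y hzy p, hyp,
        commutatorElement_eq_one_iff_mul_comm, one_mul, mul_one]
    have hzc : ⁅y, x⁆ ^ (p.choose 2) = 1 := by
      have h2p : 2 < p := lt_of_le_of_ne hp.two_le (Ne.symm hp2)
      obtain ⟨c, hc⟩ := hp.dvd_choose_self (by norm_num : (2 : ℕ) ≠ 0) h2p
      rw [hc, pow_mul, hzp, one_pow]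
    rw [Helper24.mul_pow_of_commutator_commute x y hzx hzy p, hzc, hxp, hyp, one_mul, one_mul]

theorem mem_omegaSub {p : ℕ} (hp : p.Prime) (hp2 : p ≠ 2) (Q : Subgroup X)
    (hQ'Z : ⁅Q, Q⁆ ≤ centralizer (Q : Set X)) (x : X) :
    x ∈ omegaSub hp hp2 Q hQ'Z ↔ x ∈ Q ∧ x ^ p = 1 := Iff.rfl

theorem normalizer_le_normalizer_omegaSub {p : ℕ} (hp : p.Prime) (hp2 : p ≠ 2) (Q : Subgroup X)
    (hQ'Z : ⁅Q, Q⁆ ≤ centralizer (Q : Set X)) :
    normalizer (Q : Set X) ≤ normalizer ((omegaSub hp hp2 Q hQ'Z : Subgroup X) : Set X) := by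
  have key : ∀ g ∈ normalizer (Q : Set X), ∀ h ∈ omegaSub hp hp2 Q hQ'Z,
      g * h * g⁻¹ ∈ omegaSub hp hp2 Q hQ'Z := by
    intro g hg h hh
    rw [mem_omegaSub] at hh ⊢
    refine ⟨(Subgroup.mem_normalizer_iff.mp hg h).mp hh.1, ?_⟩
    rw [conj_pow, hh.2, mul_one, mul_inv_cancel]
  intro g hg
  refine Helper24.mem_normalizer_of_conj_mem (key g hg) (fun h hh => ?_)
  have := key g⁻¹ (Subgroup.inv_mem _ hg) h hh
  simpa using this

/-- **Frobenius-type fixed point lemma.**  `K` is a `p'`-subgroup, `u` normalizes `K` and the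
powers `u^i`, `0 < i < n`, have no nontrivial fixed point on `K`.  If `K` and `u` normalize the
`p`-group `Q` (`p` odd), `u^n` centralizes `Q`, and `K` centralizes every element of order
dividing `p` of `C_Q(u)`, then `K` centralizes `Q`. -/
theorem frob_centralizes [Finite X] {p : ℕ} [Fact p.Prime] (hp2 : p ≠ 2) (K : Subgroup X) (u : X)
    (n : ℕ) (hn : 0 < n) (hKp : (Nat.card K).Coprime p) (huK : u ∈ normalizer (K : Set X))
    (hfpf : ∀ i, 0 < i → i < n → ∀ k ∈ K, u ^ i * k = k * u ^ i → k = 1) :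
    ∀ (m : ℕ) (Q : Subgroup X), Nat.card Q ≤ m → IsPGroup p Q → K ≤ normalizer (Q : Set X) →
      u ∈ normalizer (Q : Set X) → (∀ x ∈ Q, u ^ n * x = x * u ^ n) →
      (∀ x ∈ Q, x ^ p = 1 → u * x = x * u → ∀ k ∈ K, k * x = x * k) →
      Q ≤ centralizer (K : Set X) := by
  have hp : p.Prime := Fact.out
  intro m
  induction m with
  | zero =>
    intro Q hm
    exact absurd hm (by have : 0 < Nat.card Q := Nat.card_pos; omega)
  | succ m ih =>
    intro Q hm hQ hKQ huQ hun hΩ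
    by_cases hQ1 : Q = ⊥
    · rw [hQ1]; exact bot_le
    have hcop : (Nat.card K).Coprime (Nat.card Q) := by
      obtain ⟨e, he⟩ := IsPGroup.iff_card.mp hQ
      rw [he]; exact Nat.Coprime.pow_right e hKp
    have ihM : ∀ M : Subgroup X, M < Q → K ≤ normalizer (M : Set X) →
        u ∈ normalizer (M : Set X) → M ≤ centralizer (K : Set X) := by
      intro M hM hKM huM
      exact ih M (by have := Helper24.card_lt_card_of_lt hM; omega) (hQ.to_le hM.le) hKM huM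
        (fun x hx => hun x (hM.le hx)) (fun x hx => hΩ x (hM.le hx))
    have hQK : ⁅Q, K⁆ ≤ Q := Subgroup.le_normalizer_iff_commutator_le_left.mp hKQ
    by_cases hlt : ⁅Q, K⁆ < Q
    · have huQK : u ∈ normalizer ((⁅Q, K⁆ : Subgroup X) : Set X) :=
        Helper24.normalizer_inf_le_normalizer_commutator Q K ⟨huQ, huK⟩
      exact Helper24.le_centralizer_of_commutator_le_centralizer hKQ hcop
        (ihM _ hlt (Subgroup.normalizer_commutator_ge_right Q K) huQK)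
    have hQKeq : ⁅Q, K⁆ = Q := by
      by_contra hne; exact hlt (lt_of_le_of_ne hQK hne)
    have hQ'lt : ⁅Q, Q⁆ < Q := Helper24.commutator_lt_of_isPGroup hQ hQ Subgroup.le_normalizer hQ1
    have hNQ' : normalizer (Q : Set X) ≤ normalizer ((⁅Q, Q⁆ : Subgroup X) : Set X) := by
      intro g hg; exact Helper24.normalizer_inf_le_normalizer_commutator Q Q ⟨hg, hg⟩
    have hQ'K : ⁅Q, Q⁆ ≤ centralizer (K : Set X) := ihM _ hQ'lt (hKQ.trans hNQ') (hNQ' huQ)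
    have hQ'Z : ⁅Q, Q⁆ ≤ centralizer (Q : Set X) := by
      have hMA : ⁅⁅Q, Q⁆, K⁆ = ⊥ := Subgroup.commutator_eq_bot_iff_le_centralizer.mpr hQ'K
      have h1 : ⁅⁅K, ⁅Q, Q⁆⁆, Q⁆ = ⊥ := by
        rw [Subgroup.commutator_comm K ⁅Q, Q⁆, hMA, Subgroup.commutator_bot_left]
      have h2 : ⁅⁅⁅Q, Q⁆, Q⁆, K⁆ = ⊥ := by
        have h : ⁅⁅Q, Q⁆, Q⁆ ≤ ⁅Q, Q⁆ :=
          Subgroup.le_normalizer_iff_commutator_le_left.mp (Subgroup.le_normalizer.trans hNQ')
        rw [← le_bot_iff, ← hMA]; exact Subgroup.commutator_mono h le_rfl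
      have h3 : ⁅⁅Q, K⁆, ⁅Q, Q⁆⁆ = ⊥ := Subgroup.commutator_commutator_eq_bot_of_rotate h1 h2
      rw [hQKeq, Subgroup.commutator_comm] at h3
      exact Subgroup.commutator_eq_bot_iff_le_centralizer.mp h3
    by_cases hexp : ∀ x ∈ Q, x ^ p = 1
    · exfalso
      have hle : Q ≤ ⁅Q, Q⁆ := frob_exp_p hp2 K Q u n hn hKp huK hfpf hQ hKQ huQ hun
        (fun x hx hux => hΩ x hx (hexp x hx) hux) hQKeq hQ'Z
      exact absurd (le_antisymm hle hQ'lt.le) hQ'lt.ne'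
    · have hΩlt : omegaSub hp hp2 Q hQ'Z < Q := by
        refine lt_of_le_of_ne (fun x hx => hx.1) ?_
        intro heq
        apply hexp
        intro x hx
        rw [← heq] at hx
        exact hx.2
      have hNΩ := normalizer_le_normalizer_omegaSub hp hp2 Q hQ'Z
      have hΩK : omegaSub hp hp2 Q hQ'Z ≤ centralizer (K : Set X) :=
        ihM _ hΩlt (hKQ.trans hNΩ) (hNΩ huQ)
      exact Helper24.le_centralizer_of_odd_of_centralizes_omega hp2 K hKp (Nat.card Q) Q le_rfl hQ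
        hKQ (fun x hx hxp a ha => Subgroup.mem_centralizer_iff.mp (hΩK ⟨hx, hxp⟩) a ha)

end FrobAct

end Cfsg.Agent.Helper34
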