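/-
Helper library of seat helper34: an abstract "Frobenius norm" lemma.
A finite group `K` acts on a commutative group `W` (maps `ρ k`), and `υ` is an endomorphism of `W`
twisting the action by an endomorphism `θ` of `K` whose iterates `θ^[i]`, `0 < i < n`, are
fixed-point-free.  If `K` has no nontrivial fixed point on `W` and the norm `∏_{i<n} υ^i` is
trivial, then `W` has exponent dividing `|K|`.
-/
import Mathlib

set_option autoImplicit false

namespace Cfsg.Agent.Helper34

open Finset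

theorem frob_sum {W K : Type*} [CommGroup W] [Group K] [Fintype K]
    (ρ : K → (W →* W)) (hρ1 : ∀ w, ρ 1 w = w) (hρm : ∀ k l w, ρ (k * l) w = ρ k (ρ l w))
    (υ : W →* W) (θ : K →* K) (hc : ∀ k w, υ (ρ k w) = ρ (θ k) (υ w))
    (n : ℕ) (hn : 0 < n)
    (h1 : ∀ w, ∏ i ∈ range n, (υ^[i]) w = 1)
    (h2 : ∀ w, (∀ k, ρ k w = w) → w = 1)
    (h3 : ∀ i, 0 < i → i < n → ∀ k, (θ^[i]) k = k → k = 1) :
    ∀ w : W, w ^ Fintype.card K = 1 := by
  intro w
  -- iterated twisting
  have hci : ∀ (i : ℕ) (k : K) (v : W), (υ^[i]) (ρ k v) = ρ ((θ^[i]) k) ((υ^[i]) v) := by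
    intro i
    induction i with
    | zero => intro k v; rfl
    | succ i ih =>
      intro k v
      rw [Function.iterate_succ_apply', Function.iterate_succ_apply', Function.iterate_succ_apply',
        ih, hc]
  -- the averaging map lands in the fixed points
  have hT : ∀ v : W, ∏ k : K, ρ k v = 1 := by
    intro v
    apply h2
    intro k₀
    rw [map_prod]
    have : ∀ k : K, ρ k₀ (ρ k v) = ρ (k₀ * k) v := fun k => (hρm k₀ k v).symm
    simp_rw [this]
    exact Fintype.prod_equiv (Equiv.mulLeft k₀) _ _ (fun k => rfl)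
  -- the double product
  have hS1 : ∏ k : K, ∏ i ∈ range n, ρ k⁻¹ ((υ^[i]) (ρ k w)) = 1 := by
    apply Finset.prod_eq_one
    intro k _
    rw [← map_prod, h1, map_one]
  rw [Finset.prod_comm] at hS1
  obtain ⟨m, rfl⟩ : ∃ m, n = m + 1 := ⟨n - 1, by omega⟩
  rw [Finset.prod_range_succ'] at hS1
  have hzero : ∏ k : K, ρ k⁻¹ ((υ^[0]) (ρ k w)) = w ^ Fintype.card K := by
    have : ∀ k : K, ρ k⁻¹ ((υ^[0]) (ρ k w)) = w := by
      intro k
      rw [Function.iterate_zero, id, ← hρm, inv_mul_cancel, hρ1]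
    simp_rw [this]
    rw [Finset.prod_const, Finset.card_univ]
  have hpos : ∏ i ∈ range m, ∏ k : K, ρ k⁻¹ ((υ^[i + 1]) (ρ k w)) = 1 := by
    apply Finset.prod_eq_one
    intro i hi
    have hi' : i + 1 < m + 1 := by have := Finset.mem_range.mp hi; omega
    have hterm : ∀ k : K, ρ k⁻¹ ((υ^[i + 1]) (ρ k w)) =
        ρ (k⁻¹ * (θ^[i + 1]) k) ((υ^[i + 1]) w) := by
      intro k
      rw [hci, ← hρm]
    simp_rw [hterm]
    have hinj : Function.Injective (fun k : K => k⁻¹ * (θ^[i + 1]) k) := by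
      intro k l hkl
      have hkl' : k⁻¹ * (θ^[i + 1]) k = l⁻¹ * (θ^[i + 1]) l := hkl
      have hfix : (θ^[i + 1]) (l * k⁻¹) = l * k⁻¹ := by
        rw [iterate_map_mul, iterate_map_inv]
        have e1 : (θ^[i + 1]) k = k * (l⁻¹ * (θ^[i + 1]) l) := by rw [← hkl']; group
        rw [e1]; group
      have := h3 (i + 1) (by omega) hi' _ hfix
      exact (mul_inv_eq_one.mp this).symm
    have hbij : Function.Bijective (fun k : K => k⁻¹ * (θ^[i + 1]) k) :=
      Finite.injective_iff_bijective.mp hinj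
    rw [Function.Bijective.prod_comp hbij (fun k => ρ k ((υ^[i + 1]) w))]
    exact hT _
  rw [hpos, one_mul, hzero] at hS1
  exact hS1

end Cfsg.Agent.Helper34
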