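/-
helper34: isolated `p`-minimal subgroups (Meierfrankenfeld–Parker–Rowley), basic lemmas.
`S` a Sylow `p`-subgroup of `G`, `P ≥ S` a `p`-minimal subgroup, `L` generated by `N_G(S)` and the
other `p`-minimal subgroups containing `S`, and `O_p(L) ≰ O_p(P)`.
-/
import Cfsg.Agent.Helper48.PMinimal2
import Cfsg.Agent.Helper47.Basic
import Cfsg.Agent.Helper22.Fitting
import Cfsg.Agent.Helper24.Coprime
import Cfsg.Agent.Helper35.Coprime
import Cfsg.Prelude.Def_LocalEven

set_option autoImplicit false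
set_option linter.unusedSectionVars false

namespace Cfsg.Agent.Helper34

open Cfsg

section iso

variable {G : Type*} [Group G] [Finite G] {p : ℕ} [Fact p.Prime]

omit [Finite G] [Fact p.Prime] in
/-- a subgroup normalising a `p`-subgroup of itself has it inside its `p`-core -/
theorem ipm_le_pCore_map {A H : Subgroup G} (hAH : A ≤ H) (hA : IsPGroup p A)
    (hn : H ≤ Subgroup.normalizer (A : Set G)) : A ≤ (Cfsg.pCore p ↥H).map H.subtype := by
  have h1 : (A.subgroupOf H).Normal := (Subgroup.normal_subgroupOf_iff_le_normalizer hAH).mpr hn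
  have h2 : IsPGroup p (A.subgroupOf H) := hA.comap_subtype
  have h3 := Helper47.le_pCore h1 h2
  intro a ha
  exact ⟨⟨a, hAH ha⟩, h3 (Subgroup.mem_subgroupOf.mpr ha), rfl⟩

omit [Finite G] in
/-- the image in `G` of a normal subgroup of `H` is normalised by `H` -/
theorem ipm_le_normalizer_map_subtype (H : Subgroup G) (N : Subgroup ↥H) [hN : N.Normal] :
    H ≤ Subgroup.normalizer ((N.map H.subtype : Subgroup G) : Set G) := by
  intro x hx
  rw [Subgroup.mem_normalizer_iff]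
  intro y
  constructor
  · rintro ⟨n, hn, rfl⟩
    exact ⟨⟨x, hx⟩ * n * ⟨x, hx⟩⁻¹, hN.conj_mem n hn _, rfl⟩
  · rintro ⟨n, hn, hh⟩
    refine ⟨⟨x, hx⟩⁻¹ * n * ⟨x, hx⟩, ?_, ?_⟩
    · have := hN.conj_mem n hn (⟨x, hx⟩⁻¹)
      rwa [inv_inv] at this
    · show x⁻¹ * (n : G) * x = y
      have h2 : (n : G) = x * y * x⁻¹ := hh
      rw [h2]; group

omit [Finite G] in
theorem ipm_normalizer_inf {A B : Subgroup G} {g : G}
    (hA : g ∈ Subgroup.normalizer (A : Set G)) (hB : g ∈ Subgroup.normalizer (B : Set G)) :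
    g ∈ Subgroup.normalizer ((A ⊓ B : Subgroup G) : Set G) := by
  rw [Subgroup.mem_normalizer_iff] at hA hB ⊢
  intro x
  rw [Subgroup.mem_inf, Subgroup.mem_inf, hA x, hB x]

/-- a `p`-subgroup normalised by a normal subgroup containing it lies in `O_p(G)` -/
theorem ipm_le_pCore_of_normal {A N : Subgroup G} (hA : IsPGroup p A) (hAN : A ≤ N)
    (hN : N.Normal) (hn : N ≤ Subgroup.normalizer (A : Set G)) : A ≤ Cfsg.pCore p G := by
  apply Helper22.le_pCore_of_isSubnormal p _ hA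
  apply Subgroup.IsSubnormal.trans hAN _ hN.isSubnormal
  apply Subgroup.Normal.isSubnormal
  exact (Subgroup.normal_subgroupOf_iff_le_normalizer hAN).mpr hn

/-- Lemma A: a subgroup over `S` not inside `M ≥ N_G(S)` contains a `p`-minimal subgroup over `S`
not inside `M`. -/
theorem ipm_exists_pmin (S : Sylow p G) (M : Subgroup G)
    (hM : Subgroup.normalizer ((S : Subgroup G) : Set G) ≤ M) :
    ∀ (n : ℕ) (H : Subgroup G), Nat.card H = n → (S : Subgroup G) ≤ H → ¬ H ≤ M →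
      ∃ R : Subgroup G, (S : Subgroup G) ≤ R ∧ R ≤ H ∧ Cfsg.IsPMinimal p ↥R ∧ ¬ R ≤ M := by
  intro n
  induction n using Nat.strong_induction_on with
  | _ n ih =>
    intro H hn hSH hHM
    by_cases hex : ∃ H' : Subgroup G, (S : Subgroup G) ≤ H' ∧ H' < H ∧ ¬ H' ≤ M
    · obtain ⟨H', hSH', hlt, hH'M⟩ := hex
      obtain ⟨R, h1, h2, h3, h4⟩ := ih (Nat.card H')
        (by rw [← hn]; exact Helper24.card_lt_card_of_lt hlt) H' rfl hSH' hH'M
      exact ⟨R, h1, h2.trans hlt.le, h3, h4⟩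
    · push Not at hex
      refine ⟨H, hSH, le_rfl, ?_, hHM⟩
      apply Helper48.isPMinimal_of_sylow (S.subtype hSH) ?_ (M.subgroupOf H) ?_ ?_ ?_
      · intro hnorm
        apply hHM
        refine le_trans ?_ hM
        rw [Sylow.coe_subtype] at hnorm
        exact (Subgroup.normal_subgroupOf_iff_le_normalizer hSH).mp hnorm
      · rw [Ne, Subgroup.subgroupOf_eq_top]; exact hHM
      · rw [Sylow.coe_subtype]
        intro x hx
        rw [Subgroup.mem_subgroupOf] at hx ⊢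
        exact hM (Subgroup.le_normalizer hx)
      · intro Y hSY hY
        have h1 : Y.map H.subtype < H := by
          refine lt_of_le_of_ne (Subgroup.map_subtype_le Y) ?_
          intro heq
          apply hY
          rw [eq_top_iff]
          intro y _
          have hy : (y : G) ∈ Y.map H.subtype := by rw [heq]; exact y.2
          obtain ⟨y', hy', hyy⟩ := hy
          have : y' = y := Subtype.ext hyy
          rwa [this] at hy'
        have h2 : (S : Subgroup G) ≤ Y.map H.subtype := by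
          intro s hs
          exact ⟨⟨s, hSH hs⟩, hSY (by rw [Sylow.coe_subtype]; exact Subgroup.mem_subgroupOf.mpr hs), rfl⟩
        have h3 := hex _ h2 h1
        intro y hy
        rw [Subgroup.mem_subgroupOf]
        exact h3 ⟨y, hy, rfl⟩

/-- the standing hypotheses of the isolated `p`-minimal subgroup lemmas -/
structure IsoPMin (p : ℕ) [Fact p.Prime] (S : Sylow p G) (P L : Subgroup G) : Prop where
  hSP : (S : Subgroup G) ≤ P
  hPmin : Cfsg.IsPMinimal p ↥P
  hL : L = Subgroup.normalizer ((S : Subgroup G) : Set G) ⊔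
    ⨆ P' : {P' : Subgroup G // (S : Subgroup G) ≤ P' ∧ Cfsg.IsPMinimal p ↥P' ∧ P' ≠ P},
      (P' : Subgroup G)
  hiso : ¬ (Cfsg.pCore p ↥L).map L.subtype ≤ (Cfsg.pCore p ↥P).map P.subtype

variable {S : Sylow p G} {P L : Subgroup G}

omit [Finite G] in
theorem ipm_normalizer_le (h : IsoPMin p S P L) :
    Subgroup.normalizer ((S : Subgroup G) : Set G) ≤ L := by
  rw [h.hL]; exact le_sup_left

omit [Finite G] in
theorem ipm_S_le_L (h : IsoPMin p S P L) : (S : Subgroup G) ≤ L :=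
  Subgroup.le_normalizer.trans (ipm_normalizer_le h)

omit [Finite G] in
theorem ipm_pmin_le (h : IsoPMin p S P L) {R : Subgroup G} (hSR : (S : Subgroup G) ≤ R)
    (hR : Cfsg.IsPMinimal p ↥R) (hne : R ≠ P) : R ≤ L := by
  rw [h.hL]
  exact le_sup_of_le_right (le_iSup (fun P' : {P' : Subgroup G //
    (S : Subgroup G) ≤ P' ∧ Cfsg.IsPMinimal p ↥P' ∧ P' ≠ P} => (P' : Subgroup G)) ⟨R, hSR, hR, hne⟩)

/-- (I1) every subgroup over `S` contains `P` or lies in `L` -/
theorem ipm_dichotomy (h : IsoPMin p S P L) {H : Subgroup G} (hSH : (S : Subgroup G) ≤ H) :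
    P ≤ H ∨ H ≤ L := by
  by_contra hcon
  push Not at hcon
  obtain ⟨R, hSR, hRH, hRmin, hRL⟩ :=
    ipm_exists_pmin S L (ipm_normalizer_le h) _ H rfl hSH hcon.2
  by_cases hRP : R = P
  · exact hcon.1 (hRP ▸ hRH)
  · exact hRL (ipm_pmin_le h hSR hRmin hRP)

/-- `G = ⟨L, P⟩` -/
theorem ipm_sup_eq_top (h : IsoPMin p S P L) : L ⊔ P = ⊤ := by
  by_contra hne
  have hnle : ¬ (⊤ : Subgroup G) ≤ L ⊔ P := fun hh => hne (top_le_iff.mp hh)
  obtain ⟨R, hSR, -, hRmin, hRL⟩ := ipm_exists_pmin S (L ⊔ P)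
    ((ipm_normalizer_le h).trans le_sup_left) _ ⊤ rfl le_top hnle
  by_cases hRP : R = P
  · exact hRL (hRP ▸ le_sup_right)
  · exact hRL ((ipm_pmin_le h hSR hRmin hRP).trans le_sup_left)

theorem ipm_Q_le_S (h : IsoPMin p S P L) : (Cfsg.pCore p ↥L).map L.subtype ≤ (S : Subgroup G) := by
  rintro _ ⟨y, hy, rfl⟩
  have h1 := Helper47.pCore_le_sylow (S.subtype (ipm_S_le_L h)) hy
  rw [Sylow.coe_subtype] at h1
  exact Subgroup.mem_subgroupOf.mp h1

theorem ipm_Q_isPGroup (L : Subgroup G) : IsPGroup p ↥((Cfsg.pCore p ↥L).map L.subtype) :=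
  (Helper47.pCore_isPGroup p ↥L).map _

theorem ipm_L_le_normalizer_Q (L : Subgroup G) :
    L ≤ Subgroup.normalizer (((Cfsg.pCore p ↥L).map L.subtype : Subgroup G) : Set G) :=
  ipm_le_normalizer_map_subtype L _

/-- (I2) `P ≰ L` -/
theorem ipm_not_P_le_L (h : IsoPMin p S P L) : ¬ P ≤ L := by
  intro hPL
  apply h.hiso
  exact ipm_le_pCore_map ((ipm_Q_le_S h).trans h.hSP) (ipm_Q_isPGroup L)
    (hPL.trans (ipm_L_le_normalizer_Q L))

theorem ipm_X_le_P (P : Subgroup G) : (Cfsg.pResidual p ↥P).map P.subtype ≤ P :=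
  Subgroup.map_subtype_le _

theorem ipm_X_sup_S {S : Sylow p G} {P : Subgroup G} (hSP : (S : Subgroup G) ≤ P) :
    (Cfsg.pResidual p ↥P).map P.subtype ⊔ (S : Subgroup G) = P := by
  have h1 := Helper47.pResidual_sup_sylow (S.subtype hSP)
  have h2 := congrArg (Subgroup.map P.subtype) h1
  rw [Subgroup.map_sup, Sylow.coe_subtype, Subgroup.subgroupOf_map_subtype,
    ← MonoidHom.range_eq_map, Subgroup.range_subtype, inf_eq_left.mpr hSP] at h2
  exact h2

theorem ipm_P_le_normalizer_X (P : Subgroup G) :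
    P ≤ Subgroup.normalizer (((Cfsg.pResidual p ↥P).map P.subtype : Subgroup G) : Set G) :=
  ipm_le_normalizer_map_subtype P _

omit [Finite G] in
/-- `p'`-elements of `R S` lie in `R` when `S` normalises `R` -/
theorem ipm_mem_of_coprime {S R : Subgroup G} (hS : IsPGroup p S)
    (hSR : S ≤ Subgroup.normalizer (R : Set G)) {x : G} (hx : x ∈ R ⊔ S)
    (hcop : (orderOf x).Coprime p) : x ∈ R := by
  obtain ⟨r, hr, s, hs, rfl⟩ := Helper35.exists_mul_of_mem_sup_of_le_normalizer hSR hx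
  have key : ∀ m : ℕ, ∃ r' ∈ R, (r * s) ^ m = r' * s ^ m := by
    intro m
    induction m with
    | zero => exact ⟨1, R.one_mem, by simp⟩
    | succ m ih =>
      obtain ⟨r', hr', he⟩ := ih
      refine ⟨r' * (s ^ m * r * (s ^ m)⁻¹), R.mul_mem hr' ?_, ?_⟩
      · exact (Subgroup.mem_normalizer_iff.mp (hSR (S.pow_mem hs m)) r).mp hr
      · rw [pow_succ, he, pow_succ]; group
  obtain ⟨k, hk⟩ := hS ⟨s, hs⟩
  have hk' : s ^ p ^ k = 1 := congrArg Subtype.val hk
  obtain ⟨r', hr', he⟩ := key (p ^ k)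
  rw [hk', mul_one] at he
  have hc : (p ^ k).Coprime (orderOf (r * s)) := Nat.Coprime.pow_left k hcop.symm
  obtain ⟨m, hm⟩ := exists_pow_eq_self_of_coprime hc
  rw [← hm, he]
  exact R.pow_mem hr' m

omit [Finite G] in
theorem ipm_residual_le_of_le_sup {S : Sylow p G} {P R : Subgroup G}
    (hSR : (S : Subgroup G) ≤ Subgroup.normalizer (R : Set G)) (hP : P ≤ R ⊔ (S : Subgroup G)) :
    (Cfsg.pResidual p ↥P).map P.subtype ≤ R := by
  unfold Cfsg.pResidual
  rw [MonoidHom.map_closure, Subgroup.closure_le]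
  rintro _ ⟨g, hg, rfl⟩
  have hg' : (orderOf (g : G)).Coprime p := by
    rw [Subgroup.orderOf_coe]; exact hg
  exact ipm_mem_of_coprime S.isPGroup' hSR (hP g.2) hg'

/-- (∗) an `S`-invariant subgroup contains `O^p(P)` or lies in `L` -/
theorem ipm_invariant (h : IsoPMin p S P L) {R : Subgroup G}
    (hSR : (S : Subgroup G) ≤ Subgroup.normalizer (R : Set G)) :
    (Cfsg.pResidual p ↥P).map P.subtype ≤ R ∨ R ≤ L := by
  rcases ipm_dichotomy h (le_sup_right : (S : Subgroup G) ≤ R ⊔ (S : Subgroup G)) with h1 | h1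
  · exact Or.inl (ipm_residual_le_of_le_sup hSR h1)
  · exact Or.inr (le_sup_left.trans h1)

/-- (I3) a normal subgroup contains `O^p(P)` or lies in `L` -/
theorem ipm_normal (h : IsoPMin p S P L) {N : Subgroup G} (hN : N.Normal) :
    (Cfsg.pResidual p ↥P).map P.subtype ≤ N ∨ N ≤ L :=
  ipm_invariant h (by rw [Subgroup.normalizer_eq_top_iff.mpr hN]; exact le_top)

/-- (I4) `O^p(P) ≰ L` -/
theorem ipm_X_not_le_L (h : IsoPMin p S P L) : ¬ (Cfsg.pResidual p ↥P).map P.subtype ≤ L := by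
  intro hX
  apply ipm_not_P_le_L h
  rw [← ipm_X_sup_S h.hSP]
  exact sup_le hX (ipm_S_le_L h)

theorem ipm_pCore_le_L (h : IsoPMin p S P L) : Cfsg.pCore p G ≤ L :=
  (Helper47.pCore_le_sylow S).trans (ipm_S_le_L h)

theorem ipm_pCore_le_pCoreP (h : IsoPMin p S P L) :
    Cfsg.pCore p G ≤ (Cfsg.pCore p ↥P).map P.subtype := by
  have hn : (Cfsg.pCore p G).Normal := inferInstance
  exact ipm_le_pCore_map ((Helper47.pCore_le_sylow S).trans h.hSP) (Helper47.pCore_isPGroup p G)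
    (by rw [Subgroup.normalizer_eq_top_iff.mpr hn]; exact le_top)

theorem ipm_Q_not_le_pCore (h : IsoPMin p S P L) :
    ¬ (Cfsg.pCore p ↥L).map L.subtype ≤ Cfsg.pCore p G :=
  fun hh => h.hiso (hh.trans (ipm_pCore_le_pCoreP h))

/-- a normal subgroup inside `L` meets `O_p(L)` inside `O_p(G)` -/
theorem ipm_normal_inf_Q_le_pCore {N : Subgroup G} (hN : N.Normal) (hNL : N ≤ L) :
    N ⊓ (Cfsg.pCore p ↥L).map L.subtype ≤ Cfsg.pCore p G := by
  apply ipm_le_pCore_of_normal ((ipm_Q_isPGroup L).to_le inf_le_right) inf_le_left hN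
  intro n hn
  apply ipm_normalizer_inf
  · rw [Subgroup.normalizer_eq_top_iff.mpr hN]; trivial
  · exact ipm_L_le_normalizer_Q L (hNL hn)

/-- a normal subgroup inside `L` commutes with `O_p(L)` modulo `O_p(G)` -/
theorem ipm_normal_comm_Q {N : Subgroup G} (hN : N.Normal) (hNL : N ≤ L) {n q : G} (hn : n ∈ N)
    (hq : q ∈ (Cfsg.pCore p ↥L).map L.subtype) : n * q * n⁻¹ * q⁻¹ ∈ N ⊓ (Cfsg.pCore p ↥L).map L.subtype := by
  have h1 : n * q * n⁻¹ * q⁻¹ ∈ N := by
    have := N.mul_mem hn (hN.conj_mem n⁻¹ (N.inv_mem hn) q)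
    have e : n * q * n⁻¹ * q⁻¹ = n * (q * n⁻¹ * q⁻¹) := by group
    rw [e]; exact this
  have h2 : n * q * n⁻¹ * q⁻¹ ∈ (Cfsg.pCore p ↥L).map L.subtype := by
    have h3 := (Subgroup.mem_normalizer_iff.mp (ipm_L_le_normalizer_Q (p := p) L (hNL hn)) q).mp hq
    exact Subgroup.mul_mem _ h3 (Subgroup.inv_mem _ hq)
  exact Subgroup.mem_inf.mpr ⟨h1, h2⟩

/-- (I5) the normal closure of `O^p(P)` lies in the normal closure of `O_p(L)` -/
theorem ipm_Y_le_closure_Q (h : IsoPMin p S P L) :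
    Subgroup.normalClosure (((Cfsg.pResidual p ↥P).map P.subtype : Subgroup G) : Set G) ≤
      Subgroup.normalClosure (((Cfsg.pCore p ↥L).map L.subtype : Subgroup G) : Set G) := by
  rcases ipm_normal h (Subgroup.normalClosure_normal
    (s := (((Cfsg.pCore p ↥L).map L.subtype : Subgroup G) : Set G))) with h1 | h1
  · exact Subgroup.normalClosure_le_normal h1
  · exfalso
    apply ipm_Q_not_le_pCore h
    exact ipm_le_pCore_of_normal (ipm_Q_isPGroup L) Subgroup.le_normalClosure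
      Subgroup.normalClosure_normal (h1.trans (ipm_L_le_normalizer_Q L))

theorem ipm_OY_normal (Y : Subgroup G) [Y.Normal] : ((Cfsg.pCore p ↥Y).map Y.subtype).Normal :=
  Helper47.normal_map_of_characteristic Y _

theorem ipm_OY_le_pCore (Y : Subgroup G) [Y.Normal] :
    (Cfsg.pCore p ↥Y).map Y.subtype ≤ Cfsg.pCore p G :=
  Helper47.le_pCore (ipm_OY_normal Y) ((Helper47.pCore_isPGroup p ↥Y).map _)

theorem ipm_inf_pCore_le_OY (Y : Subgroup G) [hY : Y.Normal] :
    Y ⊓ Cfsg.pCore p G ≤ (Cfsg.pCore p ↥Y).map Y.subtype := by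
  have hn : (Y ⊓ Cfsg.pCore p G).Normal := inferInstance
  refine ipm_le_pCore_map inf_le_left ((Helper47.pCore_isPGroup p G).to_le inf_le_right) ?_
  rw [Subgroup.normalizer_eq_top_iff.mpr hn]; exact le_top

/-- (I6) a normal subgroup inside `Y` contains `O^p(P)` or lies in the core of `L ∩ Y` -/
theorem ipm_le_K (h : IsoPMin p S P L) (Y : Subgroup G) {N : Subgroup G} (hN : N.Normal)
    (hNY : N ≤ Y) :
    (Cfsg.pResidual p ↥P).map P.subtype ≤ N ∨ N ≤ (L ⊓ Y).normalCore := by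
  rcases ipm_normal h hN with h1 | h1
  · exact Or.inl h1
  · exact Or.inr (Subgroup.normal_le_normalCore.mpr (le_inf h1 hNY))

theorem ipm_K_le_L (L Y : Subgroup G) : (L ⊓ Y).normalCore ≤ L :=
  (Subgroup.normalCore_le _).trans inf_le_left

theorem ipm_K_le_Y (L Y : Subgroup G) : (L ⊓ Y).normalCore ≤ Y :=
  (Subgroup.normalCore_le _).trans inf_le_right

theorem ipm_X_not_le_K (h : IsoPMin p S P L) (Y : Subgroup G) :
    ¬ (Cfsg.pResidual p ↥P).map P.subtype ≤ (L ⊓ Y).normalCore :=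
  fun hh => ipm_X_not_le_L h (hh.trans (ipm_K_le_L L Y))

omit [Finite G] [Fact p.Prime] in
/-- if the normal subgroup `K` centralises `A` modulo the normal subgroup `O`, it centralises the
normal closure of `A` modulo `O` -/
theorem ipm_comm_closure {K O A : Subgroup G} (hK : K.Normal) (hO : O.Normal)
    (h : ∀ k ∈ K, ∀ a ∈ A, k * a * k⁻¹ * a⁻¹ ∈ O) :
    ∀ k ∈ K, ∀ y ∈ Subgroup.normalClosure (A : Set G), k * y * k⁻¹ * y⁻¹ ∈ O := by
  have hKmn : (K.map (QuotientGroup.mk' O)).Normal := hK.map _ (QuotientGroup.mk'_surjective _)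
  have hCn : (Subgroup.centralizer ((K.map (QuotientGroup.mk' O) : Subgroup (G ⧸ O)) :
      Set (G ⧸ O))).Normal := inferInstance
  have hCn' := hCn.comap (QuotientGroup.mk' O)
  have hAC : A ≤ (Subgroup.centralizer ((K.map (QuotientGroup.mk' O) : Subgroup (G ⧸ O)) :
      Set (G ⧸ O))).comap (QuotientGroup.mk' O) := by
    intro a ha
    rw [Subgroup.mem_comap, Subgroup.mem_centralizer_iff]
    rintro _ ⟨k, hk, rfl⟩
    show QuotientGroup.mk' O k * QuotientGroup.mk' O a = QuotientGroup.mk' O a * QuotientGroup.mk' O k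
    rw [← map_mul, ← map_mul]
    show ((k * a : G) : G ⧸ O) = ((a * k : G) : G ⧸ O)
    rw [eq_comm, QuotientGroup.eq]
    have e : (a * k)⁻¹ * (k * a) = k⁻¹ * a⁻¹ * k⁻¹⁻¹ * a⁻¹⁻¹ := by group
    rw [e]
    exact h k⁻¹ (K.inv_mem hk) a⁻¹ (A.inv_mem ha)
  have hYC : Subgroup.normalClosure (A : Set G) ≤ (Subgroup.centralizer
      ((K.map (QuotientGroup.mk' O) : Subgroup (G ⧸ O)) : Set (G ⧸ O))).comap
        (QuotientGroup.mk' O) := Subgroup.normalClosure_le_normal hAC
  intro k hk y hy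
  have h4 := hYC hy
  rw [Subgroup.mem_comap, Subgroup.mem_centralizer_iff] at h4
  have h5 := h4 _ ⟨k, hk, rfl⟩
  rw [← QuotientGroup.eq_one_iff]
  have h6 : ((k * y * k⁻¹ * y⁻¹ : G) : G ⧸ O) =
      QuotientGroup.mk' O k * QuotientGroup.mk' O y * (QuotientGroup.mk' O k)⁻¹ *
        (QuotientGroup.mk' O y)⁻¹ := by
    simp
  rw [h6, h5]
  group

/-- (I7) the core of `L ∩ Y` centralises `Y` modulo `O_p(Y)` -/
theorem ipm_K_comm (h : IsoPMin p S P L) {Y : Subgroup G}
    (hY : Y = Subgroup.normalClosure (((Cfsg.pResidual p ↥P).map P.subtype : Subgroup G) : Set G))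
    {k y : G} (hk : k ∈ (L ⊓ Y).normalCore) (hy : y ∈ Y) :
    k * y * k⁻¹ * y⁻¹ ∈ (Cfsg.pCore p ↥Y).map Y.subtype := by
  have hYn : Y.Normal := hY ▸ Subgroup.normalClosure_normal
  have hOn : ((Cfsg.pCore p ↥Y).map Y.subtype).Normal := ipm_OY_normal Y
  have hKn : ((L ⊓ Y).normalCore).Normal := inferInstance
  have hy' : y ∈ Subgroup.normalClosure
      (((Cfsg.pCore p ↥L).map L.subtype : Subgroup G) : Set G) :=
    ipm_Y_le_closure_Q h (hY ▸ hy)
  refine ipm_comm_closure hKn hOn ?_ k hk y hy'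
  intro k' hk' q hq
  have h1 := ipm_normal_comm_Q hKn (ipm_K_le_L L Y) hk' hq
  apply ipm_inf_pCore_le_OY Y
  refine Subgroup.mem_inf.mpr ⟨ipm_K_le_Y L Y h1.1, ?_⟩
  exact ipm_normal_inf_Q_le_pCore hKn (ipm_K_le_L L Y) h1

end iso

end Cfsg.Agent.Helper34
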