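/-
helper34: isolated `p`-minimal subgroups, part 2: `O^p(P)` lies in the preimage of
`F*(G/O_p(G))`; the solvable case up to the structure of `Y/O_p(Y)`.
-/
import Cfsg.Agent.Helper34.IsoPMin1
import Cfsg.Agent.Helper22.Bender
import Cfsg.Agent.Helper1.MinNormal

set_option autoImplicit false
set_option linter.unusedSectionVars false

namespace Cfsg.Agent.Helper34

open Cfsg

section iso

variable {G : Type*} [Group G] [Finite G] {p : ℕ} [Fact p.Prime]

/-- the preimage of `O_p(G/O_p(G))` is `O_p(G)` -/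
theorem ipm_comap_pCore_quotient_le [hn : (Cfsg.pCore p G).Normal] :
    (Cfsg.pCore p (G ⧸ Cfsg.pCore p G)).comap (QuotientGroup.mk' (Cfsg.pCore p G)) ≤
      Cfsg.pCore p G := by
  have hn' : ((Cfsg.pCore p (G ⧸ Cfsg.pCore p G)).comap
      (QuotientGroup.mk' (Cfsg.pCore p G))).Normal := by
    have : (Cfsg.pCore p (G ⧸ Cfsg.pCore p G)).Normal := inferInstance
    infer_instance
  apply Helper47.le_pCore hn'
  rintro ⟨m, hm⟩
  obtain ⟨k, hk⟩ := Helper47.pCore_isPGroup p (G ⧸ Cfsg.pCore p G)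
    ⟨QuotientGroup.mk' (Cfsg.pCore p G) m, Subgroup.mem_comap.mp hm⟩
  have h2 : m ^ p ^ k ∈ Cfsg.pCore p G := by
    have h3 := congrArg Subtype.val hk
    rw [Subgroup.coe_pow, Subgroup.coe_one] at h3
    rw [← QuotientGroup.eq_one_iff]
    exact h3
  obtain ⟨j, hj⟩ := Helper47.pCore_isPGroup p G ⟨m ^ p ^ k, h2⟩
  refine ⟨k + j, Subtype.ext ?_⟩
  have h4 := congrArg Subtype.val hj
  rw [Subgroup.coe_pow, Subgroup.coe_one] at h4 ⊢
  rw [pow_add, pow_mul]
  exact h4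

variable {S : Sylow p G} {P L : Subgroup G}

/-- `O^p(P)` lies in the preimage of `F*(G/O_p(G))` -/
theorem ipm_residual_le_fstar (h : IsoPMin p S P L) [hn : (Cfsg.pCore p G).Normal] :
    (Cfsg.pResidual p ↥P).map P.subtype ≤
      (Cfsg.generalizedFittingSubgroup (G ⧸ Cfsg.pCore p G)).comap
        (QuotientGroup.mk' (Cfsg.pCore p G)) := by
  have hFn := Helper22.generalizedFittingSubgroup_normal (G ⧸ Cfsg.pCore p G)
  have hNn := hFn.comap (QuotientGroup.mk' (Cfsg.pCore p G))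
  rcases ipm_normal h hNn with h1 | h1
  · exact h1
  · exfalso
    apply ipm_Q_not_le_pCore h
    have hA : ((Cfsg.pCore p ↥L).map L.subtype).map (QuotientGroup.mk' (Cfsg.pCore p G)) ≤
        Subgroup.centralizer
          ((Cfsg.generalizedFittingSubgroup (G ⧸ Cfsg.pCore p G) :
            Subgroup (G ⧸ Cfsg.pCore p G)) : Set (G ⧸ Cfsg.pCore p G)) := by
      rintro _ ⟨q, hq, rfl⟩
      rw [Subgroup.mem_centralizer_iff]
      intro z hz
      obtain ⟨n, rfl⟩ := QuotientGroup.mk'_surjective _ z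
      have hnN : n ∈ (Cfsg.generalizedFittingSubgroup (G ⧸ Cfsg.pCore p G)).comap
          (QuotientGroup.mk' (Cfsg.pCore p G)) := hz
      have h2 := ipm_normal_comm_Q hNn h1 hnN hq
      have h3 := ipm_normal_inf_Q_le_pCore hNn h1 h2
      rw [← map_mul, ← map_mul]
      show ((n * q : G) : G ⧸ Cfsg.pCore p G) = ((q * n : G) : G ⧸ Cfsg.pCore p G)
      rw [eq_comm, QuotientGroup.eq]
      have e : (q * n)⁻¹ * (n * q) = n⁻¹ * (q⁻¹ * (n * q * n⁻¹ * q⁻¹)⁻¹⁻¹ * q⁻¹⁻¹) * n⁻¹⁻¹ := by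
        group
      rw [e]
      apply hn.conj_mem
      apply hn.conj_mem
      rw [inv_inv]
      exact h3
    have hAn : (Subgroup.centralizer
        ((Cfsg.generalizedFittingSubgroup (G ⧸ Cfsg.pCore p G) :
            Subgroup (G ⧸ Cfsg.pCore p G)) : Set (G ⧸ Cfsg.pCore p G))).Normal :=
      inferInstance
    have hAle := Helper22.centralizer_generalizedFittingSubgroup_le (G ⧸ Cfsg.pCore p G)
    have hsub : ((Cfsg.pCore p ↥L).map L.subtype).map (QuotientGroup.mk' (Cfsg.pCore p G)) ≤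
        Cfsg.pCore p (G ⧸ Cfsg.pCore p G) := by
      refine ipm_le_pCore_of_normal ((ipm_Q_isPGroup L).map _) hA hAn ?_
      refine le_trans ?_ (Subgroup.centralizer_le_normalizer _)
      exact Subgroup.centralizer_le (hA.trans hAle)
    refine le_trans ?_ ipm_comap_pCore_quotient_le
    intro q hq
    exact hsub ⟨q, hq, rfl⟩

end iso

section solv

variable {G : Type*} [Group G] [Finite G] {p : ℕ} [Fact p.Prime] {S : Sylow p G}
  {P L Y : Subgroup G}

omit [Finite G] [Fact p.Prime] in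
/-- closed under conjugation by `A` ⇒ normalised by `A` -/
theorem ipm_le_normalizer_of_conj {A N : Subgroup G} (h : ∀ a ∈ A, ∀ n ∈ N, a * n * a⁻¹ ∈ N) :
    A ≤ Subgroup.normalizer (N : Set G) := by
  intro a ha
  rw [Subgroup.mem_normalizer_iff]
  intro n
  refine ⟨h a ha n, fun hn => ?_⟩
  have := h a⁻¹ (A.inv_mem ha) _ hn
  have e : a⁻¹ * (a * n * a⁻¹) * a⁻¹⁻¹ = n := by group
  rwa [e] at this

theorem ipm_Y_normal
    (hY : Y = Subgroup.normalClosure (((Cfsg.pResidual p ↥P).map P.subtype : Subgroup G) : Set G)) :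
    Y.Normal := hY ▸ Subgroup.normalClosure_normal

theorem ipm_X_le_Y
    (hY : Y = Subgroup.normalClosure (((Cfsg.pResidual p ↥P).map P.subtype : Subgroup G) : Set G)) :
    (Cfsg.pResidual p ↥P).map P.subtype ≤ Y := hY ▸ Subgroup.le_normalClosure

theorem ipm_Y_le_of_normal
    (hY : Y = Subgroup.normalClosure (((Cfsg.pResidual p ↥P).map P.subtype : Subgroup G) : Set G))
    {N : Subgroup G} (hN : N.Normal) (hX : (Cfsg.pResidual p ↥P).map P.subtype ≤ N) : Y ≤ N := by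
  rw [hY]; exact Subgroup.normalClosure_le_normal hX

/-- `G = Y L` -/
theorem ipm_Y_sup_L (h : IsoPMin p S P L)
    (hY : Y = Subgroup.normalClosure (((Cfsg.pResidual p ↥P).map P.subtype : Subgroup G) : Set G)) :
    Y ⊔ L = ⊤ := by
  rw [eq_top_iff, ← ipm_sup_eq_top h]
  refine sup_le le_sup_right ?_
  rw [← ipm_X_sup_S h.hSP]
  exact sup_le ((ipm_X_le_Y hY).trans le_sup_left) ((ipm_S_le_L h).trans le_sup_right)

theorem ipm_OY_le_K (h : IsoPMin p S P L)
    (hY : Y = Subgroup.normalClosure (((Cfsg.pResidual p ↥P).map P.subtype : Subgroup G) : Set G)) :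
    (Cfsg.pCore p ↥Y).map Y.subtype ≤ (L ⊓ Y).normalCore := by
  have hYn := ipm_Y_normal hY
  rcases ipm_le_K h Y (ipm_OY_normal (p := p) Y) (Subgroup.map_subtype_le _) with h1 | h1
  · exact absurd (h1.trans ((ipm_OY_le_pCore (p := p) Y).trans (ipm_pCore_le_L h)))
      (ipm_X_not_le_L h)
  · exact h1

/-- in the solvable case `Y' ≤ K` -/
theorem ipm_solv_comm_le (h : IsoPMin p S P L)
    (hY : Y = Subgroup.normalClosure (((Cfsg.pResidual p ↥P).map P.subtype : Subgroup G) : Set G))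
    (hsol : Group.IsSolvable ↥Y) : ⁅Y, Y⁆ ≤ (L ⊓ Y).normalCore := by
  have hYn := ipm_Y_normal hY
  have hcn : (⁅Y, Y⁆).Normal := inferInstance
  have hle : ⁅Y, Y⁆ ≤ Y := Subgroup.commutator_le_right Y Y
  rcases ipm_le_K h Y hcn hle with h1 | h1
  · exfalso
    have h2 := ipm_Y_le_of_normal hY hcn h1
    by_cases hbot : Y = ⊥
    · exact ipm_X_not_le_L h ((ipm_X_le_Y hY).trans (hbot ▸ bot_le))
    · exact absurd h2 (not_le_of_gt (Helper1.commutator_lt_of_solvable Y hbot))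
  · exact h1

theorem ipm_exists_prime (h : IsoPMin p S P L)
    (hY : Y = Subgroup.normalClosure (((Cfsg.pResidual p ↥P).map P.subtype : Subgroup G) : Set G)) :
    ∃ t : ℕ, t.Prime ∧ t ∣ ((L ⊓ Y).normalCore.subgroupOf Y).index := by
  apply Nat.exists_prime_and_dvd
  intro h1
  rw [Subgroup.index_eq_one, Subgroup.subgroupOf_eq_top] at h1
  exact ipm_X_not_le_K h Y ((ipm_X_le_Y hY).trans h1)

theorem ipm_sylow_not_le {K : Subgroup G} {t : ℕ} [Fact t.Prime]
    (ht : t ∣ (K.subgroupOf Y).index) (T : Sylow t ↥Y) :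
    ¬ (T : Subgroup ↥Y).map Y.subtype ≤ K := by
  intro hle
  have h1 : (T : Subgroup ↥Y) ≤ K.subgroupOf Y := by
    intro x hx
    exact Subgroup.mem_subgroupOf.mpr (hle ⟨x, hx, rfl⟩)
  exact T.not_dvd_index (ht.trans (Subgroup.index_dvd_of_le h1))

/-- Frattini: `M T` is normal in `G` as soon as `Y` normalises it (`M ⊴ G`, `T` Sylow in `Y ⊴ G`) -/
theorem ipm_sup_sylow_normal [hYn : Y.Normal] {M : Subgroup G} (hM : M.Normal) {t : ℕ}
    [Fact t.Prime] (T : Sylow t ↥Y)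
    (hYM : Y ≤ Subgroup.normalizer
      ((M ⊔ (T : Subgroup ↥Y).map Y.subtype : Subgroup G) : Set G)) :
    (M ⊔ (T : Subgroup ↥Y).map Y.subtype).Normal := by
  rw [← Subgroup.normalizer_eq_top_iff, eq_top_iff, ← Sylow.normalizer_sup_eq_top T]
  refine sup_le ?_ hYM
  intro g hg
  have hgM : g ∈ Subgroup.normalizer (M : Set G) := by
    rw [Subgroup.normalizer_eq_top_iff.mpr hM]; trivial
  rw [Subgroup.mem_normalizer_iff_map_conj_eq] at hg hgM ⊢
  rw [Subgroup.map_sup, hg, hgM]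

theorem ipm_solv_Y_le_K_sup (h : IsoPMin p S P L)
    (hY : Y = Subgroup.normalClosure (((Cfsg.pResidual p ↥P).map P.subtype : Subgroup G) : Set G))
    (hsol : Group.IsSolvable ↥Y) {t : ℕ} [Fact t.Prime]
    (ht : t ∣ ((L ⊓ Y).normalCore.subgroupOf Y).index) (T : Sylow t ↥Y) :
    Y ≤ (L ⊓ Y).normalCore ⊔ (T : Subgroup ↥Y).map Y.subtype := by
  have hYn := ipm_Y_normal hY
  have hc := ipm_solv_comm_le h hY hsol
  have hKn : ((L ⊓ Y).normalCore).Normal := inferInstance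
  have hT'Y : (T : Subgroup ↥Y).map Y.subtype ≤ Y := Subgroup.map_subtype_le _
  have hN : ((L ⊓ Y).normalCore ⊔ (T : Subgroup ↥Y).map Y.subtype).Normal := by
    apply ipm_sup_sylow_normal hKn T
    apply ipm_le_normalizer_of_conj
    intro y hy n hn
    have hnY : n ∈ Y := (sup_le (ipm_K_le_Y L Y) hT'Y) hn
    have e : y * n * y⁻¹ = (y * n * y⁻¹ * n⁻¹) * n := by group
    rw [e]
    refine Subgroup.mul_mem _ ((le_sup_left : (L ⊓ Y).normalCore ≤ _) (hc ?_)) hn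
    exact Subgroup.commutator_mem_commutator hy hnY
  rcases ipm_le_K h Y hN (sup_le (ipm_K_le_Y L Y) hT'Y) with h1 | h1
  · exact ipm_Y_le_of_normal hY hN h1
  · exact absurd (le_sup_right.trans h1) (ipm_sylow_not_le ht T)

theorem ipm_solv_Y_le_OY_sup (h : IsoPMin p S P L)
    (hY : Y = Subgroup.normalClosure (((Cfsg.pResidual p ↥P).map P.subtype : Subgroup G) : Set G))
    (hsol : Group.IsSolvable ↥Y) {t : ℕ} [Fact t.Prime]
    (ht : t ∣ ((L ⊓ Y).normalCore.subgroupOf Y).index) (T : Sylow t ↥Y) :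
    Y ≤ (Cfsg.pCore p ↥Y).map Y.subtype ⊔ (T : Subgroup ↥Y).map Y.subtype := by
  have hYn := ipm_Y_normal hY
  have hKT := ipm_solv_Y_le_K_sup h hY hsol ht T
  have hKn : ((L ⊓ Y).normalCore).Normal := inferInstance
  have hOn : ((Cfsg.pCore p ↥Y).map Y.subtype).Normal := ipm_OY_normal Y
  have hOY : (Cfsg.pCore p ↥Y).map Y.subtype ≤ Y := Subgroup.map_subtype_le _
  have hT'Y : (T : Subgroup ↥Y).map Y.subtype ≤ Y := Subgroup.map_subtype_le _
  have hN : ((Cfsg.pCore p ↥Y).map Y.subtype ⊔ (T : Subgroup ↥Y).map Y.subtype).Normal := by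
    apply ipm_sup_sylow_normal hOn T
    apply ipm_le_normalizer_of_conj
    intro y hy n hn
    obtain ⟨k, hk, τ, hτ, rfl⟩ := Helper35.exists_mul_of_mem_sup_of_le_normalizer
      (N := (L ⊓ Y).normalCore) (A := (T : Subgroup ↥Y).map Y.subtype)
      (by rw [Subgroup.normalizer_eq_top_iff.mpr hKn]; exact le_top) (hKT hy)
    have hτ' : τ ∈ (Cfsg.pCore p ↥Y).map Y.subtype ⊔ (T : Subgroup ↥Y).map Y.subtype :=
      (le_sup_right : (T : Subgroup ↥Y).map Y.subtype ≤ _) hτ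
    have hm : τ * n * τ⁻¹ ∈ (Cfsg.pCore p ↥Y).map Y.subtype ⊔ (T : Subgroup ↥Y).map Y.subtype :=
      Subgroup.mul_mem _ (Subgroup.mul_mem _ hτ' hn) (Subgroup.inv_mem _ hτ')
    have hmY : τ * n * τ⁻¹ ∈ Y := (sup_le hOY hT'Y) hm
    have e : k * τ * n * (k * τ)⁻¹ =
        (k * (τ * n * τ⁻¹) * k⁻¹ * (τ * n * τ⁻¹)⁻¹) * (τ * n * τ⁻¹) := by group
    rw [e]
    exact Subgroup.mul_mem _ ((le_sup_left : (Cfsg.pCore p ↥Y).map Y.subtype ≤ _)
      (ipm_K_comm h hY hk hmY)) hm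
  rcases ipm_le_K h Y hN (sup_le hOY hT'Y) with h1 | h1
  · exact ipm_Y_le_of_normal hY hN h1
  · exact absurd (le_sup_right.trans h1) (ipm_sylow_not_le ht T)

theorem ipm_solv_ne (h : IsoPMin p S P L)
    (hY : Y = Subgroup.normalClosure (((Cfsg.pResidual p ↥P).map P.subtype : Subgroup G) : Set G))
    (hsol : Group.IsSolvable ↥Y) {t : ℕ} [Fact t.Prime]
    (ht : t ∣ ((L ⊓ Y).normalCore.subgroupOf Y).index) (T : Sylow t ↥Y) : t ≠ p := by
  intro htp
  have hle := ipm_solv_Y_le_OY_sup h hY hsol ht T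
  have hYn := ipm_Y_normal hY
  have hOn : ((Cfsg.pCore p ↥Y).map Y.subtype).Normal := ipm_OY_normal Y
  subst htp
  have h1 : IsPGroup t ↥((Cfsg.pCore t ↥Y).map Y.subtype ⊔ (T : Subgroup ↥Y).map Y.subtype) :=
    IsPGroup.to_sup_of_normal_left ((Helper47.pCore_isPGroup t ↥Y).map _) (T.isPGroup'.map _)
  have h2 : IsPGroup t ↥Y := h1.to_le hle
  have h3 : Y ≤ Cfsg.pCore t G := Helper47.le_pCore hYn h2
  exact ipm_X_not_le_L h ((ipm_X_le_Y hY).trans (h3.trans (ipm_pCore_le_L h)))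

theorem ipm_solv_quot_isPGroup (h : IsoPMin p S P L)
    (hY : Y = Subgroup.normalClosure (((Cfsg.pResidual p ↥P).map P.subtype : Subgroup G) : Set G))
    (hsol : Group.IsSolvable ↥Y) {t : ℕ} [Fact t.Prime]
    (ht : t ∣ ((L ⊓ Y).normalCore.subgroupOf Y).index) (T : Sylow t ↥Y)
    [hn : (Cfsg.pCore p ↥Y).Normal] : IsPGroup t (↥Y ⧸ Cfsg.pCore p ↥Y) := by
  have hle := ipm_solv_Y_le_OY_sup h hY hsol ht T
  have hYn := ipm_Y_normal hY
  have hOn : ((Cfsg.pCore p ↥Y).map Y.subtype).Normal := ipm_OY_normal Y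
  intro x
  obtain ⟨y, rfl⟩ := QuotientGroup.mk_surjective x
  obtain ⟨o, ho, τ, hτ, e⟩ := Helper35.exists_mul_of_mem_sup_of_le_normalizer
    (N := (Cfsg.pCore p ↥Y).map Y.subtype) (A := (T : Subgroup ↥Y).map Y.subtype)
    (by rw [Subgroup.normalizer_eq_top_iff.mpr hOn]; exact le_top) (hle y.2)
  obtain ⟨o', ho', rfl⟩ := ho
  obtain ⟨τ', hτ', rfl⟩ := hτ
  have e' : y = o' * τ' := Subtype.ext e
  obtain ⟨k, hk⟩ := T.isPGroup' ⟨τ', hτ'⟩
  have hk' : τ' ^ t ^ k = 1 := congrArg Subtype.val hk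
  refine ⟨k, ?_⟩
  rw [e', QuotientGroup.mk_mul, (QuotientGroup.eq_one_iff o').mpr ho', one_mul,
    ← QuotientGroup.mk_pow, hk', QuotientGroup.mk_one]

theorem ipm_solv_comm_central (h : IsoPMin p S P L)
    (hY : Y = Subgroup.normalClosure (((Cfsg.pResidual p ↥P).map P.subtype : Subgroup G) : Set G))
    (hsol : Group.IsSolvable ↥Y) [hn : (Cfsg.pCore p ↥Y).Normal]
    (x y : ↥Y ⧸ Cfsg.pCore p ↥Y) :
    x * y * x⁻¹ * y⁻¹ ∈ Subgroup.center (↥Y ⧸ Cfsg.pCore p ↥Y) := by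
  obtain ⟨a, rfl⟩ := QuotientGroup.mk_surjective x
  obtain ⟨b, rfl⟩ := QuotientGroup.mk_surjective y
  rw [Subgroup.mem_center_iff]
  intro z
  obtain ⟨c, rfl⟩ := QuotientGroup.mk_surjective z
  have hk : ((a * b * a⁻¹ * b⁻¹ : ↥Y) : G) ∈ (L ⊓ Y).normalCore := by
    apply ipm_solv_comm_le h hY hsol
    exact Subgroup.commutator_mem_commutator a.2 b.2
  have h1 := ipm_K_comm h hY hk c.2
  obtain ⟨w, hw, hwe⟩ := h1
  have hw' : (a * b * a⁻¹ * b⁻¹) * c * (a * b * a⁻¹ * b⁻¹)⁻¹ * c⁻¹ ∈ Cfsg.pCore p ↥Y := by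
    have : w = (a * b * a⁻¹ * b⁻¹) * c * (a * b * a⁻¹ * b⁻¹)⁻¹ * c⁻¹ := Subtype.ext hwe
    rw [← this]; exact hw
  have h2 := (QuotientGroup.eq_one_iff _).mpr hw'
  simp only [QuotientGroup.mk_mul, QuotientGroup.mk_inv] at h2
  have h3 := mul_inv_eq_one.mp h2
  have h4 := mul_inv_eq_iff_eq_mul.mp h3
  exact h4.symm

theorem ipm_class_le_two {H : Type*} [Group H] [hnil : Group.IsNilpotent H]
    (hc : ∀ x y : H, x * y * x⁻¹ * y⁻¹ ∈ Subgroup.center H) : Group.nilpotencyClass H ≤ 2 := by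
  rw [← Subgroup.upperCentralSeries_eq_top_iff_nilpotencyClass_le, eq_top_iff]
  intro x _
  rw [show (2 : ℕ) = 1 + 1 from rfl, Subgroup.mem_upperCentralSeries_succ_iff]
  intro y
  rw [Subgroup.upperCentralSeries_one]
  exact hc x y

/-- in the solvable case the `p`-elements of `Y` lie in `O_p(Y)` -/
theorem ipm_solv_pElt_mem (h : IsoPMin p S P L)
    (hY : Y = Subgroup.normalClosure (((Cfsg.pResidual p ↥P).map P.subtype : Subgroup G) : Set G))
    (hsol : Group.IsSolvable ↥Y) {t : ℕ} [Fact t.Prime]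
    (ht : t ∣ ((L ⊓ Y).normalCore.subgroupOf Y).index) (T : Sylow t ↥Y) {b : G} (hb : b ∈ Y)
    {k : ℕ} (hbk : b ^ p ^ k = 1) : b ∈ (Cfsg.pCore p ↥Y).map Y.subtype := by
  have hn : (Cfsg.pCore p ↥Y).Normal := inferInstance
  have hq := ipm_solv_quot_isPGroup h hY hsol ht T
  have htp := ipm_solv_ne h hY hsol ht T
  obtain ⟨j, hj⟩ := hq (QuotientGroup.mk (⟨b, hb⟩ : ↥Y))
  have h1 : orderOf (QuotientGroup.mk (⟨b, hb⟩ : ↥Y) : ↥Y ⧸ Cfsg.pCore p ↥Y) ∣ p ^ k := by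
    apply orderOf_dvd_of_pow_eq_one
    rw [← QuotientGroup.mk_pow]
    have : (⟨b, hb⟩ : ↥Y) ^ p ^ k = 1 := Subtype.ext hbk
    rw [this, QuotientGroup.mk_one]
  have h2 := orderOf_dvd_of_pow_eq_one hj
  have hcop : (p ^ k).Coprime (t ^ j) :=
    Nat.Coprime.pow _ _ ((Nat.coprime_primes Fact.out Fact.out).mpr (Ne.symm htp))
  have h3 := Nat.eq_one_of_dvd_coprimes hcop h1 h2
  have h4 := (QuotientGroup.eq_one_iff _).mp (orderOf_eq_one_iff.mp h3)
  exact ⟨⟨b, hb⟩, h4, rfl⟩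

end solv

end Cfsg.Agent.Helper34
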