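/-
helper34: isolated `p`-minimal subgroups, part 3: in the solvable case `Y = O^p(P)`
(Maschke's theorem on `Y/K`).
-/
import Cfsg.Agent.Helper34.IsoPMin2
import Cfsg.Agent.Helper72.MaschkeElem

set_option autoImplicit false
set_option linter.unusedSectionVars false

namespace Cfsg.Agent.Helper34

open Cfsg

section solv

variable {G : Type*} [Group G] [Finite G] {p : ℕ} [Fact p.Prime] {S : Sylow p G}
  {P L Y : Subgroup G}

omit [Finite G] [Fact p.Prime] in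
theorem ipm_normalizer_sup {A B : Subgroup G} {g : G}
    (hA : g ∈ Subgroup.normalizer (A : Set G)) (hB : g ∈ Subgroup.normalizer (B : Set G)) :
    g ∈ Subgroup.normalizer ((A ⊔ B : Subgroup G) : Set G) := by
  rw [Subgroup.mem_normalizer_iff_map_conj_eq] at hA hB ⊢
  rw [Subgroup.map_sup, hA, hB]

/-- in the solvable case `L ∩ Y` is normal in `G` -/
theorem ipm_solv_inf_eq_K (h : IsoPMin p S P L)
    (hY : Y = Subgroup.normalClosure (((Cfsg.pResidual p ↥P).map P.subtype : Subgroup G) : Set G))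
    (hsol : Group.IsSolvable ↥Y) : L ⊓ Y = (L ⊓ Y).normalCore := by
  have hYn := ipm_Y_normal hY
  have hc := ipm_solv_comm_le h hY hsol
  have hn : (L ⊓ Y).Normal := by
    rw [← Subgroup.normalizer_eq_top_iff, eq_top_iff, ← ipm_Y_sup_L h hY]
    refine sup_le ?_ ?_
    · apply ipm_le_normalizer_of_conj
      intro y hy n hn
      have hn' := Subgroup.mem_inf.mp hn
      have e : y * n * y⁻¹ = (y * n * y⁻¹ * n⁻¹) * n := by group
      rw [e]
      exact Subgroup.mul_mem _ ((Subgroup.normalCore_le _)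
        (hc (Subgroup.commutator_mem_commutator hy hn'.2))) hn
    · apply ipm_le_normalizer_of_conj
      intro l hl n hn
      have hn' := Subgroup.mem_inf.mp hn
      exact Subgroup.mem_inf.mpr ⟨L.mul_mem (L.mul_mem hl hn'.1) (L.inv_mem hl),
        hYn.conj_mem n hn'.2 l⟩
  exact (Subgroup.normalCore_eq_self (L ⊓ Y)).symm

/-- in the solvable case `Y/K` has exponent `t` -/
theorem ipm_solv_pow_mem (h : IsoPMin p S P L)
    (hY : Y = Subgroup.normalClosure (((Cfsg.pResidual p ↥P).map P.subtype : Subgroup G) : Set G))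
    (hsol : Group.IsSolvable ↥Y) {t : ℕ} [Fact t.Prime]
    (ht : t ∣ ((L ⊓ Y).normalCore.subgroupOf Y).index) {y : G} (hy : y ∈ Y) :
    y ^ t ∈ (L ⊓ Y).normalCore := by
  have hYn := ipm_Y_normal hY
  have hc := ipm_solv_comm_le h hY hsol
  have hKn : ((L ⊓ Y).normalCore).Normal := inferInstance
  let Ω : Subgroup G :=
    { carrier := {y | y ∈ Y ∧ y ^ t ∈ (L ⊓ Y).normalCore}
      mul_mem' := by
        rintro a b ⟨ha, hat⟩ ⟨hb, hbt⟩
        refine ⟨Y.mul_mem ha hb, ?_⟩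
        rw [← QuotientGroup.eq_one_iff] at hat hbt ⊢
        have hcomm : Commute ((a : G) : G ⧸ (L ⊓ Y).normalCore) (b : G ⧸ (L ⊓ Y).normalCore) := by
          show ((a * b : G) : G ⧸ (L ⊓ Y).normalCore) = ((b * a : G) : G ⧸ (L ⊓ Y).normalCore)
          rw [QuotientGroup.eq]
          have e : (a * b)⁻¹ * (b * a) = b⁻¹ * a⁻¹ * b⁻¹⁻¹ * a⁻¹⁻¹ := by group
          rw [e]
          exact hc (Subgroup.commutator_mem_commutator (Y.inv_mem hb) (Y.inv_mem ha))
        rw [QuotientGroup.mk_pow, QuotientGroup.mk_mul, hcomm.mul_pow, ← QuotientGroup.mk_pow,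
          ← QuotientGroup.mk_pow, hat, hbt, one_mul]
      one_mem' := ⟨Y.one_mem, by rw [one_pow]; exact Subgroup.one_mem _⟩
      inv_mem' := by
        rintro a ⟨ha, hat⟩
        exact ⟨Y.inv_mem ha, by rw [inv_pow]; exact Subgroup.inv_mem _ hat⟩ }
  have hΩn : Ω.Normal :=
    ⟨fun n hn g => ⟨hYn.conj_mem n hn.1 g, by rw [conj_pow]; exact hKn.conj_mem _ hn.2 g⟩⟩
  have hΩY : Ω ≤ Y := fun y hy => hy.1
  rcases ipm_le_K h Y hΩn hΩY with h1 | h1
  · exact (ipm_Y_le_of_normal hY hΩn h1 hy).2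
  · exfalso
    have hKn' : ((L ⊓ Y).normalCore.subgroupOf Y).Normal := inferInstance
    have hcard : t ∣ Nat.card (↥Y ⧸ (L ⊓ Y).normalCore.subgroupOf Y) := by
      rwa [← Subgroup.index_eq_card]
    obtain ⟨w, hw⟩ := exists_prime_orderOf_dvd_card' t hcard
    obtain ⟨y', rfl⟩ := QuotientGroup.mk_surjective w
    have h2 : (y' : G) ∈ Ω := by
      refine ⟨y'.2, ?_⟩
      have h3 : (QuotientGroup.mk y' : ↥Y ⧸ (L ⊓ Y).normalCore.subgroupOf Y) ^ t = 1 := by
        rw [← hw]; exact pow_orderOf_eq_one _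
      rw [← QuotientGroup.mk_pow, QuotientGroup.eq_one_iff] at h3
      exact Subgroup.mem_subgroupOf.mp h3
    have h4 : (y' : G) ∈ (L ⊓ Y).normalCore := h1 h2
    have h5 : (QuotientGroup.mk y' : ↥Y ⧸ (L ⊓ Y).normalCore.subgroupOf Y) = 1 :=
      (QuotientGroup.eq_one_iff _).mpr (Subgroup.mem_subgroupOf.mpr h4)
    rw [h5, orderOf_one] at hw
    exact (Fact.out : t.Prime).one_lt.ne hw

/-- Maschke: in the solvable case `Y = K · O^p(P)` -/
theorem ipm_solv_Y_le_K_sup_X (h : IsoPMin p S P L)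
    (hY : Y = Subgroup.normalClosure (((Cfsg.pResidual p ↥P).map P.subtype : Subgroup G) : Set G))
    (hsol : Group.IsSolvable ↥Y) {t : ℕ} [Fact t.Prime]
    (ht : t ∣ ((L ⊓ Y).normalCore.subgroupOf Y).index) (T : Sylow t ↥Y) :
    Y ≤ (L ⊓ Y).normalCore ⊔ (Cfsg.pResidual p ↥P).map P.subtype := by
  have hYn := ipm_Y_normal hY
  have hc := ipm_solv_comm_le h hY hsol
  have htp := ipm_solv_ne h hY hsol ht T
  have hKn : ((L ⊓ Y).normalCore).Normal := inferInstance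
  have hYbn : (Y.map (QuotientGroup.mk' (L ⊓ Y).normalCore)).Normal :=
    hYn.map _ (QuotientGroup.mk'_surjective _)
  have hcomm : ∀ x y : ↥(Y.map (QuotientGroup.mk' (L ⊓ Y).normalCore)), x * y = y * x := by
    rintro ⟨_, a, ha, rfl⟩ ⟨_, b, hb, rfl⟩
    apply Subtype.ext
    show ((a * b : G) : G ⧸ (L ⊓ Y).normalCore) = ((b * a : G) : G ⧸ (L ⊓ Y).normalCore)
    rw [QuotientGroup.eq]
    have e : (a * b)⁻¹ * (b * a) = b⁻¹ * a⁻¹ * b⁻¹⁻¹ * a⁻¹⁻¹ := by group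
    rw [e]
    exact hc (Subgroup.commutator_mem_commutator (Y.inv_mem hb) (Y.inv_mem ha))
  have hV : ∀ v : ↥(Y.map (QuotientGroup.mk' (L ⊓ Y).normalCore)), v ^ t = 1 := by
    rintro ⟨_, a, ha, rfl⟩
    apply Subtype.ext
    show (QuotientGroup.mk' (L ⊓ Y).normalCore a) ^ t = 1
    rw [← map_pow]
    exact (QuotientGroup.eq_one_iff _).mpr (ipm_solv_pow_mem h hY hsol ht ha)
  have hcop : (Nat.card ↥(S : Subgroup G)).Coprime t := by
    obtain ⟨n, hn⟩ := IsPGroup.iff_card.mp S.isPGroup'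
    rw [hn]
    exact Nat.Coprime.pow_left n ((Nat.coprime_primes Fact.out Fact.out).mpr (Ne.symm htp))
  have hα1 : ∀ v : ↥(Y.map (QuotientGroup.mk' (L ⊓ Y).normalCore)),
      (MulAut.conjNormal (QuotientGroup.mk' (L ⊓ Y).normalCore ((1 : ↥(S : Subgroup G)) : G)) :
        MulAut ↥(Y.map (QuotientGroup.mk' (L ⊓ Y).normalCore))).toMonoidHom v = v := by
    intro v
    apply Subtype.ext
    simp
  have hαm : ∀ (a b : ↥(S : Subgroup G)) (v : ↥(Y.map (QuotientGroup.mk' (L ⊓ Y).normalCore))),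
      (MulAut.conjNormal (QuotientGroup.mk' (L ⊓ Y).normalCore ((a * b : ↥(S : Subgroup G)) : G)) :
        MulAut ↥(Y.map (QuotientGroup.mk' (L ⊓ Y).normalCore))).toMonoidHom v =
      (MulAut.conjNormal (QuotientGroup.mk' (L ⊓ Y).normalCore (a : G)) :
        MulAut ↥(Y.map (QuotientGroup.mk' (L ⊓ Y).normalCore))).toMonoidHom
        ((MulAut.conjNormal (QuotientGroup.mk' (L ⊓ Y).normalCore (b : G)) :
        MulAut ↥(Y.map (QuotientGroup.mk' (L ⊓ Y).normalCore))).toMonoidHom v) := by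
    intro a b v
    apply Subtype.ext
    simp [mul_assoc]
  have hS : ∀ (a : ↥(S : Subgroup G)),
      ∀ v ∈ (((Cfsg.pResidual p ↥P).map P.subtype).map
        (QuotientGroup.mk' (L ⊓ Y).normalCore)).subgroupOf
          (Y.map (QuotientGroup.mk' (L ⊓ Y).normalCore)),
      (MulAut.conjNormal (QuotientGroup.mk' (L ⊓ Y).normalCore (a : G)) :
        MulAut ↥(Y.map (QuotientGroup.mk' (L ⊓ Y).normalCore))).toMonoidHom v ∈
        (((Cfsg.pResidual p ↥P).map P.subtype).map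
        (QuotientGroup.mk' (L ⊓ Y).normalCore)).subgroupOf
          (Y.map (QuotientGroup.mk' (L ⊓ Y).normalCore)) := by
    intro s v hv
    rw [Subgroup.mem_subgroupOf] at hv ⊢
    obtain ⟨x, hx, hxe⟩ := hv
    refine ⟨(s : G) * x * (s : G)⁻¹, ?_, ?_⟩
    · exact (Subgroup.mem_normalizer_iff.mp
        ((h.hSP.trans (ipm_P_le_normalizer_X P)) s.2) x).mp hx
    · simp [← hxe]
  obtain ⟨W₂, hWinv, hdisj, hgen⟩ := Helper72.maschke_elemAb hcomm (Fact.out : t.Prime) hV hcop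
    (fun s : ↥(S : Subgroup G) =>
      (MulAut.conjNormal (QuotientGroup.mk' (L ⊓ Y).normalCore (s : G)) :
        MulAut ↥(Y.map (QuotientGroup.mk' (L ⊓ Y).normalCore))).toMonoidHom) hα1 hαm _ hS
  obtain ⟨R, hR⟩ : ∃ R : Subgroup G, R = (W₂.map
      (Y.map (QuotientGroup.mk' (L ⊓ Y).normalCore)).subtype).comap
        (QuotientGroup.mk' (L ⊓ Y).normalCore) := ⟨_, rfl⟩
  have hmemR : ∀ r : G, r ∈ R ↔ ∃ w ∈ W₂, (w : G ⧸ (L ⊓ Y).normalCore) =
      QuotientGroup.mk' (L ⊓ Y).normalCore r := by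
    intro r
    rw [hR, Subgroup.mem_comap, Subgroup.mem_map]
    rfl
  have hRY : R ≤ Y := by
    intro r hr
    obtain ⟨w, hw, hwe⟩ := (hmemR r).mp hr
    obtain ⟨y, hy, hye⟩ := w.2
    have h1 : ((y : G) : G ⧸ (L ⊓ Y).normalCore) = ((r : G) : G ⧸ (L ⊓ Y).normalCore) :=
      hye.trans hwe
    have h2 : y⁻¹ * r ∈ (L ⊓ Y).normalCore := QuotientGroup.eq.mp h1
    have e : r = y * (y⁻¹ * r) := by group
    rw [e]
    exact Y.mul_mem hy (ipm_K_le_Y L Y h2)
  have hSR : (S : Subgroup G) ≤ Subgroup.normalizer (R : Set G) := by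
    apply ipm_le_normalizer_of_conj
    intro s hs r hr
    obtain ⟨w, hw, hwe⟩ := (hmemR r).mp hr
    rw [hmemR]
    refine ⟨_, hWinv ⟨s, hs⟩ w hw, ?_⟩
    simp [hwe]
  rcases ipm_invariant h hSR with h1 | h1
  · exfalso
    apply ipm_X_not_le_K h Y
    intro x hx
    obtain ⟨w, hw, hwe⟩ := (hmemR x).mp (h1 hx)
    have hwX : w ∈ (((Cfsg.pResidual p ↥P).map P.subtype).map
        (QuotientGroup.mk' (L ⊓ Y).normalCore)).subgroupOf
          (Y.map (QuotientGroup.mk' (L ⊓ Y).normalCore)) := by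
      rw [Subgroup.mem_subgroupOf]
      exact ⟨x, hx, hwe.symm⟩
    have hw1 : w ∈ (((Cfsg.pResidual p ↥P).map P.subtype).map
        (QuotientGroup.mk' (L ⊓ Y).normalCore)).subgroupOf
          (Y.map (QuotientGroup.mk' (L ⊓ Y).normalCore)) ⊓ W₂ := Subgroup.mem_inf.mpr ⟨hwX, hw⟩
    rw [hdisj, Subgroup.mem_bot] at hw1
    rw [hw1] at hwe
    exact (QuotientGroup.eq_one_iff x).mp hwe.symm
  · have hRK : R ≤ (L ⊓ Y).normalCore :=
      (le_inf h1 hRY).trans (ipm_solv_inf_eq_K h hY hsol).le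
    intro y hy
    obtain ⟨s, hs, w, hw, e⟩ := hgen ⟨QuotientGroup.mk' (L ⊓ Y).normalCore y, ⟨y, hy, rfl⟩⟩
    have hw1 : w = 1 := by
      obtain ⟨y₂, hy₂, hye⟩ := w.2
      have h2 : y₂ ∈ R := (hmemR y₂).mpr ⟨w, hw, hye.symm⟩
      apply Subtype.ext
      rw [← hye]
      exact (QuotientGroup.eq_one_iff y₂).mpr (hRK h2)
    rw [hw1, mul_one] at e
    rw [Subgroup.mem_subgroupOf] at hs
    obtain ⟨x, hx, hxe⟩ := hs
    have h3 : ((x : G) : G ⧸ (L ⊓ Y).normalCore) = ((y : G) : G ⧸ (L ⊓ Y).normalCore) := by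
      have := congrArg Subtype.val e
      exact hxe.trans this.symm
    have hk : x⁻¹ * y ∈ (L ⊓ Y).normalCore := QuotientGroup.eq.mp h3
    have e2 : y = x * (x⁻¹ * y) := by group
    rw [e2]
    exact Subgroup.mul_mem _ ((le_sup_right : (Cfsg.pResidual p ↥P).map P.subtype ≤ _) hx)
      ((le_sup_left : (L ⊓ Y).normalCore ≤ _) hk)

/-- in the solvable case `Y = O^p(P) · O_p(Y)` -/
theorem ipm_solv_Y_le_X_sup_OY (h : IsoPMin p S P L)
    (hY : Y = Subgroup.normalClosure (((Cfsg.pResidual p ↥P).map P.subtype : Subgroup G) : Set G))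
    (hsol : Group.IsSolvable ↥Y) {t : ℕ} [Fact t.Prime]
    (ht : t ∣ ((L ⊓ Y).normalCore.subgroupOf Y).index) (T : Sylow t ↥Y) :
    Y ≤ (Cfsg.pResidual p ↥P).map P.subtype ⊔ (Cfsg.pCore p ↥Y).map Y.subtype := by
  have hYn := ipm_Y_normal hY
  have hKn : ((L ⊓ Y).normalCore).Normal := inferInstance
  have hOn : ((Cfsg.pCore p ↥Y).map Y.subtype).Normal := ipm_OY_normal Y
  have hKX := ipm_solv_Y_le_K_sup_X h hY hsol ht T
  have hXY := ipm_X_le_Y hY
  have hQX : (Cfsg.pCore p ↥L).map L.subtype ≤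
      Subgroup.normalizer (((Cfsg.pResidual p ↥P).map P.subtype : Subgroup G) : Set G) :=
    (ipm_Q_le_S h).trans (h.hSP.trans (ipm_P_le_normalizer_X P))
  have hQD : (Cfsg.pCore p ↥L).map L.subtype ≤ Subgroup.normalizer
      (((Cfsg.pResidual p ↥P).map P.subtype ⊔ (Cfsg.pCore p ↥Y).map Y.subtype : Subgroup G) :
        Set G) := by
    intro q hq
    refine ipm_normalizer_sup (hQX hq) ?_
    rw [Subgroup.normalizer_eq_top_iff.mpr hOn]; trivial
  have hDY : (Cfsg.pResidual p ↥P).map P.subtype ⊔ (Cfsg.pCore p ↥Y).map Y.subtype ≤ Y :=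
    sup_le hXY (Subgroup.map_subtype_le _)
  have hcl : Subgroup.normalClosure (((Cfsg.pCore p ↥L).map L.subtype : Subgroup G) : Set G) ≤
      ((Cfsg.pResidual p ↥P).map P.subtype ⊔ (Cfsg.pCore p ↥Y).map Y.subtype) ⊔
        (Cfsg.pCore p ↥L).map L.subtype := by
    unfold Subgroup.normalClosure
    rw [Subgroup.closure_le]
    intro c hc
    rw [Group.mem_conjugatesOfSet_iff] at hc
    obtain ⟨q, hq, hconj⟩ := hc
    obtain ⟨g, rfl⟩ := isConj_iff.mp hconj
    have hg : g ∈ Y ⊔ L := by rw [ipm_Y_sup_L h hY]; trivial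
    obtain ⟨y, hy, l, hl, rfl⟩ := Helper35.exists_mul_of_mem_sup_of_le_normalizer
      (N := Y) (A := L) (by rw [Subgroup.normalizer_eq_top_iff.mpr hYn]; exact le_top) hg
    have hq' : l * q * l⁻¹ ∈ (Cfsg.pCore p ↥L).map L.subtype :=
      (Subgroup.mem_normalizer_iff.mp (ipm_L_le_normalizer_Q (p := p) L hl) q).mp hq
    obtain ⟨k, hk, x, hx, rfl⟩ := Helper35.exists_mul_of_mem_sup_of_le_normalizer
      (N := (L ⊓ Y).normalCore) (A := (Cfsg.pResidual p ↥P).map P.subtype)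
      (by rw [Subgroup.normalizer_eq_top_iff.mpr hKn]; exact le_top) (hKX hy)
    obtain ⟨q', hq'def⟩ : ∃ q' : G, q' = l * q * l⁻¹ := ⟨_, rfl⟩
    rw [← hq'def] at hq'
    -- `x₁ = [x, q'] ∈ X`
    have hx1 : x * q' * x⁻¹ * q'⁻¹ ∈ (Cfsg.pResidual p ↥P).map P.subtype := by
      have h1 := (Subgroup.mem_normalizer_iff.mp (hQX hq') x⁻¹).mp (Subgroup.inv_mem _ hx)
      have e : x * q' * x⁻¹ * q'⁻¹ = x * (q' * x⁻¹ * q'⁻¹) := by group
      rw [e]
      exact Subgroup.mul_mem _ hx h1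
    have ho1 := ipm_K_comm h hY hk (hXY hx1)
    have ho2 : k * q' * k⁻¹ * q'⁻¹ ∈ (Cfsg.pCore p ↥Y).map Y.subtype := by
      have h1 := ipm_normal_comm_Q hKn (ipm_K_le_L L Y) hk hq'
      apply ipm_inf_pCore_le_OY Y
      refine Subgroup.mem_inf.mpr ⟨ipm_K_le_Y L Y (Subgroup.mem_inf.mp h1).1, ?_⟩
      exact ipm_normal_inf_Q_le_pCore hKn (ipm_K_le_L L Y) h1
    have e : k * x * l * q * (k * x * l)⁻¹ =
        (k * (x * q' * x⁻¹ * q'⁻¹) * k⁻¹ * (x * q' * x⁻¹ * q'⁻¹)⁻¹) * (x * q' * x⁻¹ * q'⁻¹) *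
          (k * q' * k⁻¹ * q'⁻¹) * q' := by
      rw [hq'def]; group
    rw [SetLike.mem_coe, e]
    refine Subgroup.mul_mem _ (Subgroup.mul_mem _ (Subgroup.mul_mem _ ?_ ?_) ?_) ?_
    · exact (le_sup_left : _ ≤ ((Cfsg.pResidual p ↥P).map P.subtype ⊔
        (Cfsg.pCore p ↥Y).map Y.subtype) ⊔ (Cfsg.pCore p ↥L).map L.subtype)
        ((le_sup_right : (Cfsg.pCore p ↥Y).map Y.subtype ≤ _) ho1)
    · exact (le_sup_left : _ ≤ ((Cfsg.pResidual p ↥P).map P.subtype ⊔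
        (Cfsg.pCore p ↥Y).map Y.subtype) ⊔ (Cfsg.pCore p ↥L).map L.subtype)
        ((le_sup_left : (Cfsg.pResidual p ↥P).map P.subtype ≤ _) hx1)
    · exact (le_sup_left : _ ≤ ((Cfsg.pResidual p ↥P).map P.subtype ⊔
        (Cfsg.pCore p ↥Y).map Y.subtype) ⊔ (Cfsg.pCore p ↥L).map L.subtype)
        ((le_sup_right : (Cfsg.pCore p ↥Y).map Y.subtype ≤ _) ho2)
    · exact (le_sup_right : (Cfsg.pCore p ↥L).map L.subtype ≤ _) hq'
  intro y hy
  have hy1 := hcl (ipm_Y_le_closure_Q h (hY ▸ hy))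
  obtain ⟨d, hd, q, hq, rfl⟩ := Helper35.exists_mul_of_mem_sup_of_le_normalizer hQD hy1
  have hqY : q ∈ Y := by
    have e : q = d⁻¹ * (d * q) := by group
    rw [e]
    exact Y.mul_mem (Y.inv_mem (hDY hd)) hy
  obtain ⟨k, hk⟩ := ipm_Q_isPGroup (p := p) L ⟨q, hq⟩
  have hk' : q ^ p ^ k = 1 := congrArg Subtype.val hk
  have hqO := ipm_solv_pElt_mem h hY hsol ht T hqY hk'
  exact Subgroup.mul_mem _ hd ((le_sup_right : (Cfsg.pCore p ↥Y).map Y.subtype ≤ _) hqO)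

/-- `Y = O^p(P)` as soon as `Y = O^p(P) · O_p(Y)` -/
theorem ipm_X_eq_Y_of_le (h : IsoPMin p S P L)
    (hY : Y = Subgroup.normalClosure (((Cfsg.pResidual p ↥P).map P.subtype : Subgroup G) : Set G))
    (hle : Y ≤ (Cfsg.pResidual p ↥P).map P.subtype ⊔ (Cfsg.pCore p ↥Y).map Y.subtype) :
    (Cfsg.pResidual p ↥P).map P.subtype = Y := by
  have hYn := ipm_Y_normal hY
  have hXY := ipm_X_le_Y hY
  have hOX : (Cfsg.pCore p ↥Y).map Y.subtype ≤
      Subgroup.normalizer (((Cfsg.pResidual p ↥P).map P.subtype : Subgroup G) : Set G) :=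
    (ipm_OY_le_pCore Y).trans ((Helper47.pCore_le_sylow S).trans
      (h.hSP.trans (ipm_P_le_normalizer_X P)))
  have heq : (Cfsg.pResidual p ↥P).map P.subtype = (Cfsg.pResidual p ↥Y).map Y.subtype := by
    apply le_antisymm
    · unfold Cfsg.pResidual
      rw [MonoidHom.map_closure, Subgroup.closure_le]
      rintro _ ⟨g, hg, rfl⟩
      have hgY : (g : G) ∈ Y := hXY ⟨g, Helper47.mem_pResidual_of_coprime hg, rfl⟩
      refine ⟨⟨(g : G), hgY⟩, ?_, rfl⟩
      apply Subgroup.subset_closure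
      show (orderOf (⟨(g : G), hgY⟩ : ↥Y)).Coprime p
      rw [Subgroup.orderOf_mk, Subgroup.orderOf_coe]
      exact hg
    · unfold Cfsg.pResidual
      rw [MonoidHom.map_closure, Subgroup.closure_le]
      rintro _ ⟨u, hu, rfl⟩
      have hu' : (orderOf (u : G)).Coprime p := by
        rw [Subgroup.orderOf_coe]; exact hu
      have h1 := ipm_mem_of_coprime ((Helper47.pCore_isPGroup p ↥Y).map Y.subtype) hOX
        (hle u.2) hu'
      exact h1
  have hXn : ((Cfsg.pResidual p ↥P).map P.subtype).Normal := by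
    rw [heq]
    exact Helper47.normal_map_of_characteristic Y _
  exact le_antisymm hXY (ipm_Y_le_of_normal hY hXn le_rfl)

/-- the solvable case: `Y = O^p(P)` -/
theorem ipm_solv_X_eq_Y (h : IsoPMin p S P L)
    (hY : Y = Subgroup.normalClosure (((Cfsg.pResidual p ↥P).map P.subtype : Subgroup G) : Set G))
    (hsol : Group.IsSolvable ↥Y) : (Cfsg.pResidual p ↥P).map P.subtype = Y := by
  obtain ⟨t, htp, ht⟩ := ipm_exists_prime h hY
  have : Fact t.Prime := ⟨htp⟩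
  obtain ⟨T⟩ : Nonempty (Sylow t ↥Y) := inferInstance
  exact ipm_X_eq_Y_of_le h hY (ipm_solv_Y_le_X_sup_OY h hY hsol ht T)

/-- the solvable case: the structure of `Y/O_p(Y)` -/
theorem ipm_solv_structure (h : IsoPMin p S P L)
    (hY : Y = Subgroup.normalClosure (((Cfsg.pResidual p ↥P).map P.subtype : Subgroup G) : Set G))
    (hsol : Group.IsSolvable ↥Y) [hn : (Cfsg.pCore p ↥Y).Normal] :
    ∃ t : ℕ, t.Prime ∧ t ≠ p ∧ IsPGroup t (↥Y ⧸ Cfsg.pCore p ↥Y) ∧
      ∃ _ : Group.IsNilpotent (↥Y ⧸ Cfsg.pCore p ↥Y),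
        Group.nilpotencyClass (↥Y ⧸ Cfsg.pCore p ↥Y) ≤ 2 := by
  obtain ⟨t, htp, ht⟩ := ipm_exists_prime h hY
  have : Fact t.Prime := ⟨htp⟩
  obtain ⟨T⟩ : Nonempty (Sylow t ↥Y) := inferInstance
  have hq := ipm_solv_quot_isPGroup h hY hsol ht T
  refine ⟨t, htp, ipm_solv_ne h hY hsol ht T, hq, hq.isNilpotent, ?_⟩
  have := hq.isNilpotent
  exact ipm_class_le_two (ipm_solv_comm_central h hY hsol)

end solv

end Cfsg.Agent.Helper34
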