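/-
helper34: isolated `p`-minimal subgroups, part 4: the action of `G` on `Y/O_p(Y)`, preimages in
`G` of subgroups of `Y/O_p(Y)`, and `E(Y/O_p(Y)) = Y/O_p(Y)` when `Y` is not solvable.
-/
import Cfsg.Agent.Helper34.IsoPMin3

set_option autoImplicit false
set_option linter.unusedSectionVars false

namespace Cfsg.Agent.Helper34

open Cfsg

section quot

variable {H : Type*} [Group H]

/-- the automorphism of `H ⧸ N` induced by an automorphism of `H` (`N` characteristic) -/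
noncomputable def ipmQuotAut (N : Subgroup H) [hc : N.Characteristic] [hn : N.Normal]
    (ψ : H ≃* H) : (H ⧸ N) ≃* (H ⧸ N) :=
  QuotientGroup.congr N N ψ (Subgroup.characteristic_iff_map_eq.mp hc ψ)

theorem ipmQuotAut_mk (N : Subgroup H) [hc : N.Characteristic] [hn : N.Normal] (ψ : H ≃* H)
    (y : H) : ipmQuotAut N ψ (QuotientGroup.mk y) = QuotientGroup.mk (ψ y) := rfl

theorem ipm_comap_characteristic (N : Subgroup H) [hc : N.Characteristic] [hn : N.Normal]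
    (B : Subgroup (H ⧸ N)) [hB : B.Characteristic] :
    (B.comap (QuotientGroup.mk' N)).Characteristic := by
  rw [Subgroup.characteristic_iff_map_le]
  intro ψ
  rintro _ ⟨y, hy, rfl⟩
  have hy' : (QuotientGroup.mk y : H ⧸ N) ∈ B := hy
  have h1 : ipmQuotAut N ψ (QuotientGroup.mk y) ∈ B.map (ipmQuotAut N ψ).toMonoidHom :=
    ⟨_, hy', rfl⟩
  rw [Subgroup.characteristic_iff_map_eq.mp hB] at h1
  exact h1

end quot

section act

variable {G : Type*} [Group G] [Finite G] {p : ℕ} [Fact p.Prime] {Y : Subgroup G}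

/-- conjugation by `g` on `Y/O_p(Y)` -/
noncomputable def ipmPhi (p : ℕ) [Fact p.Prime] (Y : Subgroup G) [hYn : Y.Normal]
    [hn : (Cfsg.pCore p ↥Y).Normal] (g : G) :
    (↥Y ⧸ Cfsg.pCore p ↥Y) ≃* (↥Y ⧸ Cfsg.pCore p ↥Y) :=
  ipmQuotAut (Cfsg.pCore p ↥Y) (MulAut.conjNormal g)

theorem ipmPhi_mk [hYn : Y.Normal] [hn : (Cfsg.pCore p ↥Y).Normal] (g : G) (y : ↥Y) :
    ipmPhi p Y g (QuotientGroup.mk y) =
      QuotientGroup.mk (⟨g * y * g⁻¹, hYn.conj_mem y y.2 g⟩ : ↥Y) := by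
  unfold ipmPhi
  rw [ipmQuotAut_mk]
  congr 1

theorem ipmPhi_mul [hYn : Y.Normal] [hn : (Cfsg.pCore p ↥Y).Normal] (g h : G)
    (x : ↥Y ⧸ Cfsg.pCore p ↥Y) : ipmPhi p Y (g * h) x = ipmPhi p Y g (ipmPhi p Y h x) := by
  obtain ⟨y, rfl⟩ := QuotientGroup.mk_surjective x
  rw [ipmPhi_mk, ipmPhi_mk, ipmPhi_mk]
  congr 1
  apply Subtype.ext
  show g * h * (y : G) * (g * h)⁻¹ = g * (h * (y : G) * h⁻¹) * g⁻¹
  group

theorem ipmPhi_one [hYn : Y.Normal] [hn : (Cfsg.pCore p ↥Y).Normal]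
    (x : ↥Y ⧸ Cfsg.pCore p ↥Y) : ipmPhi p Y 1 x = x := by
  obtain ⟨y, rfl⟩ := QuotientGroup.mk_surjective x
  rw [ipmPhi_mk]
  congr 1
  apply Subtype.ext
  show 1 * (y : G) * 1⁻¹ = y
  group

theorem ipmPhi_inv_apply [hYn : Y.Normal] [hn : (Cfsg.pCore p ↥Y).Normal] (g : G)
    (x : ↥Y ⧸ Cfsg.pCore p ↥Y) : ipmPhi p Y g⁻¹ (ipmPhi p Y g x) = x := by
  rw [← ipmPhi_mul, inv_mul_cancel, ipmPhi_one]

theorem ipmPhi_apply_inv [hYn : Y.Normal] [hn : (Cfsg.pCore p ↥Y).Normal] (g : G)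
    (x : ↥Y ⧸ Cfsg.pCore p ↥Y) : ipmPhi p Y g (ipmPhi p Y g⁻¹ x) = x := by
  rw [← ipmPhi_mul, mul_inv_cancel, ipmPhi_one]

/-- the preimage in `G` of a subgroup of `Y/O_p(Y)` -/
def ipmPre (p : ℕ) (Y : Subgroup G) [hn : (Cfsg.pCore p ↥Y).Normal]
    (B : Subgroup (↥Y ⧸ Cfsg.pCore p ↥Y)) : Subgroup G :=
  (B.comap (QuotientGroup.mk' (Cfsg.pCore p ↥Y))).map Y.subtype

theorem mem_ipmPre [hn : (Cfsg.pCore p ↥Y).Normal] {B : Subgroup (↥Y ⧸ Cfsg.pCore p ↥Y)}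
    {z : G} : z ∈ ipmPre p Y B ↔
      ∃ hz : z ∈ Y, (QuotientGroup.mk (⟨z, hz⟩ : ↥Y) : ↥Y ⧸ Cfsg.pCore p ↥Y) ∈ B := by
  unfold ipmPre
  constructor
  · rintro ⟨y, hy, rfl⟩
    exact ⟨y.2, hy⟩
  · rintro ⟨hz, hb⟩
    exact ⟨⟨z, hz⟩, hb, rfl⟩

theorem ipmPre_le [hn : (Cfsg.pCore p ↥Y).Normal] (B : Subgroup (↥Y ⧸ Cfsg.pCore p ↥Y)) :
    ipmPre p Y B ≤ Y := Subgroup.map_subtype_le _

theorem ipmPre_mono [hn : (Cfsg.pCore p ↥Y).Normal] {B C : Subgroup (↥Y ⧸ Cfsg.pCore p ↥Y)}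
    (hBC : B ≤ C) : ipmPre p Y B ≤ ipmPre p Y C := by
  intro z hz
  rw [mem_ipmPre] at hz ⊢
  obtain ⟨hz1, hz2⟩ := hz
  exact ⟨hz1, hBC hz2⟩

theorem ipmPre_OY_le [hn : (Cfsg.pCore p ↥Y).Normal] (B : Subgroup (↥Y ⧸ Cfsg.pCore p ↥Y)) :
    (Cfsg.pCore p ↥Y).map Y.subtype ≤ ipmPre p Y B := by
  rintro _ ⟨y, hy, rfl⟩
  have h1 : (QuotientGroup.mk y : ↥Y ⧸ Cfsg.pCore p ↥Y) = 1 := (QuotientGroup.eq_one_iff y).mpr hy
  have h2 : y ∈ B.comap (QuotientGroup.mk' (Cfsg.pCore p ↥Y)) := by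
    rw [Subgroup.mem_comap]
    show (QuotientGroup.mk y : ↥Y ⧸ Cfsg.pCore p ↥Y) ∈ B
    rw [h1]; exact B.one_mem
  exact ⟨y, h2, rfl⟩

/-- conjugation in `G` corresponds to the action on `Y/O_p(Y)` -/
theorem ipmPre_map_phi [hYn : Y.Normal] [hn : (Cfsg.pCore p ↥Y).Normal] (g : G)
    (B : Subgroup (↥Y ⧸ Cfsg.pCore p ↥Y)) :
    ipmPre p Y (B.map (ipmPhi p Y g).toMonoidHom) =
      (ipmPre p Y B).map (MulAut.conj g).toMonoidHom := by
  ext z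
  rw [Subgroup.mem_map]
  constructor
  · intro hz
    rw [mem_ipmPre] at hz
    obtain ⟨hzY, b, hb, hbe⟩ := hz
    have hb' : b ∈ B := hb
    refine ⟨g⁻¹ * z * g⁻¹⁻¹, ?_, ?_⟩
    · apply mem_ipmPre.mpr
      refine ⟨hYn.conj_mem z hzY g⁻¹, ?_⟩
      have h1 : ipmPhi p Y g⁻¹ (QuotientGroup.mk (⟨z, hzY⟩ : ↥Y)) = b := by
        have hbe' : ipmPhi p Y g b = QuotientGroup.mk (⟨z, hzY⟩ : ↥Y) := hbe
        rw [← hbe', ipmPhi_inv_apply]
      rw [ipmPhi_mk] at h1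
      rw [h1]; exact hb'
    · show g * (g⁻¹ * z * g⁻¹⁻¹) * g⁻¹ = z
      group
  · rintro ⟨w, hw, rfl⟩
    have hw' : w ∈ ipmPre p Y B := hw
    rw [mem_ipmPre] at hw'
    obtain ⟨hwY, hwB⟩ := hw'
    apply mem_ipmPre.mpr
    refine ⟨hYn.conj_mem w hwY g, ?_⟩
    refine ⟨_, hwB, ?_⟩
    show ipmPhi p Y g (QuotientGroup.mk (⟨w, hwY⟩ : ↥Y)) = _
    rw [ipmPhi_mk]
    rfl

/-- a subgroup of `Y/O_p(Y)` stable under the action of `A ≤ G` has an `A`-invariant preimage -/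
theorem ipmPre_le_normalizer [hYn : Y.Normal] [hn : (Cfsg.pCore p ↥Y).Normal] {A : Subgroup G}
    {B : Subgroup (↥Y ⧸ Cfsg.pCore p ↥Y)}
    (hB : ∀ a ∈ A, B.map (ipmPhi p Y a).toMonoidHom ≤ B) :
    A ≤ Subgroup.normalizer ((ipmPre p Y B : Subgroup G) : Set G) := by
  apply ipm_le_normalizer_of_conj
  intro a ha z hz
  have h1 : a * z * a⁻¹ ∈ (ipmPre p Y B).map (MulAut.conj a).toMonoidHom := ⟨z, hz, rfl⟩
  rw [← ipmPre_map_phi] at h1
  exact ipmPre_mono (hB a ha) h1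

theorem ipmPre_normal_of_characteristic [hYn : Y.Normal] [hn : (Cfsg.pCore p ↥Y).Normal]
    (B : Subgroup (↥Y ⧸ Cfsg.pCore p ↥Y)) [hB : B.Characteristic] : (ipmPre p Y B).Normal := by
  have := ipm_comap_characteristic (Cfsg.pCore p ↥Y) B
  exact Helper47.normal_map_of_characteristic Y _

/-- a normal subgroup of `Y/O_p(Y)` has a `Y`-invariant preimage -/
theorem ipmPre_le_normalizer_of_normal [hn : (Cfsg.pCore p ↥Y).Normal]
    (B : Subgroup (↥Y ⧸ Cfsg.pCore p ↥Y)) [hB : B.Normal] :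
    Y ≤ Subgroup.normalizer ((ipmPre p Y B : Subgroup G) : Set G) := by
  have : (B.comap (QuotientGroup.mk' (Cfsg.pCore p ↥Y))).Normal := hB.comap _
  exact ipm_le_normalizer_map_subtype Y _

theorem ipm_top_le_of_le_pre [hn : (Cfsg.pCore p ↥Y).Normal]
    {B : Subgroup (↥Y ⧸ Cfsg.pCore p ↥Y)} (hle : Y ≤ ipmPre p Y B) : B = ⊤ := by
  rw [eq_top_iff]
  intro x _
  obtain ⟨y, rfl⟩ := QuotientGroup.mk_surjective x
  obtain ⟨hy, hb⟩ := mem_ipmPre.mp (hle y.2)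
  exact hb

theorem ipm_isSolvable_of_quot [hn : (Cfsg.pCore p ↥Y).Normal]
    (hq : Group.IsSolvable (↥Y ⧸ Cfsg.pCore p ↥Y)) : Group.IsSolvable ↥Y := by
  have hnil : Group.IsNilpotent ↥(Cfsg.pCore p ↥Y) := (Helper47.pCore_isPGroup p ↥Y).isNilpotent
  have hs : Group.IsSolvable ↥(Cfsg.pCore p ↥Y) := inferInstance
  refine Group.isSolvable_of_ker_le_range (Cfsg.pCore p ↥Y).subtype
    (QuotientGroup.mk' (Cfsg.pCore p ↥Y)) ?_
  rw [QuotientGroup.ker_mk', Subgroup.range_subtype]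

end act

section nonsolv

variable {G : Type*} [Group G] [Finite G] {p : ℕ} [Fact p.Prime] {S : Sylow p G}
  {P L Y : Subgroup G}

theorem ipm_pCore_map_le_sylow {S : Sylow p G} {H : Subgroup G} (hSH : (S : Subgroup G) ≤ H) :
    (Cfsg.pCore p ↥H).map H.subtype ≤ (S : Subgroup G) := by
  rintro _ ⟨y, hy, rfl⟩
  have h1 := Helper47.pCore_le_sylow (S.subtype hSH) hy
  rw [Sylow.coe_subtype] at h1
  exact Subgroup.mem_subgroupOf.mp h1

/-- `O^p(P)` does not centralise `O_p(L)` modulo `O_p(G)` -/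
theorem ipm_not_centralized (h : IsoPMin p S P L) :
    ¬ ∀ x ∈ (Cfsg.pResidual p ↥P).map P.subtype, ∀ q ∈ (Cfsg.pCore p ↥L).map L.subtype,
      x * q * x⁻¹ * q⁻¹ ∈ Cfsg.pCore p G := by
  intro hc
  apply h.hiso
  have hPO : P ≤ Subgroup.normalizer (((Cfsg.pCore p ↥P).map P.subtype : Subgroup G) : Set G) :=
    ipm_le_normalizer_map_subtype P _
  have hQO : (Cfsg.pCore p ↥L).map L.subtype ≤
      Subgroup.normalizer (((Cfsg.pCore p ↥P).map P.subtype : Subgroup G) : Set G) :=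
    (ipm_Q_le_S h).trans (h.hSP.trans hPO)
  have hle : (Cfsg.pCore p ↥P).map P.subtype ⊔ (Cfsg.pCore p ↥L).map L.subtype ≤
      (S : Subgroup G) := sup_le (ipm_pCore_map_le_sylow h.hSP) (ipm_Q_le_S h)
  have hnorm : P ≤ Subgroup.normalizer
      (((Cfsg.pCore p ↥P).map P.subtype ⊔ (Cfsg.pCore p ↥L).map L.subtype : Subgroup G) :
        Set G) := by
    have hPle : P ≤ (Cfsg.pResidual p ↥P).map P.subtype ⊔ (S : Subgroup G) :=
      (ipm_X_sup_S h.hSP).ge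
    refine hPle.trans (sup_le ?_ ?_)
    · apply ipm_le_normalizer_of_conj
      intro x hx n hn
      obtain ⟨o, ho, q, hq, rfl⟩ := Helper35.exists_mul_of_mem_sup_of_le_normalizer hQO hn
      have e : x * (o * q) * x⁻¹ = (x * o * x⁻¹) * (x * q * x⁻¹ * q⁻¹) * q := by group
      rw [e]
      refine Subgroup.mul_mem _ (Subgroup.mul_mem _ ?_ ?_) ?_
      · exact (le_sup_left : (Cfsg.pCore p ↥P).map P.subtype ≤ _)
          ((Subgroup.mem_normalizer_iff.mp (hPO (ipm_X_le_P P hx)) o).mp ho)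
      · exact (le_sup_left : (Cfsg.pCore p ↥P).map P.subtype ≤ _)
          (ipm_pCore_le_pCoreP h (hc x hx q hq))
      · exact (le_sup_right : (Cfsg.pCore p ↥L).map L.subtype ≤ _) hq
    · intro s hs
      exact ipm_normalizer_sup (hPO (h.hSP hs)) (ipm_L_le_normalizer_Q L (ipm_S_le_L h hs))
  exact le_sup_right.trans (ipm_le_pCore_map (hle.trans h.hSP) (S.isPGroup'.to_le hle) hnorm)

/-- a subgroup of `Y/O_p(Y)` whose preimage lies in `K` is central -/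
theorem ipm_le_center_of_pre_le_K (h : IsoPMin p S P L)
    (hY : Y = Subgroup.normalClosure (((Cfsg.pResidual p ↥P).map P.subtype : Subgroup G) : Set G))
    [hn : (Cfsg.pCore p ↥Y).Normal] {B : Subgroup (↥Y ⧸ Cfsg.pCore p ↥Y)}
    (hB : ipmPre p Y B ≤ (L ⊓ Y).normalCore) : B ≤ Subgroup.center (↥Y ⧸ Cfsg.pCore p ↥Y) := by
  intro b hb
  obtain ⟨y, rfl⟩ := QuotientGroup.mk_surjective b
  rw [Subgroup.mem_center_iff]
  intro z
  obtain ⟨c, rfl⟩ := QuotientGroup.mk_surjective z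
  have hk : (y : G) ∈ (L ⊓ Y).normalCore := hB (mem_ipmPre.mpr ⟨y.2, hb⟩)
  obtain ⟨w, hw, hwe⟩ := ipm_K_comm h hY hk c.2
  have hw' : y * c * y⁻¹ * c⁻¹ ∈ Cfsg.pCore p ↥Y := by
    have : w = y * c * y⁻¹ * c⁻¹ := Subtype.ext hwe
    rw [← this]; exact hw
  have h2 := (QuotientGroup.eq_one_iff _).mpr hw'
  simp only [QuotientGroup.mk_mul, QuotientGroup.mk_inv] at h2
  have h3 := mul_inv_eq_one.mp h2
  have h4 := mul_inv_eq_iff_eq_mul.mp h3
  exact h4.symm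

theorem ipm_pre_eq_top_of_le
    (hY : Y = Subgroup.normalClosure (((Cfsg.pResidual p ↥P).map P.subtype : Subgroup G) : Set G))
    [hn : (Cfsg.pCore p ↥Y).Normal] {B : Subgroup (↥Y ⧸ Cfsg.pCore p ↥Y)}
    (hBn : (ipmPre p Y B).Normal)
    (hX : (Cfsg.pResidual p ↥P).map P.subtype ≤ ipmPre p Y B) : B = ⊤ :=
  ipm_top_le_of_le_pre (ipm_Y_le_of_normal hY hBn hX)

/-- if `Y` is not solvable then `Y/O_p(Y)` is generated by its components -/
theorem ipm_layer_eq_top (h : IsoPMin p S P L)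
    (hY : Y = Subgroup.normalClosure (((Cfsg.pResidual p ↥P).map P.subtype : Subgroup G) : Set G))
    (hns : ¬ Group.IsSolvable ↥Y) [hn : (Cfsg.pCore p ↥Y).Normal] :
    Cfsg.layer (↥Y ⧸ Cfsg.pCore p ↥Y) = ⊤ := by
  by_contra hne
  have hYn := ipm_Y_normal hY
  have hlch := Helper22.layer_characteristic (↥Y ⧸ Cfsg.pCore p ↥Y)
  have hFch := Helper22.fittingSubgroup_characteristic (↥Y ⧸ Cfsg.pCore p ↥Y)
  have hlc : Cfsg.layer (↥Y ⧸ Cfsg.pCore p ↥Y) ≤ Subgroup.center (↥Y ⧸ Cfsg.pCore p ↥Y) := by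
    rcases ipm_le_K h Y (ipmPre_normal_of_characteristic (p := p) (Y := Y)
      (Cfsg.layer (↥Y ⧸ Cfsg.pCore p ↥Y))) (ipmPre_le _) with h1 | h1
    · exact absurd (ipm_pre_eq_top_of_le hY (ipmPre_normal_of_characteristic _) h1) hne
    · exact ipm_le_center_of_pre_le_K h hY h1
  have hcnil : Group.IsNilpotent ↥(Subgroup.center (↥Y ⧸ Cfsg.pCore p ↥Y)) := by
    refine ⟨⟨1, ?_⟩⟩
    rw [Subgroup.upperCentralSeries_one, eq_top_iff]
    intro z _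
    rw [Subgroup.mem_center_iff]
    intro g
    apply Subtype.ext
    exact (Subgroup.mem_center_iff.mp z.2 g)
  have hcF : Subgroup.center (↥Y ⧸ Cfsg.pCore p ↥Y) ≤
      Cfsg.fittingSubgroup (↥Y ⧸ Cfsg.pCore p ↥Y) :=
    le_sSup ⟨inferInstance, hcnil⟩
  have hFtop : Cfsg.fittingSubgroup (↥Y ⧸ Cfsg.pCore p ↥Y) = ⊤ := by
    rcases ipm_le_K h Y (ipmPre_normal_of_characteristic (p := p) (Y := Y)
      (Cfsg.fittingSubgroup (↥Y ⧸ Cfsg.pCore p ↥Y))) (ipmPre_le _) with h1 | h1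
    · exact ipm_pre_eq_top_of_le hY (ipmPre_normal_of_characteristic _) h1
    · have h2 := ipm_le_center_of_pre_le_K h hY h1
      have h3 : Cfsg.generalizedFittingSubgroup (↥Y ⧸ Cfsg.pCore p ↥Y) ≤
          Subgroup.center (↥Y ⧸ Cfsg.pCore p ↥Y) := sup_le hlc h2
      have h4 := Helper22.centralizer_generalizedFittingSubgroup_le (↥Y ⧸ Cfsg.pCore p ↥Y)
      have h5 : (⊤ : Subgroup (↥Y ⧸ Cfsg.pCore p ↥Y)) ≤ Subgroup.centralizer
          ((Cfsg.generalizedFittingSubgroup (↥Y ⧸ Cfsg.pCore p ↥Y) :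
            Subgroup (↥Y ⧸ Cfsg.pCore p ↥Y)) : Set (↥Y ⧸ Cfsg.pCore p ↥Y)) := by
        intro z _
        rw [Subgroup.mem_centralizer_iff]
        intro f hf
        exact ((Subgroup.mem_center_iff.mp (h3 hf)) z).symm
      exact top_le_iff.mp ((h5.trans h4).trans (h3.trans hcF))
  have hnil : Group.IsNilpotent (↥Y ⧸ Cfsg.pCore p ↥Y) := by
    have h1 := Helper22.fittingSubgroup_isNilpotent (↥Y ⧸ Cfsg.pCore p ↥Y)
    rw [hFtop] at h1
    exact (Group.isNilpotent_congr Subgroup.topEquiv).mp h1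
  have hsq : Group.IsSolvable (↥Y ⧸ Cfsg.pCore p ↥Y) := inferInstance
  exact hns (ipm_isSolvable_of_quot hsq)

end nonsolv

end Cfsg.Agent.Helper34
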