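/-
helper34: isolated `p`-minimal subgroups, part 5: when `Y/O_p(Y)` is generated by its
components, `S` permutes these components transitively.
-/
import Cfsg.Agent.Helper34.IsoPMin4

set_option autoImplicit false
set_option linter.unusedSectionVars false

namespace Cfsg.Agent.Helper34

open Cfsg

section act

variable {G : Type*} [Group G] [Finite G] {p : ℕ} [Fact p.Prime] {Y : Subgroup G}

theorem ipmPhi_map_map [hYn : Y.Normal] [hn : (Cfsg.pCore p ↥Y).Normal] (g h : G)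
    (B : Subgroup (↥Y ⧸ Cfsg.pCore p ↥Y)) :
    (B.map (ipmPhi p Y h).toMonoidHom).map (ipmPhi p Y g).toMonoidHom =
      B.map (ipmPhi p Y (g * h)).toMonoidHom := by
  ext x
  constructor
  · rintro ⟨_, ⟨b, hb, rfl⟩, rfl⟩
    exact ⟨b, hb, ipmPhi_mul g h b⟩
  · rintro ⟨b, hb, rfl⟩
    exact ⟨_, ⟨b, hb, rfl⟩, (ipmPhi_mul g h b).symm⟩

theorem ipmPhi_map_one [hYn : Y.Normal] [hn : (Cfsg.pCore p ↥Y).Normal]
    (B : Subgroup (↥Y ⧸ Cfsg.pCore p ↥Y)) : B.map (ipmPhi p Y 1).toMonoidHom = B := by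
  ext x
  constructor
  · rintro ⟨b, hb, rfl⟩
    have : (ipmPhi p Y 1).toMonoidHom b = b := ipmPhi_one b
    rw [this]; exact hb
  · intro hx
    exact ⟨x, hx, ipmPhi_one x⟩

/-- the subgroup of `Y/O_p(Y)` fixed by `A ≤ G` -/
noncomputable def ipmFix (p : ℕ) [Fact p.Prime] (Y : Subgroup G) [hYn : Y.Normal]
    [hn : (Cfsg.pCore p ↥Y).Normal] (A : Subgroup G) : Subgroup (↥Y ⧸ Cfsg.pCore p ↥Y) where
  carrier := {x | ∀ a ∈ A, ipmPhi p Y a x = x}
  mul_mem' := by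
    intro x y hx hy a ha
    rw [map_mul, hx a ha, hy a ha]
  one_mem' := by
    intro a _
    exact map_one _
  inv_mem' := by
    intro x hx a ha
    rw [map_inv, hx a ha]

theorem mem_ipmFix [hYn : Y.Normal] [hn : (Cfsg.pCore p ↥Y).Normal] {A : Subgroup G}
    {x : ↥Y ⧸ Cfsg.pCore p ↥Y} : x ∈ ipmFix p Y A ↔ ∀ a ∈ A, ipmPhi p Y a x = x := Iff.rfl

/-- `O_p(Y/O_p(Y)) = 1` -/
theorem ipm_pCore_quot_eq_bot [hn : (Cfsg.pCore p ↥Y).Normal] :
    Cfsg.pCore p (↥Y ⧸ Cfsg.pCore p ↥Y) = ⊥ := by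
  rw [eq_bot_iff]
  intro x hx
  obtain ⟨y, rfl⟩ := QuotientGroup.mk_surjective x
  have h1 : y ∈ (Cfsg.pCore p (↥Y ⧸ Cfsg.pCore p ↥Y)).comap
      (QuotientGroup.mk' (Cfsg.pCore p ↥Y)) := hx
  have h2 := ipm_comap_pCore_quotient_le h1
  rw [Subgroup.mem_bot]
  exact (QuotientGroup.eq_one_iff y).mpr h2

omit [Finite G] [Fact p.Prime] in
theorem ipm_component_not_le_center {H : Type*} [Group H] {C : Subgroup H}
    (hC : Cfsg.IsComponent C) : ¬ C ≤ Subgroup.center H := by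
  intro hle
  have h1 : ⁅C, C⁆ = ⊥ := by
    rw [Subgroup.commutator_eq_bot_iff_le_centralizer]
    exact hle.trans (Subgroup.center_le_centralizer _)
  rw [Helper22.quasisimple_commutator_eq hC.2] at h1
  exact Helper22.quasisimple_ne_bot hC.2 h1

end act

section trans

variable {G : Type*} [Group G] [Finite G] {p : ℕ} [Fact p.Prime] {S : Sylow p G}
  {P L Y : Subgroup G}

/-- `O_p(L)` does not centralise `Y/O_p(Y)` -/
theorem ipm_fix_ne_top (h : IsoPMin p S P L)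
    (hY : Y = Subgroup.normalClosure (((Cfsg.pResidual p ↥P).map P.subtype : Subgroup G) : Set G))
    [hYn : Y.Normal] [hn : (Cfsg.pCore p ↥Y).Normal] :
    ipmFix p Y ((Cfsg.pCore p ↥L).map L.subtype) ≠ ⊤ := by
  intro htop
  apply ipm_not_centralized h
  intro x hx q hq
  have hxY : x⁻¹ ∈ Y := Y.inv_mem (ipm_X_le_Y hY hx)
  have h1 : (QuotientGroup.mk (⟨x⁻¹, hxY⟩ : ↥Y) : ↥Y ⧸ Cfsg.pCore p ↥Y) ∈
      ipmFix p Y ((Cfsg.pCore p ↥L).map L.subtype) := by rw [htop]; trivial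
  have h2 := mem_ipmFix.mp h1 q hq
  rw [ipmPhi_mk] at h2
  have h3 := QuotientGroup.eq.mp h2.symm
  apply ipm_OY_le_pCore Y
  refine ⟨_, h3, ?_⟩
  show (x⁻¹)⁻¹ * (q * x⁻¹ * q⁻¹) = x * q * x⁻¹ * q⁻¹
  group

/-- the fixed points of `O_p(L)` are permuted by `L` -/
theorem ipm_map_le_fix [hYn : Y.Normal] [hn : (Cfsg.pCore p ↥Y).Normal]
    {B : Subgroup (↥Y ⧸ Cfsg.pCore p ↥Y)}
    (hB : B ≤ ipmFix p Y ((Cfsg.pCore p ↥L).map L.subtype)) {l : G} (hl : l ∈ L) :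
    B.map (ipmPhi p Y l).toMonoidHom ≤ ipmFix p Y ((Cfsg.pCore p ↥L).map L.subtype) := by
  rintro _ ⟨b, hb, rfl⟩
  rw [mem_ipmFix]
  intro q hq
  have hq' : l⁻¹ * q * l⁻¹⁻¹ ∈ (Cfsg.pCore p ↥L).map L.subtype :=
    (Subgroup.mem_normalizer_iff.mp (ipm_L_le_normalizer_Q (p := p) L (L.inv_mem hl)) q).mp hq
  have h1 := mem_ipmFix.mp (hB hb) _ hq'
  show ipmPhi p Y q (ipmPhi p Y l b) = ipmPhi p Y l b
  rw [← ipmPhi_mul]
  have e : q * l = l * (l⁻¹ * q * l⁻¹⁻¹) := by group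
  rw [e, ipmPhi_mul, h1]

/-- no component of `Y/O_p(Y)` is centralised by `O_p(L)` -/
theorem ipm_component_not_le_fix (h : IsoPMin p S P L)
    (hY : Y = Subgroup.normalClosure (((Cfsg.pResidual p ↥P).map P.subtype : Subgroup G) : Set G))
    [hYn : Y.Normal] [hn : (Cfsg.pCore p ↥Y).Normal]
    (hlay : Cfsg.layer (↥Y ⧸ Cfsg.pCore p ↥Y) = ⊤) {C : Subgroup (↥Y ⧸ Cfsg.pCore p ↥Y)}
    (hC : Cfsg.IsComponent C) : ¬ C ≤ ipmFix p Y ((Cfsg.pCore p ↥L).map L.subtype) := by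
  intro hCF
  obtain ⟨N, hN⟩ : ∃ N : Subgroup (↥Y ⧸ Cfsg.pCore p ↥Y), N = sSup {C' | Cfsg.IsComponent C' ∧
      C' ≤ ipmFix p Y ((Cfsg.pCore p ↥L).map L.subtype)} := ⟨_, rfl⟩
  have hNF : N ≤ ipmFix p Y ((Cfsg.pCore p ↥L).map L.subtype) := by
    rw [hN]; exact sSup_le (fun C' hC' => hC'.2)
  have hCN : C ≤ N := by rw [hN]; exact le_sSup ⟨hC, hCF⟩
  have hNn : N.Normal := by
    rw [hN]
    apply Subgroup.sSup_normal
    intro C' hC'
    rw [← Subgroup.normalizer_eq_top_iff, eq_top_iff, ← hlay]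
    exact Helper48.layer_le_normalizer_component hC'.1
  have hNL : ∀ l ∈ L, N.map (ipmPhi p Y l).toMonoidHom ≤ N := by
    intro l hl
    rw [Subgroup.map_le_iff_le_comap, hN]
    apply sSup_le
    intro C' hC'
    rw [← Subgroup.map_le_iff_le_comap]
    exact le_sSup ⟨Helper22.isComponent_map_equiv (ipmPhi p Y l) hC'.1, ipm_map_le_fix hC'.2 hl⟩
  have hpn : (ipmPre p Y N).Normal := by
    rw [← Subgroup.normalizer_eq_top_iff, eq_top_iff, ← ipm_Y_sup_L h hY]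
    exact sup_le (ipmPre_le_normalizer_of_normal N) (ipmPre_le_normalizer hNL)
  rcases ipm_le_K h Y hpn (ipmPre_le N) with h1 | h1
  · have h2 := ipm_pre_eq_top_of_le hY hpn h1
    apply ipm_fix_ne_top h hY
    rw [eq_top_iff, ← h2]
    exact hNF
  · exact ipm_component_not_le_center hC (hCN.trans (ipm_le_center_of_pre_le_K h hY h1))

/-- a factor of `Y/O_p(Y)` whose preimage lies in `L` is centralised by `O_p(L)` -/
theorem ipm_le_fix_of_pre_le_L (h : IsoPMin p S P L)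
    [hYn : Y.Normal] [hn : (Cfsg.pCore p ↥Y).Normal]
    {R R' : Subgroup (↥Y ⧸ Cfsg.pCore p ↥Y)} (hcover : R ⊔ R' = ⊤)
    (hcomm : R' ≤ Subgroup.centralizer (R : Set (↥Y ⧸ Cfsg.pCore p ↥Y)))
    (hS : (S : Subgroup G) ≤ Subgroup.normalizer ((ipmPre p Y R : Subgroup G) : Set G))
    (hRL : ipmPre p Y R ≤ L) : R ≤ ipmFix p Y ((Cfsg.pCore p ↥L).map L.subtype) := by
  obtain ⟨B, hB⟩ : ∃ B : Subgroup G, B = ipmPre p Y R ⊓ (Cfsg.pCore p ↥L).map L.subtype :=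
    ⟨_, rfl⟩
  have hBR : B ≤ ipmPre p Y R := by rw [hB]; exact inf_le_left
  have hBQ : B ≤ (Cfsg.pCore p ↥L).map L.subtype := by rw [hB]; exact inf_le_right
  have hBp : IsPGroup p ↥B := (ipm_Q_isPGroup L).to_le hBQ
  have hRn : ipmPre p Y R ≤ Subgroup.normalizer (B : Set G) := by
    intro z hz
    rw [hB]
    exact ipm_normalizer_inf (Subgroup.le_normalizer hz) (ipm_L_le_normalizer_Q L (hRL hz))
  -- the image of `B` in `Y/O_p(Y)`
  obtain ⟨Bb, hBb⟩ : ∃ Bb : Subgroup (↥Y ⧸ Cfsg.pCore p ↥Y),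
      Bb = (B.subgroupOf Y).map (QuotientGroup.mk' (Cfsg.pCore p ↥Y)) := ⟨_, rfl⟩
  have hBbp : IsPGroup p ↥Bb := by
    rw [hBb]; exact (hBp.comap_subtype).map _
  have hBbR : Bb ≤ R := by
    rw [hBb]
    rintro _ ⟨w, hw, rfl⟩
    obtain ⟨hw1, hw2⟩ := mem_ipmPre.mp (hBR (Subgroup.mem_subgroupOf.mp hw))
    exact hw2
  have hBbn : Bb.Normal := by
    rw [← Subgroup.normalizer_eq_top_iff, eq_top_iff, ← hcover]
    refine sup_le ?_ ?_
    · apply ipm_le_normalizer_of_conj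
      intro r hr n hn
      rw [hBb] at hn ⊢
      obtain ⟨w, hw, rfl⟩ := hn
      obtain ⟨z, rfl⟩ := QuotientGroup.mk_surjective r
      have hz : (z : G) ∈ ipmPre p Y R := mem_ipmPre.mpr ⟨z.2, hr⟩
      refine ⟨z * w * z⁻¹, ?_, by simp⟩
      have hw' : (w : G) ∈ B := hw
      show ((z : G) * (w : G) * (z : G)⁻¹) ∈ B
      exact (Subgroup.mem_normalizer_iff.mp (hRn hz) w).mp hw'
    · exact (hcomm.trans (Subgroup.centralizer_le hBbR)).trans
        (Subgroup.centralizer_le_normalizer _)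
  have hBb1 : Bb = ⊥ := by
    rw [eq_bot_iff, ← ipm_pCore_quot_eq_bot (p := p) (Y := Y)]
    exact Helper47.le_pCore hBbn hBbp
  intro r hr
  obtain ⟨z, rfl⟩ := QuotientGroup.mk_surjective r
  have hz : (z : G) ∈ ipmPre p Y R := mem_ipmPre.mpr ⟨z.2, hr⟩
  rw [mem_ipmFix]
  intro q hq
  rw [ipmPhi_mk]
  have hqz : q * (z : G) * q⁻¹ ∈ ipmPre p Y R :=
    (Subgroup.mem_normalizer_iff.mp (hS (ipm_Q_le_S h hq)) z).mp hz
  have hb : (z : G)⁻¹ * (q * (z : G) * q⁻¹) ∈ B := by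
    rw [hB]
    refine Subgroup.mem_inf.mpr ⟨Subgroup.mul_mem _ (Subgroup.inv_mem _ hz) hqz, ?_⟩
    have h1 := (Subgroup.mem_normalizer_iff.mp (ipm_L_le_normalizer_Q (p := p) L
      (L.inv_mem (hRL hz))) q).mp hq
    have e : (z : G)⁻¹ * (q * (z : G) * q⁻¹) = ((z : G)⁻¹ * q * (z : G)⁻¹⁻¹) * q⁻¹ := by group
    rw [e]
    exact Subgroup.mul_mem _ h1 (Subgroup.inv_mem _ hq)
  have h2 : (QuotientGroup.mk (z⁻¹ * ⟨q * (z : G) * q⁻¹, hYn.conj_mem z z.2 q⟩ : ↥Y) :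
      ↥Y ⧸ Cfsg.pCore p ↥Y) ∈ Bb := by
    rw [hBb]
    exact ⟨_, Subgroup.mem_subgroupOf.mpr hb, rfl⟩
  rw [hBb1, Subgroup.mem_bot, QuotientGroup.mk_mul, QuotientGroup.mk_inv,
    inv_mul_eq_one] at h2
  exact h2.symm

/-- `S` is transitive on the components of `Y/O_p(Y)` -/
theorem ipm_components_transitive (h : IsoPMin p S P L)
    (hY : Y = Subgroup.normalClosure (((Cfsg.pResidual p ↥P).map P.subtype : Subgroup G) : Set G))
    [hYn : Y.Normal] [hn : (Cfsg.pCore p ↥Y).Normal]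
    (hlay : Cfsg.layer (↥Y ⧸ Cfsg.pCore p ↥Y) = ⊤) {K₁ K₂ : Subgroup (↥Y ⧸ Cfsg.pCore p ↥Y)}
    (h1 : Cfsg.IsComponent K₁) (h2 : Cfsg.IsComponent K₂) :
    ∃ s ∈ (S : Subgroup G), K₂ = K₁.map (ipmPhi p Y s).toMonoidHom := by
  by_contra hno
  push Not at hno
  obtain ⟨R₁, hR₁⟩ : ∃ R₁ : Subgroup (↥Y ⧸ Cfsg.pCore p ↥Y),
      R₁ = sSup {C | ∃ s ∈ (S : Subgroup G), C = K₁.map (ipmPhi p Y s).toMonoidHom} := ⟨_, rfl⟩
  obtain ⟨R₂, hR₂⟩ : ∃ R₂ : Subgroup (↥Y ⧸ Cfsg.pCore p ↥Y),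
      R₂ = sSup {C | Cfsg.IsComponent C ∧
        ¬ ∃ s ∈ (S : Subgroup G), C = K₁.map (ipmPhi p Y s).toMonoidHom} := ⟨_, rfl⟩
  have hA1 : ∀ C, (∃ s ∈ (S : Subgroup G), C = K₁.map (ipmPhi p Y s).toMonoidHom) →
      Cfsg.IsComponent C := by
    rintro C ⟨s, -, rfl⟩
    exact Helper22.isComponent_map_equiv (ipmPhi p Y s) h1
  have hinv1 : ∀ s ∈ (S : Subgroup G), R₁.map (ipmPhi p Y s).toMonoidHom ≤ R₁ := by
    intro s hs
    rw [Subgroup.map_le_iff_le_comap, hR₁]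
    apply sSup_le
    rintro C ⟨s', hs', rfl⟩
    rw [← Subgroup.map_le_iff_le_comap, ipmPhi_map_map]
    exact le_sSup ⟨s * s', Subgroup.mul_mem _ hs hs', rfl⟩
  have hinv2 : ∀ s ∈ (S : Subgroup G), R₂.map (ipmPhi p Y s).toMonoidHom ≤ R₂ := by
    intro s hs
    rw [Subgroup.map_le_iff_le_comap, hR₂]
    apply sSup_le
    rintro C ⟨hC, hCn⟩
    rw [← Subgroup.map_le_iff_le_comap]
    refine le_sSup ⟨Helper22.isComponent_map_equiv (ipmPhi p Y s) hC, ?_⟩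
    rintro ⟨s', hs', he⟩
    apply hCn
    refine ⟨s⁻¹ * s', Subgroup.mul_mem _ (Subgroup.inv_mem _ hs) hs', ?_⟩
    have e2 := congrArg (fun B => B.map (ipmPhi p Y s⁻¹).toMonoidHom) he
    simp only [ipmPhi_map_map, inv_mul_cancel, ipmPhi_map_one] at e2
    exact e2
  have hcover : R₁ ⊔ R₂ = ⊤ := by
    rw [eq_top_iff, ← hlay]
    unfold Cfsg.layer
    apply sSup_le
    intro C hC
    by_cases hm : ∃ s ∈ (S : Subgroup G), C = K₁.map (ipmPhi p Y s).toMonoidHom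
    · exact le_sup_of_le_left (by rw [hR₁]; exact le_sSup hm)
    · exact le_sup_of_le_right (by rw [hR₂]; exact le_sSup ⟨hC, hm⟩)
  have hcomm : R₂ ≤ Subgroup.centralizer (R₁ : Set (↥Y ⧸ Cfsg.pCore p ↥Y)) := by
    rw [hR₂]
    apply sSup_le
    rintro C ⟨hC, hCn⟩
    rw [Subgroup.le_centralizer_iff, hR₁]
    apply sSup_le
    intro C' hC'
    rw [← Subgroup.commutator_eq_bot_iff_le_centralizer]
    apply Helper22.components_commute (hA1 C' hC') hC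
    rintro rfl
    exact hCn hC'
  have hcomm' : R₁ ≤ Subgroup.centralizer (R₂ : Set (↥Y ⧸ Cfsg.pCore p ↥Y)) :=
    Subgroup.le_centralizer_iff.mp hcomm
  have hK₁ : K₁ ≤ R₁ := by
    rw [hR₁]
    exact le_sSup ⟨1, Subgroup.one_mem _, (ipmPhi_map_one K₁).symm⟩
  have hK₂ : K₂ ≤ R₂ := by
    rw [hR₂]
    refine le_sSup ⟨h2, ?_⟩
    rintro ⟨s, hs, he⟩
    exact hno s hs he
  have hS1 := ipmPre_le_normalizer (p := p) (Y := Y) hinv1
  have hS2 := ipmPre_le_normalizer (p := p) (Y := Y) hinv2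
  rcases ipm_invariant h hS1 with hX1 | hL1
  · rcases ipm_invariant h hS2 with hX2 | hL2
    · -- `O^p(P)` maps into `R₁ ∩ R₂ ≤ Z(Y/O_p(Y))`
      have hcen : R₁ ⊓ R₂ ≤ Subgroup.center (↥Y ⧸ Cfsg.pCore p ↥Y) := by
        intro z hz
        obtain ⟨hz1, hz2⟩ := Subgroup.mem_inf.mp hz
        have hle : R₁ ⊔ R₂ ≤ Subgroup.centralizer ({z} : Set (↥Y ⧸ Cfsg.pCore p ↥Y)) := by
          refine sup_le ?_ ?_
          · intro r hr
            rw [Subgroup.mem_centralizer_iff]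
            intro w hw
            rw [Set.mem_singleton_iff] at hw
            subst hw
            exact (Subgroup.mem_centralizer_iff.mp (hcomm hz2) r hr).symm
          · intro r hr
            rw [Subgroup.mem_centralizer_iff]
            intro w hw
            rw [Set.mem_singleton_iff] at hw
            subst hw
            exact Subgroup.mem_centralizer_iff.mp (hcomm hr) w hz1
        rw [hcover] at hle
        rw [Subgroup.mem_center_iff]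
        intro g
        have := Subgroup.mem_centralizer_iff.mp (hle (Subgroup.mem_top g)) z rfl
        exact this.symm
      have hXc : (Cfsg.pResidual p ↥P).map P.subtype ≤
          ipmPre p Y (Subgroup.center (↥Y ⧸ Cfsg.pCore p ↥Y)) := by
        intro x hx
        obtain ⟨hx1, hx1'⟩ := mem_ipmPre.mp (hX1 hx)
        obtain ⟨hx2, hx2'⟩ := mem_ipmPre.mp (hX2 hx)
        exact mem_ipmPre.mpr ⟨hx1, hcen (Subgroup.mem_inf.mpr ⟨hx1', hx2'⟩)⟩
      have hctop := ipm_pre_eq_top_of_le hY (ipmPre_normal_of_characteristic _) hXc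
      apply ipm_component_not_le_center h1
      rw [hctop]; exact le_top
    · apply ipm_component_not_le_fix h hY hlay h2
      refine hK₂.trans (ipm_le_fix_of_pre_le_L h ?_ hcomm' hS2 hL2)
      rw [sup_comm]; exact hcover
  · apply ipm_component_not_le_fix h hY hlay h1
    exact hK₁.trans (ipm_le_fix_of_pre_le_L h hcover hcomm hS1 hL1)

end trans

end Cfsg.Agent.Helper34
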