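/-
helper34: a consequence of Kazarin's theorem for coprime action.  If `x` is a `p`-element
acting on the normal `p'`-subgroup `N` and centralising a Sylow `r`-subgroup of `N` for every
prime `r ≠ t`, then `[N, x] ≤ O_t(N)`.
-/
import Cfsg.Agent.Helper34.IsoPMin1
import Cfsg.Agent.Helper72.Kazarin

set_option autoImplicit false
set_option linter.unusedSectionVars false

namespace Cfsg.Agent.Helper34

open Cfsg

universe u

theorem ipm_kazarin_coprime {E : Type u} [Group E] [Finite E] {p t : ℕ} [Fact p.Prime]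
    [Fact t.Prime] (N : Subgroup E) [hN : N.Normal] (hpN : ¬ p ∣ Nat.card N) {x : E} {k : ℕ}
    (hx : x ^ p ^ k = 1)
    (hcen : ∀ r : ℕ, ∀ _ : Fact r.Prime, r ≠ t → ∃ R : Sylow r ↥N,
      (R : Subgroup ↥N).map N.subtype ≤ Subgroup.centralizer ({x} : Set E))
    {n : E} (hn : n ∈ N) : n * x * n⁻¹ * x⁻¹ ∈ (Cfsg.pCore t ↥N).map N.subtype := by
  obtain ⟨Hs, hHs⟩ : ∃ Hs : Subgroup E, Hs = N ⊔ Subgroup.zpowers x := ⟨_, rfl⟩
  have hNH : N ≤ Hs := by rw [hHs]; exact le_sup_left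
  have hxH : x ∈ Hs := by rw [hHs]; exact Subgroup.mem_sup_right (Subgroup.mem_zpowers x)
  have hN'n : (N.subgroupOf Hs).Normal := inferInstance
  -- the centraliser of `x` supplements `N`
  have hsup : Subgroup.centralizer ({(⟨x, hxH⟩ : ↥Hs)} : Set ↥Hs) ⊔ N.subgroupOf Hs = ⊤ := by
    rw [eq_top_iff]
    intro g _
    have hg : (g : E) ∈ N ⊔ Subgroup.zpowers x := by rw [← hHs]; exact g.2
    obtain ⟨m, hm, z, hz, e⟩ := Helper35.exists_mul_of_mem_sup_of_le_normalizer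
      (N := N) (A := Subgroup.zpowers x)
      (by rw [Subgroup.normalizer_eq_top_iff.mpr hN]; exact le_top) hg
    have hzH : z ∈ Hs := by rw [hHs]; exact Subgroup.mem_sup_right hz
    have e' : g = (⟨m, hNH hm⟩ : ↥Hs) * ⟨z, hzH⟩ := Subtype.ext e
    rw [e']
    refine Subgroup.mul_mem _ (Subgroup.mem_sup_right ?_) (Subgroup.mem_sup_left ?_)
    · exact Subgroup.mem_subgroupOf.mpr hm
    · rw [Subgroup.mem_centralizer_iff]
      intro w hw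
      rw [Set.mem_singleton_iff] at hw
      subst hw
      apply Subtype.ext
      obtain ⟨i, rfl⟩ := Subgroup.mem_zpowers_iff.mp hz
      show x * x ^ i = x ^ i * x
      exact (Commute.zpow_right (Commute.refl x) i).eq
  have hidx : (Subgroup.centralizer ({(⟨x, hxH⟩ : ↥Hs)} : Set ↥Hs)).index =
      (Subgroup.centralizer ({(⟨x, hxH⟩ : ↥Hs)} : Set ↥Hs)).relIndex (N.subgroupOf Hs) := by
    rw [← Helper72.relIndex_sup_normal, hsup, Subgroup.relIndex_top_right]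
  have hprime : ∀ {d : ℕ}, d.Prime →
      d ∣ (Subgroup.centralizer ({(⟨x, hxH⟩ : ↥Hs)} : Set ↥Hs)).index → d = t := by
    intro r hr hdvd
    by_contra hrt
    have : Fact r.Prime := ⟨hr⟩
    obtain ⟨R, hR⟩ := hcen r ⟨hr⟩ hrt
    have hR'C : ((R : Subgroup ↥N).map N.subtype).subgroupOf Hs ≤
        Subgroup.centralizer ({(⟨x, hxH⟩ : ↥Hs)} : Set ↥Hs) := by
      intro w hw
      have hw' := hR (Subgroup.mem_subgroupOf.mp hw)
      rw [Subgroup.mem_centralizer_iff] at hw' ⊢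
      intro v hv
      rw [Set.mem_singleton_iff] at hv
      subst hv
      apply Subtype.ext
      exact hw' x rfl
    rw [hidx] at hdvd
    have h1 := hdvd.trans (Subgroup.relIndex_dvd_of_le_left (N.subgroupOf Hs) hR'C)
    rw [Subgroup.relIndex_subgroupOf hNH] at h1
    have h2 : ((R : Subgroup ↥N).map N.subtype).relIndex N = (R : Subgroup ↥N).index := by
      unfold Subgroup.relIndex Subgroup.subgroupOf
      rw [Subgroup.comap_map_eq_self_of_injective N.subtype_injective]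
    rw [h2] at h1
    exact R.not_dvd_index h1
  have hpow : ∃ a : ℕ, (Subgroup.centralizer ({(⟨x, hxH⟩ : ↥Hs)} : Set ↥Hs)).index = t ^ a :=
    ⟨_, Nat.eq_prime_pow_of_unique_prime_dvd Subgroup.index_ne_zero_of_finite hprime⟩
  have hkaz := Helper72.commutator_conj_mem_pCore t (⟨x, hxH⟩ : ↥Hs) hpow ⟨n, hNH hn⟩ 1
  have hOn : (Cfsg.pCore t ↥Hs).Normal := inferInstance
  -- the commutator has `p`-power order modulo `O_t`
  have hcomm : Commute (QuotientGroup.mk ((⟨n, hNH hn⟩ : ↥Hs) * ⟨x, hxH⟩ * (⟨n, hNH hn⟩ : ↥Hs)⁻¹) :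
      ↥Hs ⧸ Cfsg.pCore t ↥Hs) (QuotientGroup.mk (⟨x, hxH⟩ : ↥Hs)) := by
    have h1 := (QuotientGroup.eq_one_iff _).mpr hkaz
    simp only [QuotientGroup.mk_mul, QuotientGroup.mk_inv, one_mul, inv_one, mul_one] at h1
    have h3 := mul_inv_eq_one.mp h1
    have h4 := mul_inv_eq_iff_eq_mul.mp h3
    simp only [QuotientGroup.mk_mul, QuotientGroup.mk_inv]
    exact h4
  have hc1 : (QuotientGroup.mk ((⟨n, hNH hn⟩ : ↥Hs) * ⟨x, hxH⟩ * (⟨n, hNH hn⟩ : ↥Hs)⁻¹ *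
      (⟨x, hxH⟩ : ↥Hs)⁻¹) : ↥Hs ⧸ Cfsg.pCore t ↥Hs) ^ p ^ k = 1 := by
    have hx' : (⟨x, hxH⟩ : ↥Hs) ^ p ^ k = 1 := Subtype.ext hx
    have e1 : (QuotientGroup.mk ((⟨n, hNH hn⟩ : ↥Hs) * ⟨x, hxH⟩ * (⟨n, hNH hn⟩ : ↥Hs)⁻¹ *
        (⟨x, hxH⟩ : ↥Hs)⁻¹) : ↥Hs ⧸ Cfsg.pCore t ↥Hs) =
        (QuotientGroup.mk ((⟨n, hNH hn⟩ : ↥Hs) * ⟨x, hxH⟩ * (⟨n, hNH hn⟩ : ↥Hs)⁻¹)) *
          (QuotientGroup.mk (⟨x, hxH⟩ : ↥Hs))⁻¹ := by
      rw [QuotientGroup.mk_mul, QuotientGroup.mk_inv]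
    rw [e1, (hcomm.inv_right).mul_pow, inv_pow, ← QuotientGroup.mk_pow, ← QuotientGroup.mk_pow,
      conj_pow, hx']
    simp
  have hcN : n * x * n⁻¹ * x⁻¹ ∈ N := by
    have e : n * x * n⁻¹ * x⁻¹ = n * (x * n⁻¹ * x⁻¹) := by group
    rw [e]
    exact N.mul_mem hn (hN.conj_mem _ (N.inv_mem hn) x)
  have hc2 : (QuotientGroup.mk ((⟨n, hNH hn⟩ : ↥Hs) * ⟨x, hxH⟩ * (⟨n, hNH hn⟩ : ↥Hs)⁻¹ *
      (⟨x, hxH⟩ : ↥Hs)⁻¹) : ↥Hs ⧸ Cfsg.pCore t ↥Hs) ^ Nat.card N = 1 := by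
    rw [← QuotientGroup.mk_pow]
    have h1 : (⟨n * x * n⁻¹ * x⁻¹, hcN⟩ : ↥N) ^ Nat.card N = 1 := pow_card_eq_one'
    have h2 : (n * x * n⁻¹ * x⁻¹) ^ Nat.card N = 1 := congrArg Subtype.val h1
    have h3 : ((⟨n, hNH hn⟩ : ↥Hs) * ⟨x, hxH⟩ * (⟨n, hNH hn⟩ : ↥Hs)⁻¹ *
        (⟨x, hxH⟩ : ↥Hs)⁻¹) ^ Nat.card N = 1 := Subtype.ext h2
    rw [h3, QuotientGroup.mk_one]
  have hcop : (p ^ k).Coprime (Nat.card N) :=
    Nat.Coprime.pow_left k ((Nat.Prime.coprime_iff_not_dvd Fact.out).mpr hpN)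
  have hc3 := Nat.eq_one_of_dvd_coprimes hcop (orderOf_dvd_of_pow_eq_one hc1)
    (orderOf_dvd_of_pow_eq_one hc2)
  have hc4 := (QuotientGroup.eq_one_iff _).mp (orderOf_eq_one_iff.mp hc3)
  -- conclude inside `N`
  have hmem : n * x * n⁻¹ * x⁻¹ ∈ (Cfsg.pCore t ↥Hs).map Hs.subtype ⊓ N :=
    Subgroup.mem_inf.mpr ⟨⟨_, hc4, rfl⟩, hcN⟩
  have hle : (Cfsg.pCore t ↥Hs).map Hs.subtype ⊓ N ≤ (Cfsg.pCore t ↥N).map N.subtype := by
    refine ipm_le_pCore_map inf_le_right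
      (((Helper47.pCore_isPGroup t ↥Hs).map Hs.subtype).to_le inf_le_left) ?_
    intro m hm
    refine ipm_normalizer_inf (ipm_le_normalizer_map_subtype Hs _ (hNH hm)) ?_
    rw [Subgroup.normalizer_eq_top_iff.mpr hN]; trivial
  exact hle hmem

end Cfsg.Agent.Helper34
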