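/-
helper34: isolated `p`-minimal subgroups, part 7: if `Y` is not solvable then `p` divides
`|Y/O_p(Y)|` (coprime action, invariant Sylow subgroups and Kazarin's theorem).
-/
import Cfsg.Agent.Helper34.IsoPMin5
import Cfsg.Agent.Helper34.IsoPMin6

set_option autoImplicit false
set_option linter.unusedSectionVars false

namespace Cfsg.Agent.Helper34

open Cfsg

section gen

variable {E : Type*} [Group E]

theorem ipm_pow_conj {a b d : E} (h1 : a * b * a⁻¹ = b * d) (h2 : Commute a d) (n : ℕ) :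
    a ^ n * b * (a ^ n)⁻¹ = b * d ^ n := by
  induction n with
  | zero => simp
  | succ n ih =>
    have e : a ^ (n + 1) * b * (a ^ (n + 1))⁻¹ = a * (a ^ n * b * (a ^ n)⁻¹) * a⁻¹ := by
      rw [pow_succ']; group
    rw [e, ih]
    have e2 : a * (b * d ^ n) * a⁻¹ = (a * b * a⁻¹) * (a * d ^ n * a⁻¹) := by group
    rw [e2, h1]
    have e3 : a * d ^ n * a⁻¹ = d ^ n := by
      rw [(h2.pow_right n).eq, mul_inv_cancel_right]
    rw [e3, pow_succ', mul_assoc]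

end gen

section pdvd

variable {G : Type*} [Group G] [Finite G] {p : ℕ} [Fact p.Prime] {S : Sylow p G}
  {P L Y : Subgroup G}

/-- the image of `Y` in `G/O_p(Y)` is a quotient of `Y/O_p(Y)` -/
theorem ipm_card_image_dvd [hn : (Cfsg.pCore p ↥Y).Normal]
    [hOn : ((Cfsg.pCore p ↥Y).map Y.subtype).Normal] :
    Nat.card ↥(Y.map (QuotientGroup.mk' ((Cfsg.pCore p ↥Y).map Y.subtype))) ∣
      Nat.card (↥Y ⧸ Cfsg.pCore p ↥Y) := by
  have hker : Cfsg.pCore p ↥Y ≤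
      ((QuotientGroup.mk' ((Cfsg.pCore p ↥Y).map Y.subtype)).subgroupMap Y).ker := by
    intro y hy
    rw [MonoidHom.mem_ker]
    apply Subtype.ext
    show QuotientGroup.mk' ((Cfsg.pCore p ↥Y).map Y.subtype) (y : G) = 1
    exact (QuotientGroup.eq_one_iff _).mpr ⟨y, hy, rfl⟩
  refine Subgroup.card_dvd_of_surjective (QuotientGroup.lift (Cfsg.pCore p ↥Y)
    ((QuotientGroup.mk' ((Cfsg.pCore p ↥Y).map Y.subtype)).subgroupMap Y) hker) ?_
  rintro ⟨_, y, hy, rfl⟩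
  exact ⟨QuotientGroup.mk (⟨y, hy⟩ : ↥Y), rfl⟩

theorem ipm_mem_Y_of_image_mem
    [hOn : ((Cfsg.pCore p ↥Y).map Y.subtype).Normal] {z : G}
    (hz : QuotientGroup.mk' ((Cfsg.pCore p ↥Y).map Y.subtype) z ∈
      Y.map (QuotientGroup.mk' ((Cfsg.pCore p ↥Y).map Y.subtype))) : z ∈ Y := by
  obtain ⟨y, hy, hye⟩ := hz
  have h1 : y⁻¹ * z ∈ (Cfsg.pCore p ↥Y).map Y.subtype := QuotientGroup.eq.mp hye
  have e : z = y * (y⁻¹ * z) := by group
  rw [e]
  exact Y.mul_mem hy (Subgroup.map_subtype_le _ h1)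

/-- if `p ∤ |Y/O_p(Y)|`, elements of `Y` of `p`-power order modulo `O_p(Y)` lie in `O_p(Y)` -/
theorem ipm_pElt_mem_of_not_dvd'
    [hOn : ((Cfsg.pCore p ↥Y).map Y.subtype).Normal]
    (hnd : ¬ p ∣ Nat.card ↥(Y.map (QuotientGroup.mk' ((Cfsg.pCore p ↥Y).map Y.subtype))))
    {b : G} (hb : b ∈ Y) {k : ℕ}
    (h1 : (QuotientGroup.mk' ((Cfsg.pCore p ↥Y).map Y.subtype) b) ^ p ^ k = 1) :
    b ∈ (Cfsg.pCore p ↥Y).map Y.subtype := by
  have hbm : QuotientGroup.mk' ((Cfsg.pCore p ↥Y).map Y.subtype) b ∈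
      Y.map (QuotientGroup.mk' ((Cfsg.pCore p ↥Y).map Y.subtype)) := ⟨b, hb, rfl⟩
  have h2 : (QuotientGroup.mk' ((Cfsg.pCore p ↥Y).map Y.subtype) b) ^
      Nat.card ↥(Y.map (QuotientGroup.mk' ((Cfsg.pCore p ↥Y).map Y.subtype))) = 1 := by
    have h3 : (⟨_, hbm⟩ : ↥(Y.map (QuotientGroup.mk' ((Cfsg.pCore p ↥Y).map Y.subtype)))) ^
        Nat.card ↥(Y.map (QuotientGroup.mk' ((Cfsg.pCore p ↥Y).map Y.subtype))) = 1 :=
      pow_card_eq_one'
    exact congrArg Subtype.val h3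
  have hcop : (p ^ k).Coprime
      (Nat.card ↥(Y.map (QuotientGroup.mk' ((Cfsg.pCore p ↥Y).map Y.subtype)))) :=
    Nat.Coprime.pow_left k ((Nat.Prime.coprime_iff_not_dvd Fact.out).mpr hnd)
  have h4 := Nat.eq_one_of_dvd_coprimes hcop (orderOf_dvd_of_pow_eq_one h1)
    (orderOf_dvd_of_pow_eq_one h2)
  exact (QuotientGroup.eq_one_iff b).mp (orderOf_eq_one_iff.mp h4)

/-- if `p ∤ |Y/O_p(Y)|` the `p`-elements of `Y` lie in `O_p(Y)` -/
theorem ipm_pElt_mem_of_not_dvd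
    [hOn : ((Cfsg.pCore p ↥Y).map Y.subtype).Normal]
    (hnd : ¬ p ∣ Nat.card ↥(Y.map (QuotientGroup.mk' ((Cfsg.pCore p ↥Y).map Y.subtype))))
    {b : G} (hb : b ∈ Y) {k : ℕ} (hbk : b ^ p ^ k = 1) :
    b ∈ (Cfsg.pCore p ↥Y).map Y.subtype :=
  ipm_pElt_mem_of_not_dvd' hnd hb (k := k) (by rw [← map_pow, hbk, map_one])

/-- if `Y` is not solvable then `p` divides `|Y/O_p(Y)|` -/
theorem ipm_p_dvd_card (h : IsoPMin p S P L)
    (hY : Y = Subgroup.normalClosure (((Cfsg.pResidual p ↥P).map P.subtype : Subgroup G) : Set G))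
    (hns : ¬ Group.IsSolvable ↥Y) [hn : (Cfsg.pCore p ↥Y).Normal] :
    p ∣ Nat.card (↥Y ⧸ Cfsg.pCore p ↥Y) := by
  by_contra hnd0
  have hYn := ipm_Y_normal hY
  have hOn : ((Cfsg.pCore p ↥Y).map Y.subtype).Normal := ipm_OY_normal Y
  have hKn : ((L ⊓ Y).normalCore).Normal := inferInstance
  have hnd : ¬ p ∣ Nat.card ↥(Y.map (QuotientGroup.mk' ((Cfsg.pCore p ↥Y).map Y.subtype))) :=
    fun hd => hnd0 (hd.trans ipm_card_image_dvd)
  have hYbn : (Y.map (QuotientGroup.mk' ((Cfsg.pCore p ↥Y).map Y.subtype))).Normal :=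
    hYn.map _ (QuotientGroup.mk'_surjective _)
  have hOL : (Cfsg.pCore p ↥Y).map Y.subtype ≤ L :=
    (ipm_OY_le_pCore Y).trans (ipm_pCore_le_L h)
  -- `S`-invariant Sylow subgroups of the image of `Y`
  have hSyl : ∀ (r : ℕ) (_ : Fact r.Prime),
      ∃ R : Sylow r ↥(Y.map (QuotientGroup.mk' ((Cfsg.pCore p ↥Y).map Y.subtype))),
      ((Cfsg.pResidual p ↥P).map P.subtype ≤
        ((R : Subgroup ↥(Y.map (QuotientGroup.mk' ((Cfsg.pCore p ↥Y).map Y.subtype)))).map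
          (Subgroup.subtype _)).comap (QuotientGroup.mk' ((Cfsg.pCore p ↥Y).map Y.subtype))) ∨
      (((R : Subgroup ↥(Y.map (QuotientGroup.mk' ((Cfsg.pCore p ↥Y).map Y.subtype)))).map
          (Subgroup.subtype _)).comap (QuotientGroup.mk' ((Cfsg.pCore p ↥Y).map Y.subtype)) ≤
        L) := by
    intro r hr
    obtain ⟨R, hR⟩ := Helper48.exists_invariant_sylow
      (Y.map (QuotientGroup.mk' ((Cfsg.pCore p ↥Y).map Y.subtype))) hnd
      ((S : Subgroup G).map (QuotientGroup.mk' ((Cfsg.pCore p ↥Y).map Y.subtype)))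
      (S.isPGroup'.map _) r
    refine ⟨R, ipm_invariant h ?_⟩
    apply ipm_le_normalizer_of_conj
    intro s hs z hz
    rw [Subgroup.mem_comap] at hz ⊢
    have h1 := hR _ ⟨s, hs, rfl⟩
    rw [map_mul, map_mul, map_inv]
    exact (Subgroup.mem_normalizer_iff.mp h1 _).mp hz
  -- a prime `t` whose invariant Sylow subgroup covers `O^p(P)`
  have hex : ∃ (t : ℕ) (_ : Fact t.Prime)
      (R : Sylow t ↥(Y.map (QuotientGroup.mk' ((Cfsg.pCore p ↥Y).map Y.subtype)))),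
      (Cfsg.pResidual p ↥P).map P.subtype ≤
        ((R : Subgroup ↥(Y.map (QuotientGroup.mk' ((Cfsg.pCore p ↥Y).map Y.subtype)))).map
          (Subgroup.subtype _)).comap (QuotientGroup.mk' ((Cfsg.pCore p ↥Y).map Y.subtype)) := by
    by_contra hcon
    push Not at hcon
    apply ipm_X_not_le_L h
    have hle : Y.map (QuotientGroup.mk' ((Cfsg.pCore p ↥Y).map Y.subtype)) ≤
        L.map (QuotientGroup.mk' ((Cfsg.pCore p ↥Y).map Y.subtype)) := by
      apply Helper48.le_of_forall_sylow_le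
      intro r hr
      obtain ⟨R, hR⟩ := hSyl r hr
      rcases hR with hR | hR
      · exact absurd hR (hcon r hr R)
      · refine ⟨R, ?_⟩
        intro z hz
        obtain ⟨z', rfl⟩ := QuotientGroup.mk'_surjective _ z
        exact ⟨z', hR (Subgroup.mem_comap.mpr hz), rfl⟩
    intro x hx
    obtain ⟨l, hl, hle'⟩ := hle ⟨x, ipm_X_le_Y hY hx, rfl⟩
    have h1 : l⁻¹ * x ∈ (Cfsg.pCore p ↥Y).map Y.subtype := QuotientGroup.eq.mp hle'
    have e : x = l * (l⁻¹ * x) := by group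
    rw [e]
    exact L.mul_mem hl (hOL h1)
  obtain ⟨t, ht, Rt, hRt⟩ := hex
  -- `O_p(L)` centralises a Sylow `r`-subgroup for every `r ≠ t`
  have hcen : ∀ q ∈ (Cfsg.pCore p ↥L).map L.subtype, ∀ r : ℕ, ∀ _ : Fact r.Prime, r ≠ t →
      ∃ R : Sylow r ↥(Y.map (QuotientGroup.mk' ((Cfsg.pCore p ↥Y).map Y.subtype))),
      (R : Subgroup ↥(Y.map (QuotientGroup.mk' ((Cfsg.pCore p ↥Y).map Y.subtype)))).map
          (Subgroup.subtype _) ≤ Subgroup.centralizer
        ({QuotientGroup.mk' ((Cfsg.pCore p ↥Y).map Y.subtype) q} :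
          Set (G ⧸ (Cfsg.pCore p ↥Y).map Y.subtype)) := by
    intro q hq r hr hrt
    obtain ⟨R, hR⟩ := hSyl r hr
    refine ⟨R, ?_⟩
    have hRL : ((R : Subgroup ↥(Y.map (QuotientGroup.mk' ((Cfsg.pCore p ↥Y).map Y.subtype)))).map
          (Subgroup.subtype _)).comap (QuotientGroup.mk' ((Cfsg.pCore p ↥Y).map Y.subtype)) ≤
        L := by
      rcases hR with hR | hR
      · exfalso
        apply ipm_X_not_le_L h
        intro x hx
        have h1 := hRt hx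
        have h2 := hR hx
        rw [Subgroup.mem_comap] at h1 h2
        obtain ⟨w1, hw1, e1⟩ := h1
        obtain ⟨w2, hw2, e2⟩ := h2
        have hw : w1 = w2 := Subtype.ext (e1.trans e2.symm)
        obtain ⟨k1, hk1⟩ := Rt.isPGroup' ⟨w1, hw1⟩
        obtain ⟨k2, hk2⟩ := R.isPGroup' ⟨w2, hw2⟩
        have hk1' : w1 ^ t ^ k1 = 1 := congrArg Subtype.val hk1
        have hk2' : w1 ^ r ^ k2 = 1 := by rw [hw]; exact congrArg Subtype.val hk2
        have hcop : (t ^ k1).Coprime (r ^ k2) :=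
          Nat.Coprime.pow _ _ ((Nat.coprime_primes ht.out hr.out).mpr (Ne.symm hrt))
        have h3 := Nat.eq_one_of_dvd_coprimes hcop (orderOf_dvd_of_pow_eq_one hk1')
          (orderOf_dvd_of_pow_eq_one hk2')
        have h4 : w1 = 1 := orderOf_eq_one_iff.mp h3
        have h5 : QuotientGroup.mk' ((Cfsg.pCore p ↥Y).map Y.subtype) x = 1 := by
          rw [← e1, h4]; rfl
        exact hOL ((QuotientGroup.eq_one_iff x).mp h5)
      · exact hR
    intro zb hzb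
    obtain ⟨z, rfl⟩ := QuotientGroup.mk'_surjective _ zb
    have hzL : z ∈ L := hRL (Subgroup.mem_comap.mpr hzb)
    have hzY : z ∈ Y := by
      apply ipm_mem_Y_of_image_mem (p := p)
      obtain ⟨w, -, e⟩ := hzb
      rw [← e]; exact w.2
    rw [Subgroup.mem_centralizer_iff]
    intro v hv
    rw [Set.mem_singleton_iff] at hv
    subst hv
    rw [← map_mul, ← map_mul]
    show ((q * z : G) : G ⧸ (Cfsg.pCore p ↥Y).map Y.subtype) =
      ((z * q : G) : G ⧸ (Cfsg.pCore p ↥Y).map Y.subtype)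
    rw [QuotientGroup.eq]
    have hbQ : (q * z)⁻¹ * (z * q) ∈ (Cfsg.pCore p ↥L).map L.subtype := by
      have h1 := (Subgroup.mem_normalizer_iff.mp (ipm_L_le_normalizer_Q (p := p) L
        (L.inv_mem hzL)) q⁻¹).mp (Subgroup.inv_mem _ hq)
      have e : (q * z)⁻¹ * (z * q) = (z⁻¹ * q⁻¹ * z⁻¹⁻¹) * q := by group
      rw [e]
      exact Subgroup.mul_mem _ h1 hq
    have hbY : (q * z)⁻¹ * (z * q) ∈ Y := by
      have e : (q * z)⁻¹ * (z * q) = z⁻¹ * (q⁻¹ * z * q⁻¹⁻¹) := by group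
      rw [e]
      exact Y.mul_mem (Y.inv_mem hzY) (hYn.conj_mem z hzY q⁻¹)
    obtain ⟨k, hk⟩ := ipm_Q_isPGroup (p := p) L ⟨_, hbQ⟩
    have hk' : ((q * z)⁻¹ * (z * q)) ^ p ^ k = 1 := congrArg Subtype.val hk
    exact ipm_pElt_mem_of_not_dvd hnd hbY hk'
  -- Kazarin
  have hkc : ∀ q ∈ (Cfsg.pCore p ↥L).map L.subtype, ∀ y ∈ Y, y * q * y⁻¹ * q⁻¹ ∈
      ((Cfsg.pCore t ↥(Y.map (QuotientGroup.mk' ((Cfsg.pCore p ↥Y).map Y.subtype)))).map
        (Subgroup.subtype _)).comap (QuotientGroup.mk' ((Cfsg.pCore p ↥Y).map Y.subtype)) := by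
    intro q hq y hy
    obtain ⟨k, hk⟩ := ipm_Q_isPGroup (p := p) L ⟨q, hq⟩
    have hk' : q ^ p ^ k = 1 := congrArg Subtype.val hk
    have hx : (QuotientGroup.mk' ((Cfsg.pCore p ↥Y).map Y.subtype) q) ^ p ^ k = 1 := by
      rw [← map_pow, hk', map_one]
    have h1 := ipm_kazarin_coprime (t := t)
      (Y.map (QuotientGroup.mk' ((Cfsg.pCore p ↥Y).map Y.subtype))) hnd hx (hcen q hq)
      (n := QuotientGroup.mk' ((Cfsg.pCore p ↥Y).map Y.subtype) y) ⟨y, hy, rfl⟩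
    rw [Subgroup.mem_comap, map_mul, map_mul, map_mul, map_inv, map_inv]
    exact h1
  have hOtn : ((Cfsg.pCore t ↥(Y.map (QuotientGroup.mk' ((Cfsg.pCore p ↥Y).map Y.subtype)))).map
      (Subgroup.subtype _)).Normal := Helper47.normal_map_of_characteristic _ _
  have hYtn := hOtn.comap (QuotientGroup.mk' ((Cfsg.pCore p ↥Y).map Y.subtype))
  have hYtY : ((Cfsg.pCore t ↥(Y.map (QuotientGroup.mk' ((Cfsg.pCore p ↥Y).map Y.subtype)))).map
      (Subgroup.subtype _)).comap (QuotientGroup.mk' ((Cfsg.pCore p ↥Y).map Y.subtype)) ≤ Y := by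
    intro z hz
    apply ipm_mem_Y_of_image_mem (p := p)
    exact Subgroup.map_subtype_le _ (Subgroup.mem_comap.mp hz)
  rcases ipm_le_K h Y hYtn hYtY with h1 | h1
  · -- the image of `Y` is a `t`-group, so `Y` is solvable
    apply hns
    have h2 := ipm_Y_le_of_normal hY hYtn h1
    have h3 : IsPGroup t ↥(Y.map (QuotientGroup.mk' ((Cfsg.pCore p ↥Y).map Y.subtype))) := by
      rintro ⟨_, y, hy, rfl⟩
      obtain ⟨w, hw, hwe⟩ := Subgroup.mem_comap.mp (h2 hy)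
      obtain ⟨k, hk⟩ := Helper47.pCore_isPGroup t
        ↥(Y.map (QuotientGroup.mk' ((Cfsg.pCore p ↥Y).map Y.subtype))) ⟨w, hw⟩
      refine ⟨k, ?_⟩
      have hk' : w ^ t ^ k = 1 := congrArg Subtype.val hk
      have hwe' : w = ⟨QuotientGroup.mk' ((Cfsg.pCore p ↥Y).map Y.subtype) y, ⟨y, hy, rfl⟩⟩ :=
        Subtype.ext hwe
      rw [← hwe']; exact hk'
    have hnil : Group.IsNilpotent
        ↥(Y.map (QuotientGroup.mk' ((Cfsg.pCore p ↥Y).map Y.subtype))) := h3.isNilpotent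
    have hs1 : Group.IsSolvable
        ↥(Y.map (QuotientGroup.mk' ((Cfsg.pCore p ↥Y).map Y.subtype))) := inferInstance
    have hnil2 : Group.IsNilpotent ↥(Cfsg.pCore p ↥Y) :=
      (Helper47.pCore_isPGroup p ↥Y).isNilpotent
    have hs2 : Group.IsSolvable ↥(Cfsg.pCore p ↥Y) := inferInstance
    refine Group.isSolvable_of_ker_le_range (Cfsg.pCore p ↥Y).subtype
      ((QuotientGroup.mk' ((Cfsg.pCore p ↥Y).map Y.subtype)).subgroupMap Y) ?_
    intro y hy
    rw [MonoidHom.mem_ker] at hy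
    have h6 : QuotientGroup.mk' ((Cfsg.pCore p ↥Y).map Y.subtype) (y : G) = 1 :=
      congrArg Subtype.val hy
    obtain ⟨w, hw, hwe⟩ := (QuotientGroup.eq_one_iff _).mp h6
    have hwy : w = y := Subtype.ext hwe
    rw [Subgroup.range_subtype, ← hwy]; exact hw
  · -- `[Y, O_p(L)] ≤ K`, hence `[Y, O_p(L)] ≤ O_p(Y)` by coprime action
    apply ipm_not_centralized h
    intro x hx q hq
    apply ipm_OY_le_pCore Y
    have hclaim : ∀ y ∈ Y, y⁻¹ * q * y * q⁻¹ ∈ (Cfsg.pCore p ↥Y).map Y.subtype := by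
      intro y hy
      obtain ⟨k, hk⟩ := ipm_Q_isPGroup (p := p) L ⟨q, hq⟩
      have hk' : q ^ p ^ k = 1 := congrArg Subtype.val hk
      have hcK : y⁻¹ * q * y * q⁻¹ ∈ (L ⊓ Y).normalCore := by
        have h2 := h1 (hkc q hq y⁻¹ (Y.inv_mem hy))
        rwa [inv_inv] at h2
      have hcY : y⁻¹ * q * y * q⁻¹ ∈ Y := ipm_K_le_Y L Y hcK
      have hconj : QuotientGroup.mk' ((Cfsg.pCore p ↥Y).map Y.subtype) q *
          QuotientGroup.mk' ((Cfsg.pCore p ↥Y).map Y.subtype) y *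
          (QuotientGroup.mk' ((Cfsg.pCore p ↥Y).map Y.subtype) q)⁻¹ =
          QuotientGroup.mk' ((Cfsg.pCore p ↥Y).map Y.subtype) y *
          QuotientGroup.mk' ((Cfsg.pCore p ↥Y).map Y.subtype) (y⁻¹ * q * y * q⁻¹) := by
        rw [← map_inv, ← map_mul, ← map_mul, ← map_mul]
        congr 1
        group
      have hcomm : Commute (QuotientGroup.mk' ((Cfsg.pCore p ↥Y).map Y.subtype) q)
          (QuotientGroup.mk' ((Cfsg.pCore p ↥Y).map Y.subtype) (y⁻¹ * q * y * q⁻¹)) := by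
        have h2 := ipm_normal_comm_Q hKn (ipm_K_le_L L Y) hcK hq
        have h3 : (y⁻¹ * q * y * q⁻¹) * q * (y⁻¹ * q * y * q⁻¹)⁻¹ * q⁻¹ ∈
            (Cfsg.pCore p ↥Y).map Y.subtype := by
          apply ipm_inf_pCore_le_OY Y
          exact Subgroup.mem_inf.mpr ⟨ipm_K_le_Y L Y (Subgroup.mem_inf.mp h2).1,
            ipm_normal_inf_Q_le_pCore hKn (ipm_K_le_L L Y) h2⟩
        have h4 : QuotientGroup.mk' ((Cfsg.pCore p ↥Y).map Y.subtype)
            ((y⁻¹ * q * y * q⁻¹) * q * (y⁻¹ * q * y * q⁻¹)⁻¹ * q⁻¹) = 1 :=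
          (QuotientGroup.eq_one_iff _).mpr h3
        rw [map_mul, map_mul, map_mul, map_inv, map_inv] at h4
        have h5 := mul_inv_eq_one.mp h4
        have h6 := mul_inv_eq_iff_eq_mul.mp h5
        exact h6.symm
      have hpow := ipm_pow_conj hconj hcomm (p ^ k)
      rw [← map_pow, hk', map_one, one_mul, inv_one, mul_one] at hpow
      have hd1 : (QuotientGroup.mk' ((Cfsg.pCore p ↥Y).map Y.subtype)
          (y⁻¹ * q * y * q⁻¹)) ^ p ^ k = 1 := by
        have h7 : QuotientGroup.mk' ((Cfsg.pCore p ↥Y).map Y.subtype) y * 1 =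
            QuotientGroup.mk' ((Cfsg.pCore p ↥Y).map Y.subtype) y *
            (QuotientGroup.mk' ((Cfsg.pCore p ↥Y).map Y.subtype) (y⁻¹ * q * y * q⁻¹)) ^ p ^ k := by
          rw [mul_one]; exact hpow
        exact (mul_left_cancel h7).symm
      exact ipm_pElt_mem_of_not_dvd' hnd hcY hd1
    have h8 := hclaim x⁻¹ (Y.inv_mem (ipm_X_le_Y hY hx))
    rwa [inv_inv] at h8

end pdvd

end Cfsg.Agent.Helper34
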