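import Mathlib
import Cfsg.Agent.Helper95.OTSDefs

set_option autoImplicit false

/-! CALL S5972 piece CYC (helper34): port of `Helper3.TI5955.ti_cyc` to symmetric forms. -/

namespace Cfsg.Agent.Helper34.OTS

open Module Polynomial
open Cfsg.Agent.Helper13.TIsp Cfsg.Agent.Helper42.SpGroup Cfsg.Agent.Helper42.SpModels
open Cfsg.Agent.Helper95.OTS

variable {F : Type*} [Field F] {V : Type*} [AddCommGroup V] [Module F V] [FiniteDimensional F V]
  (B : LinearMap.BilinForm F V)

theorem otscyc_pres (T : Module.End F V) (hT : Preserves B T) (a : ℕ) (x y : V) :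
    B ((T ^ a) x) ((T ^ a) y) = B x y := by
  induction a generalizing x y with
  | zero => simp
  | succ n ih => rw [pow_succ, Module.End.mul_apply, Module.End.mul_apply, ih, hT]

/-- PIECE CYC. -/
theorem sym_cyc (hsym : ∀ u v, B u v = B v u) (T : Module.End F V) (hT : Preserves B T) (r : ℕ)
    (hr : Odd r) (hTr : T ^ r = 1) (v : V)
    (hsum : ∑ j ∈ Finset.range r, (T ^ j) v = 0)
    (hv : ∀ j ∈ Finset.Icc 1 ((r - 1) / 2), B v ((T ^ j) v) = 0) :
    TI B (Submodule.span F (Set.range fun j : ℕ => (T ^ j) v)) ∧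
      (Submodule.span F (Set.range fun j : ℕ => (T ^ j) v)).map T ≤
        Submodule.span F (Set.range fun j : ℕ => (T ^ j) v) := by
  have hrpos : 0 < r := hr.pos
  have h1' : ∀ j, 0 < j → j < r → B v ((T ^ j) v) = 0 := by
    intro j hj0 hj
    by_cases hle : j ≤ (r - 1) / 2
    · exact hv j (Finset.mem_Icc.mpr ⟨hj0, hle⟩)
    · have hrj : r - j ∈ Finset.Icc 1 ((r - 1) / 2) := by
        obtain ⟨k, rfl⟩ := hr
        rw [Finset.mem_Icc]
        have : (2 * k + 1 - 1) / 2 = k := by omega
        rw [this] at hle ⊢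
        omega
      have h2 := hv (r - j) hrj
      have h3 := otscyc_pres B T hT (r - j) v ((T ^ j) v)
      rw [← Module.End.mul_apply, ← pow_add, Nat.sub_add_cancel hj.le, hTr,
        Module.End.one_apply] at h3
      rw [← h3, hsym, h2]
  have h0 : B v v = 0 := by
    have h := congrArg (B v) hsum
    rw [map_sum, map_zero] at h
    rw [Finset.sum_eq_single 0] at h
    · simpa using h
    · intro j hj hj0
      exact h1' j (Nat.pos_of_ne_zero hj0) (Finset.mem_range.mp hj)
    · intro h'
      exact absurd (Finset.mem_range.mpr hrpos) h'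
  have h1 : ∀ j, j < r → B v ((T ^ j) v) = 0 := by
    intro j hj
    rcases Nat.eq_zero_or_pos j with rfl | hj0
    · simpa using h0
    · exact h1' j hj0 hj
  have h2 : ∀ j, B v ((T ^ j) v) = 0 := by
    intro j
    have : T ^ j = T ^ (j % r) := by
      conv_lhs => rw [← Nat.div_add_mod j r, pow_add, pow_mul, hTr, one_pow, one_mul]
    rw [this]
    exact h1 _ (Nat.mod_lt _ hrpos)
  have h3 : ∀ a b, B ((T ^ a) v) ((T ^ b) v) = 0 := by
    have key : ∀ a b, a ≤ b → B ((T ^ a) v) ((T ^ b) v) = 0 := by
      intro a b hab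
      obtain ⟨c, rfl⟩ := Nat.exists_eq_add_of_le hab
      rw [pow_add, Module.End.mul_apply, otscyc_pres B T hT]
      exact h2 c
    intro a b
    rcases le_total a b with h | h
    · exact key a b h
    · rw [hsym, key b a h]
  refine ⟨?_, ?_⟩
  · intro u hu w hw
    induction hu using Submodule.span_induction with
    | mem x hx =>
      obtain ⟨a, rfl⟩ := hx
      induction hw using Submodule.span_induction with
      | mem y hy => obtain ⟨b, rfl⟩ := hy; exact h3 a b
      | zero => simp
      | add y z _ _ hy hz => rw [map_add, hy, hz, add_zero]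
      | smul c y _ hy => rw [map_smul, hy, smul_zero]
    | zero => simp
    | add x y _ _ hx hy => rw [map_add, LinearMap.add_apply, hx, hy, add_zero]
    | smul c x _ hx => rw [map_smul, LinearMap.smul_apply, hx, smul_zero]
  · rw [Submodule.map_span]
    apply Submodule.span_mono
    rintro _ ⟨_, ⟨j, rfl⟩, rfl⟩
    exact ⟨j + 1, by simp [pow_succ']⟩

end Cfsg.Agent.Helper34.OTS
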