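import Mathlib
import Cfsg.Agent.Helper95.OTSDefs

set_option autoImplicit false

/-! CALL S5972 piece ORTHB (helper34): an orthogonal basis of a nondegenerate subspace, as a list. -/

namespace Cfsg.Agent.Helper34.OTS

open Module Polynomial
open Cfsg.Agent.Helper13.TIsp Cfsg.Agent.Helper42.SpGroup Cfsg.Agent.Helper42.SpModels
open Cfsg.Agent.Helper95.OTS

variable {F : Type*} [Field F] {V : Type*} [AddCommGroup V] [Module F V] [FiniteDimensional F V]
  (B : LinearMap.BilinForm F V)

/-- PIECE ORTHB. -/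
theorem sym_orthb (hsym : ∀ u v, B u v = B v u) (h2 : (2 : F) ≠ 0) (D : Submodule F V)
    (hD : NondegOn B D) :
    ∃ vs : List V, (∀ v ∈ vs, v ∈ D) ∧ vs.Pairwise (fun u v => B u v = 0) ∧
      (∀ v ∈ vs, B v v ≠ 0) ∧ Submodule.span F {v | v ∈ vs} = D ∧ vs.length = finrank F D := by
  classical
  have : Invertible (2 : F) := invertibleOfNonzero h2
  have hS : LinearMap.IsSymm (B.restrict D) :=
    LinearMap.BilinForm.isSymm_iff.mp ⟨fun x y => hsym x y⟩
  obtain ⟨b, hb⟩ := LinearMap.BilinForm.exists_orthogonal_basis hS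
  have hsep : (B.restrict D).SeparatingLeft := by
    intro x hx
    apply Subtype.ext
    exact hD x.1 x.2 (fun w hw => hx ⟨w, hw⟩)
  have hself : ∀ i, (B.restrict D) (b i) (b i) ≠ 0 :=
    fun i => hb.not_isOrtho_basis_self_of_separatingLeft hsep i
  refine ⟨List.ofFn (fun i => (b i : V)), ?_, ?_, ?_, ?_, ?_⟩
  · intro v hv
    rw [List.mem_ofFn] at hv
    obtain ⟨i, rfl⟩ := hv
    exact (b i).2
  · rw [List.pairwise_ofFn]
    intro i j hij
    exact hb (ne_of_lt hij)
  · intro v hv
    rw [List.mem_ofFn] at hv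
    obtain ⟨i, rfl⟩ := hv
    exact hself i
  · have hset : {v | v ∈ List.ofFn (fun i => (b i : V))} = D.subtype '' Set.range b := by
      ext v
      simp only [Set.mem_ofPred_eq, List.mem_ofFn, Set.mem_image, Set.mem_range]
      constructor
      · rintro ⟨i, rfl⟩
        exact ⟨b i, ⟨i, rfl⟩, rfl⟩
      · rintro ⟨_, ⟨i, rfl⟩, rfl⟩
        exact ⟨i, rfl⟩
    rw [hset, ← Submodule.map_span, b.span_eq, Submodule.map_top, Submodule.range_subtype]
  · rw [List.length_ofFn]

end Cfsg.Agent.Helper34.OTS
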