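import Cfsg.Agent.Helper85.PiDefs
import Cfsg.Agent.Helper85.PiGen
import Cfsg.Agent.Helper84.FusionSat2

/-!
# CALL S5113 (helper85), piece CX: a fully normalized `P ≤ T` not satisfying `PiH` has its centralizer
outside `T`
-/

set_option autoImplicit false

namespace Cfsg.Agent.Helper34.PiCX

open Cfsg Cfsg.FusionSystem Cfsg.Agent.Helper85 Cfsg.Agent.Helper88

variable {Ω : Type*} [Group Ω] {S : Subgroup Ω}

theorem pi_cent_not_le [Finite S] {p : ℕ} [Fact p.Prime] (hS : IsPGroup p S) {F : FusionSystem S}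
    {T : Subgroup Ω} (hh : PiHyp F p T) {P : Subgroup Ω} (hP : F.IsFullyNormalized P) (hPT : P ≤ T)
    (hnot : ¬ PiH F T P) : ¬ centralizerIn S P ≤ T := by
  intro hCP
  -- a conjugate with centralizer outside `T`
  have hex : ∃ P'' : Subgroup Ω, F.IsConj P P'' ∧ ¬ centralizerIn S P'' ≤ T := by
    by_contra hcon
    push Not at hcon
    exact hnot ⟨hPT, hcon⟩
  obtain ⟨P'', hconj, hC⟩ := hex
  obtain ⟨c, hcC, hcT⟩ : ∃ c ∈ centralizerIn S P'', c ∉ T := by
    by_contra hcon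
    push Not at hcon
    exact hC hcon
  obtain ⟨hPa, hPr⟩ := Cfsg.Agent.Helper84.saturated_fullyNormalized hS F hh.sat hP
  obtain ⟨f, hf, himg⟩ := Cfsg.Agent.Helper88.exists_normalizer_map hS hPa hPr
    (Cfsg.Agent.Helper88.isConj_symm F hconj)
  have hP''S : P'' ≤ S := by
    obtain ⟨θ, hθ, -⟩ := (Cfsg.Agent.Helper88.isConj_iff F).mp (Cfsg.Agent.Helper88.isConj_symm F hconj)
    exact hθ.le
  have hP''N : P'' ≤ normalizerIn S P'' := Cfsg.Agent.Helper84.le_normalizerIn hP''S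
  have hcN : c ∈ normalizerIn S P'' := Cfsg.Agent.Helper84.centralizerIn_le_normalizerIn S P'' hcC
  obtain ⟨hcS, hccomm⟩ := mem_centralizerIn_iff.mp hcC
  -- `f c` centralizes `P`
  have hfc : f c ∈ centralizerIn S P := by
    rw [mem_centralizerIn_iff]
    refine ⟨hf.mem hcN, ?_⟩
    intro y hy
    rw [← himg] at hy
    obtain ⟨x, hx, rfl⟩ := (hf.restrict hP''N).mem_img.mp hy
    rw [← hf.map_mul (hP''N hx) hcN, ← hf.map_mul hcN (hP''N hx), hccomm x hx]
  -- `f c ∉ T`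
  obtain ⟨g, hg, hgf, -, -⟩ := hf.exists_inv
  have hfcT : f c ∈ T := hCP hfc
  have h1 := pi_mapsTo hS hh hg (f c) (hf.apply_mem_img hcN) hfcT
  rw [hgf c hcN] at h1
  exact hcT h1

end Cfsg.Agent.Helper34.PiCX
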