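import Cfsg.Agent.Helper85.PiDefs
import Cfsg.Agent.Helper85.PiGen
import Cfsg.Agent.Helper84.FusionSat2

/-!
# CALL S5113 (helper85), piece GI: existence of charts
-/

set_option autoImplicit false

namespace Cfsg.Agent.Helper34.PiGI

open Cfsg Cfsg.FusionSystem Cfsg.Agent.Helper85 Cfsg.Agent.Helper88

variable {Ω : Type*} [Group Ω] {S : Subgroup Ω}

theorem pi_exists_good [Finite S] {p : ℕ} [Fact p.Prime] (hS : IsPGroup p S) {F : FusionSystem S}
    {T : Subgroup Ω} (hh : PiHyp F p T) (hfr : PiFrat F p T) : PiGi F p T := by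
  intro R A hR hAR hAT
  obtain ⟨hRa, hRr⟩ := Cfsg.Agent.Helper84.saturated_fullyNormalized hS F hh.sat hR
  obtain ⟨f, hf, himg⟩ := Cfsg.Agent.Helper88.exists_normalizer_map hS hRa hRr hAR
  have hle : normalizerIn T A ≤ normalizerIn S A := inf_le_inf_right _ hh.le
  have hf' : IsMap F (normalizerIn T A) f := hf.restrict hle
  have hNT : normalizerIn T A ≤ T := inf_le_left
  obtain ⟨s, hs, hgen⟩ := hfr (normalizerIn T A) f hf' hNT
  exact ⟨f, s, hf', himg, hs, hgen⟩

end Cfsg.Agent.Helper34.PiGI
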