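/-
Helper library of seat helper34: invariant `p'`-subgroups in a group `X` with a normal
`p`-subgroup `Q` such that `C_X(Q) ≤ Q` (`p` odd).  If `A` is an abelian `p`-subgroup containing
every element of order dividing `p` of `C_Q(A)`, then every `A`-invariant `p'`-subgroup of `X`
is trivial (`sig_core`).
-/
import Mathlib
import Cfsg.Agent.Helper34.FrobAct
import Cfsg.Agent.Helper35.CoprimeGen2
import Cfsg.Agent.Helper54.PConstrained

set_option autoImplicit false

namespace Cfsg.Agent.Helper34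

open Subgroup

section SigCore

variable {X : Type*} [Group X]

theorem mem_centralizer_sup' {E B : Subgroup X} {k : X} (h1 : k ∈ centralizer (E : Set X))
    (h2 : k ∈ centralizer (B : Set X)) : k ∈ centralizer ((E ⊔ B : Subgroup X) : Set X) := by
  have hle : E ⊔ B ≤ centralizer ({k} : Set X) := by
    refine sup_le ?_ ?_
    · intro x hx
      rw [mem_centralizer_iff]
      intro h hh
      rw [Set.mem_singleton_iff] at hh
      subst hh
      exact (mem_centralizer_iff.mp h1 x hx).symm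
    · intro x hx
      rw [mem_centralizer_iff]
      intro h hh
      rw [Set.mem_singleton_iff] at hh
      subst hh
      exact (mem_centralizer_iff.mp h2 x hx).symm
  rw [mem_centralizer_iff]
  intro x hx
  exact ((mem_centralizer_iff.mp (hle hx)) k rfl).symm

theorem mem_centralizer_zpowers' {k g : X} (h : g * k = k * g) :
    k ∈ centralizer ((zpowers g : Subgroup X) : Set X) := by
  have hle : zpowers g ≤ centralizer ({k} : Set X) := by
    rw [zpowers_le, mem_centralizer_iff]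
    intro h' hh
    rw [Set.mem_singleton_iff] at hh
    subst hh
    exact h.symm
  rw [mem_centralizer_iff]
  intro x hx
  exact ((mem_centralizer_iff.mp (hle hx)) k rfl).symm

/-- Let `Q` be a normal `p`-subgroup of the finite group `X` with `C_X(Q) ≤ Q`, `p` odd, and `A`
an abelian `p`-subgroup containing every element of order dividing `p` of `C_Q(A)`.  Then the
only `p'`-subgroup of `X` normalized by `A` is the trivial one. -/
theorem sig_core [Finite X] {p : ℕ} [Fact p.Prime] (hp2 : p ≠ 2) (Q : Subgroup X) [hQn : Q.Normal]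
    (hQ : IsPGroup p Q) (hCQ : centralizer (Q : Set X) ≤ Q)
    (A : Subgroup X) (hAab : ∀ a ∈ A, ∀ b ∈ A, a * b = b * a) (hAp : IsPGroup p A)
    (hΩ : ∀ x ∈ Q, x ^ p = 1 → (∀ a ∈ A, a * x = x * a) → x ∈ A)
    (K : Subgroup X) (hKp : (Nat.card K).Coprime p) (hAK : A ≤ normalizer (K : Set X)) :
    K = ⊥ := by
  classical
  by_contra hK1
  have hKQ1 : ∀ x, x ∈ K → x ∈ Q → x = 1 := fun x hxK hxQ =>
    Helper54.eq_one_of_mem_pgroup_of_mem_coprime hQ hKp hxQ hxK
  have hQA : ∀ x ∈ Q, x ∈ A → ∀ k ∈ K, k * x = x * k := by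
    intro x hxQ hxA k hk
    have h1 : k * x * k⁻¹ * x⁻¹ ∈ K := by
      have : x * k⁻¹ * x⁻¹ ∈ K := (Subgroup.mem_normalizer_iff.mp (hAK hxA) k⁻¹).mp (K.inv_mem hk)
      have e : k * x * k⁻¹ * x⁻¹ = k * (x * k⁻¹ * x⁻¹) := by group
      rw [e]; exact K.mul_mem hk this
    have h2 : k * x * k⁻¹ * x⁻¹ ∈ Q := Q.mul_mem (hQn.conj_mem x hxQ k) (Q.inv_mem hxQ)
    have h3 := hKQ1 _ h1 h2
    calc k * x = (k * x * k⁻¹ * x⁻¹) * x * k := by group
      _ = x * k := by rw [h3, one_mul]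
  -- a subgroup `E₁` of `A` of maximal order with `C_K(E₁) ≠ 1`
  let S : Set (Subgroup X) := {E | E ≤ A ∧ K ⊓ centralizer (E : Set X) ≠ ⊥}
  have hSfin : S.Finite := Set.toFinite S
  have hSne : S.Nonempty := by
    refine ⟨⊥, bot_le, ?_⟩
    intro h
    apply hK1
    rw [eq_bot_iff]
    intro k hk
    have hkc : k ∈ centralizer (((⊥ : Subgroup X) : Subgroup X) : Set X) := by
      rw [mem_centralizer_iff]
      intro x hx
      have hx1 : x = 1 := Subgroup.mem_bot.mp hx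
      rw [hx1, one_mul, mul_one]
    have : k ∈ K ⊓ centralizer (((⊥ : Subgroup X) : Subgroup X) : Set X) := ⟨hk, hkc⟩
    rw [h] at this
    exact this
  obtain ⟨E₁, hE₁S, hE₁max⟩ := Set.exists_max_image S (fun E => Nat.card E) hSfin hSne
  obtain ⟨hE₁A, hE₁ne⟩ := hE₁S
  have hAK₁ : A ≤ normalizer ((K ⊓ centralizer (E₁ : Set X) : Subgroup X) : Set X) :=
    Helper35.le_normalizer_inf_centralizer hAab hAK hE₁A
  have hK₁p : (Nat.card (K ⊓ centralizer (E₁ : Set X) : Subgroup X)).Coprime p :=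
    Nat.Coprime.coprime_dvd_left (Subgroup.card_dvd_of_le inf_le_left) hKp
  have hcopA : (Nat.card A).Coprime (Nat.card (K ⊓ centralizer (E₁ : Set X) : Subgroup X)) := by
    obtain ⟨e, he⟩ := IsPGroup.iff_card.mp hAp
    rw [he]; exact (Nat.Coprime.pow_right e hK₁p).symm
  have hgen := Helper35.coprime_gen_cyclic_quotient hAab hAK₁ hcopA
  obtain ⟨B, ⟨hBA, a, haA, hBa⟩, hB1⟩ : ∃ B, (B ≤ A ∧ ∃ a ∈ A, B ⊔ zpowers a = A) ∧
      (K ⊓ centralizer (E₁ : Set X)) ⊓ centralizer (B : Set X) ≠ ⊥ := by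
    by_contra hno
    push Not at hno
    apply hE₁ne
    rw [eq_bot_iff]
    calc K ⊓ centralizer (E₁ : Set X) = _ := hgen
      _ ≤ ⊥ := iSup₂_le (fun B hB => (hno B hB).le)
  have hBE : B ≤ E₁ := by
    have hS' : E₁ ⊔ B ∈ S := by
      refine ⟨sup_le hE₁A hBA, ?_⟩
      intro h
      apply hB1
      rw [eq_bot_iff, ← h]
      intro k hk
      exact ⟨hk.1.1, mem_centralizer_sup' hk.1.2 hk.2⟩
    have hcard := hE₁max _ hS'
    have hle : E₁ ⊔ B ≤ E₁ := (Subgroup.eq_of_le_of_card_ge le_sup_left hcard).ge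
    exact le_sup_right.trans hle
  have hAeq : E₁ ⊔ zpowers a = A :=
    le_antisymm (sup_le hE₁A (zpowers_le.mpr haA)) (by rw [← hBa]; exact sup_le_sup_right hBE _)
  have hex : ∃ n, 0 < n ∧ a ^ n ∈ E₁ :=
    ⟨orderOf a, orderOf_pos a, by rw [pow_orderOf_eq_one]; exact E₁.one_mem⟩
  have hn : 0 < Nat.find hex ∧ a ^ Nat.find hex ∈ E₁ := Nat.find_spec hex
  have hnmin : ∀ i, 0 < i → i < Nat.find hex → a ^ i ∉ E₁ :=
    fun i hi hin h => Nat.find_min hex hin ⟨hi, h⟩
  have hfpf : ∀ i, 0 < i → i < Nat.find hex → ∀ k ∈ K ⊓ centralizer (E₁ : Set X),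
      a ^ i * k = k * a ^ i → k = 1 := by
    intro i hi hin k hk hcomm
    by_contra hk1
    have hS' : E₁ ⊔ zpowers (a ^ i) ∈ S := by
      refine ⟨sup_le hE₁A (zpowers_le.mpr (A.pow_mem haA i)), ?_⟩
      intro h
      apply hk1
      have : k ∈ K ⊓ centralizer ((E₁ ⊔ zpowers (a ^ i) : Subgroup X) : Set X) :=
        ⟨hk.1, mem_centralizer_sup' hk.2 (mem_centralizer_zpowers' hcomm)⟩
      rw [h] at this
      exact Subgroup.mem_bot.mp this
    have hcard := hE₁max _ hS'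
    have hle : E₁ ⊔ zpowers (a ^ i) ≤ E₁ := (Subgroup.eq_of_le_of_card_ge le_sup_left hcard).ge
    exact hnmin i hi hin (hle (mem_sup_right (mem_zpowers _)))
  have hQ₁p : IsPGroup p (Q ⊓ centralizer (E₁ : Set X) : Subgroup X) := hQ.to_le inf_le_left
  have hNQ : normalizer (Q : Set X) = ⊤ := Subgroup.normalizer_eq_top Q
  have hAQ : A ≤ normalizer (Q : Set X) := by rw [hNQ]; exact le_top
  have hAQ₁ : A ≤ normalizer ((Q ⊓ centralizer (E₁ : Set X) : Subgroup X) : Set X) :=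
    Helper35.le_normalizer_inf_centralizer hAab hAQ hE₁A
  have hK₁Q₁ : K ⊓ centralizer (E₁ : Set X) ≤
      normalizer ((Q ⊓ centralizer (E₁ : Set X) : Subgroup X) : Set X) := by
    intro k hk
    apply Helper24.mem_normalizer_of_conj_mem
    · intro x hx
      exact ⟨hQn.conj_mem x hx.1 k,
        (centralizer _).mul_mem ((centralizer _).mul_mem hk.2 hx.2) ((centralizer _).inv_mem hk.2)⟩
    · intro x hx
      refine ⟨?_,
        (centralizer _).mul_mem ((centralizer _).mul_mem ((centralizer _).inv_mem hk.2) hx.2) hk.2⟩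
      have := hQn.conj_mem x hx.1 k⁻¹
      simpa using this
  have hun : ∀ x ∈ Q ⊓ centralizer (E₁ : Set X), a ^ Nat.find hex * x = x * a ^ Nat.find hex :=
    fun x hx => mem_centralizer_iff.mp hx.2 _ hn.2
  have hΩ' : ∀ x ∈ Q ⊓ centralizer (E₁ : Set X), x ^ p = 1 → a * x = x * a →
      ∀ k ∈ K ⊓ centralizer (E₁ : Set X), k * x = x * k := by
    intro x hx hxp hax k hk
    refine hQA x hx.1 ?_ k hk.1
    apply hΩ x hx.1 hxp
    intro b hb
    rw [← hAeq] at hb
    have : x ∈ centralizer ((E₁ ⊔ zpowers a : Subgroup X) : Set X) :=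
      mem_centralizer_sup' hx.2 (mem_centralizer_zpowers' hax)
    exact mem_centralizer_iff.mp this b hb
  have hfc := frob_centralizes hp2 (K ⊓ centralizer (E₁ : Set X)) a (Nat.find hex) hn.1 hK₁p
    (hAK₁ haA) hfpf (Nat.card (Q ⊓ centralizer (E₁ : Set X) : Subgroup X))
    (Q ⊓ centralizer (E₁ : Set X)) le_rfl hQ₁p hK₁Q₁ (hAQ₁ haA) hun hΩ'
  have hE₁p : IsPGroup p E₁ := hAp.to_le hE₁A
  have hK₁E₁ : ⁅K ⊓ centralizer (E₁ : Set X), E₁⁆ = ⊥ :=
    Subgroup.commutator_eq_bot_iff_le_centralizer.mpr inf_le_right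
  have hK₁Q : K ⊓ centralizer (E₁ : Set X) ≤ normalizer (Q : Set X) := by rw [hNQ]; exact le_top
  have hE₁Q : E₁ ≤ normalizer (Q : Set X) := by rw [hNQ]; exact le_top
  have hQc : Q ≤ centralizer ((K ⊓ centralizer (E₁ : Set X) : Subgroup X) : Set X) :=
    Helper24.thompson_AxB (K ⊓ centralizer (E₁ : Set X)) E₁ hE₁p hK₁E₁ hK₁p (Nat.card Q) Q le_rfl
      hQ hK₁Q hE₁Q hfc
  have hK₁c : K ⊓ centralizer (E₁ : Set X) ≤ centralizer (Q : Set X) :=
    Subgroup.le_centralizer_iff.mp hQc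
  apply hE₁ne
  rw [eq_bot_iff]
  intro k hk
  exact Subgroup.mem_bot.mpr (hKQ1 k hk.1 (hCQ (hK₁c hk)))

end SigCore

end Cfsg.Agent.Helper34
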